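/-
Averaging over a finite subgroup of invertible order, and consequences: irreducible submodules of
invariant subspaces, complements (Maschke).
-/
import Cfsg.Agent.Lib.HallHigman.Irr

set_option autoImplicit false

namespace Cfsg.Agent.Lib.Gross.Avg

open Module Cfsg.Agent.Lib.HallHigman.Irr

universe u v w

variable {K : Type u} [Field K] {V : Type v} [AddCommGroup V] [Module K V] {H : Type w} [Group H]

/-- The average over a finite subgroup. -/
noncomputable def avg (ρ : H →* End K V) (Q : Subgroup H) [Finite Q] : End K V :=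
  letI := Fintype.ofFinite Q
  ((Nat.card Q : ℕ) : K)⁻¹ • ∑ g : Q, ρ g.1

variable (ρ : H →* End K V) (Q : Subgroup H) [Finite Q]

theorem avg_mul_rho {h : H} (hh : h ∈ Q) : avg ρ Q * ρ h = avg ρ Q := by
  letI := Fintype.ofFinite Q
  simp only [avg, smul_mul_assoc, Finset.sum_mul]
  congr 1
  refine Fintype.sum_equiv (Equiv.mulRight (⟨h, hh⟩ : Q)) _ _ (fun g => ?_)
  simp [← map_mul]

theorem rho_mul_avg {h : H} (hh : h ∈ Q) : ρ h * avg ρ Q = avg ρ Q := by
  letI := Fintype.ofFinite Q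
  simp only [avg, mul_smul_comm, Finset.mul_sum]
  congr 1
  refine Fintype.sum_equiv (Equiv.mulLeft (⟨h, hh⟩ : Q)) _ _ (fun g => ?_)
  simp [← map_mul]

variable {ρ Q}

theorem avg_fixed {h : H} (hh : h ∈ Q) (v : V) : ρ h (avg ρ Q v) = avg ρ Q v := by
  rw [← Module.End.mul_apply, rho_mul_avg ρ Q hh]

theorem avg_apply_rho {h : H} (hh : h ∈ Q) (v : V) : avg ρ Q (ρ h v) = avg ρ Q v := by
  rw [← Module.End.mul_apply, avg_mul_rho ρ Q hh]

theorem avg_apply_of_fixed (hc : (Nat.card Q : K) ≠ 0) {v : V} (hv : ∀ g ∈ Q, ρ g v = v) :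
    avg ρ Q v = v := by
  letI := Fintype.ofFinite Q
  simp only [avg, LinearMap.smul_apply, LinearMap.sum_apply]
  rw [Finset.sum_congr rfl (fun g _ => hv g.1 g.2)]
  simp only [Finset.sum_const, Finset.card_univ]
  rw [← Nat.card_eq_fintype_card, ← Nat.cast_smul_eq_nsmul K, smul_smul, inv_mul_cancel₀ hc, one_smul]

theorem avg_idem (hc : (Nat.card Q : K) ≠ 0) : avg ρ Q * avg ρ Q = avg ρ Q := by
  ext v
  rw [Module.End.mul_apply]
  exact avg_apply_of_fixed hc (fun g hg => avg_fixed hg v)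

/-- The average commutes with the normalizer. -/
theorem avg_comm {s : H} (hs : s ∈ Subgroup.normalizer (Q : Set H)) : ρ s * avg ρ Q = avg ρ Q * ρ s := by
  letI := Fintype.ofFinite Q
  simp only [avg, mul_smul_comm, smul_mul_assoc, Finset.mul_sum, Finset.sum_mul]
  congr 1
  let e : Q ≃ Q :=
    { toFun := fun g => ⟨s * g.1 * s⁻¹, conj_mem_of_mem_normalizer hs g.2⟩
      invFun := fun g => ⟨s⁻¹ * g.1 * s, inv_conj_mem_of_mem_normalizer hs g.2⟩
      left_inv := fun g => Subtype.ext (by simp [mul_assoc])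
      right_inv := fun g => Subtype.ext (by simp [mul_assoc]) }
  refine Fintype.sum_equiv e _ _ (fun g => ?_)
  change ρ s * ρ g.1 = ρ (s * g.1 * s⁻¹) * ρ s
  rw [← map_mul, ← map_mul]
  simp

theorem avg_apply_comm {s : H} (hs : s ∈ Subgroup.normalizer (Q : Set H)) (v : V) :
    ρ s (avg ρ Q v) = avg ρ Q (ρ s v) := by
  rw [← Module.End.mul_apply, avg_comm hs, Module.End.mul_apply]

theorem isInv_ker_avg {Q' : Subgroup H} (h : Q' ≤ Subgroup.normalizer (Q : Set H)) :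
    IsInv ρ Q' (LinearMap.ker (avg ρ Q)) := by
  intro g hg w hw
  have hw' : avg ρ Q w = 0 := hw
  change avg ρ Q (ρ g w) = 0
  rw [← avg_apply_comm (h hg), hw', map_zero]

theorem isInv_ker_avg_self : IsInv ρ Q (LinearMap.ker (avg ρ Q)) :=
  isInv_ker_avg Subgroup.le_normalizer

/-- An operator commuting with `Q` commutes with the average. -/
theorem avg_commute {f : End K V} (hf : ∀ g ∈ Q, ρ g * f = f * ρ g) : avg ρ Q * f = f * avg ρ Q := by
  letI := Fintype.ofFinite Q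
  simp only [avg, smul_mul_assoc, mul_smul_comm, Finset.sum_mul, Finset.mul_sum]
  congr 1
  exact Finset.sum_congr rfl (fun g _ => hf g.1 g.2)

/-- Averages over `Z` normalizing `D` commute. -/
theorem avg_comm_avg {Z D : Subgroup H} [Finite Z] [Finite D]
    (h : Z ≤ Subgroup.normalizer (D : Set H)) : avg ρ Z * avg ρ D = avg ρ D * avg ρ Z :=
  avg_commute (fun _ hz => avg_comm (h hz))

/-- The average over a subgroup absorbs. -/
theorem avg_mul_avg_of_le {Z : Subgroup H} [Finite Z] (hc : (Nat.card Z : K) ≠ 0) (h : Z ≤ Q) :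
    avg ρ Q * avg ρ Z = avg ρ Q := by
  letI := Fintype.ofFinite Z
  have h1 : ∀ z : Z, avg ρ Q * ρ z.1 = avg ρ Q := fun z => avg_mul_rho ρ Q (h z.2)
  have e : avg ρ Z = ((Nat.card Z : ℕ) : K)⁻¹ • ∑ g : Z, ρ g.1 := by
    simp only [avg]
  rw [e, mul_smul_comm, Finset.mul_sum, Finset.sum_congr rfl (fun g _ => h1 g)]
  simp only [Finset.sum_const, Finset.card_univ]
  rw [← Nat.card_eq_fintype_card, ← Nat.cast_smul_eq_nsmul K, smul_smul, inv_mul_cancel₀ hc, one_smul]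

omit [Finite Q] in
/-- Nonzero invariant subspaces contain irreducible subspaces. -/
theorem exists_irr_le [FiniteDimensional K V] {S : Submodule K V} (hS : S ≠ ⊥) (hI : IsInv ρ Q S) :
    ∃ A, A ≤ S ∧ IsIrr ρ Q A := by
  let P : Submodule K V → Prop := fun W' => W' ≠ ⊥ ∧ W' ≤ S ∧ IsInv ρ Q W'
  obtain ⟨A, hA⟩ := exists_minimal_of_wellFoundedLT P ⟨S, hS, le_rfl, hI⟩
  obtain ⟨h1, h2, h3⟩ := hA.1
  refine ⟨A, h2, h1, h3, fun W' hW' hinv => ?_⟩
  by_cases h0 : W' = ⊥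
  · exact Or.inl h0
  · exact Or.inr (le_antisymm hW' (hA.2 ⟨h0, hW'.trans h2, hinv⟩ hW'))

/-- Maschke: if `S < C`, there is an irreducible in `C` meeting `S` trivially. -/
theorem exists_irr_inf_bot [FiniteDimensional K V] (hc : (Nat.card Q : K) ≠ 0) {S C : Submodule K V}
    (hS : IsInv ρ Q S) (hC : IsInv ρ Q C) (hlt : S < C) :
    ∃ A, A ≤ C ∧ IsIrr ρ Q A ∧ A ⊓ S = ⊥ := by
  classical
  letI := Fintype.ofFinite Q
  obtain ⟨π₀, hπ₀⟩ := LinearMap.exists_extend (LinearMap.id : S →ₗ[K] S)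
  have hπ₀s : ∀ s : S, π₀ s = s := fun s => LinearMap.congr_fun hπ₀ s
  let π₁ : End K V := S.subtype ∘ₗ π₀
  have hπ₁s : ∀ s ∈ S, π₁ s = s := by
    intro s hs
    have h1 := hπ₀s ⟨s, hs⟩
    exact congrArg Subtype.val h1
  have hπ₁r : ∀ v, π₁ v ∈ S := fun v => (π₀ v).2
  let P : End K V := ((Nat.card Q : ℕ) : K)⁻¹ • ∑ g : Q, ρ g.1 * π₁ * ρ g.1⁻¹
  have hPa : ∀ v, P v = ((Nat.card Q : ℕ) : K)⁻¹ • ∑ g : Q, ρ g.1 (π₁ (ρ g.1⁻¹ v)) := by
    intro v
    simp [P, LinearMap.sum_apply, Module.End.mul_apply]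
  have hPs : ∀ s ∈ S, P s = s := by
    intro s hs
    have h1 : ∀ g : Q, ρ g.1 (π₁ (ρ g.1⁻¹ s)) = s := fun g => by
      rw [hπ₁s _ (hS _ (Q.inv_mem g.2) s hs), rho_apply_inv]
    rw [hPa, Finset.sum_congr rfl (fun g _ => h1 g)]
    simp only [Finset.sum_const, Finset.card_univ]
    rw [← Nat.card_eq_fintype_card, ← Nat.cast_smul_eq_nsmul K, smul_smul, inv_mul_cancel₀ hc, one_smul]
  have hPr : ∀ v, P v ∈ S := by
    intro v
    rw [hPa]
    exact S.smul_mem _ (S.sum_mem (fun g _ => hS _ g.2 _ (hπ₁r _)))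
  have hPc : ∀ h ∈ Q, ρ h * P = P * ρ h := by
    intro h hh
    simp only [P, mul_smul_comm, smul_mul_assoc, Finset.mul_sum, Finset.sum_mul]
    congr 1
    refine Fintype.sum_equiv (Equiv.mulLeft (⟨h, hh⟩ : Q)) _ _ (fun g => ?_)
    simp only [Equiv.coe_mulLeft, Subgroup.coe_mul, mul_inv_rev, map_mul]
    have e : ρ h⁻¹ * ρ h = 1 := by rw [← map_mul, inv_mul_cancel, map_one]
    calc ρ h * (ρ g.1 * π₁ * ρ g.1⁻¹) = ρ h * ρ g.1 * π₁ * ρ g.1⁻¹ * (ρ h⁻¹ * ρ h) := by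
          rw [e]; noncomm_ring
      _ = _ := by noncomm_ring
  have hinv : IsInv ρ Q (C ⊓ LinearMap.ker P) := by
    rintro g hg w ⟨h1, h2⟩
    refine ⟨hC g hg w h1, ?_⟩
    have h2' : P w = 0 := h2
    change P (ρ g w) = 0
    rw [← Module.End.mul_apply, ← hPc g hg, Module.End.mul_apply, h2', map_zero]
  have hne : C ⊓ LinearMap.ker P ≠ ⊥ := by
    obtain ⟨v, hv, hvS⟩ := SetLike.exists_of_lt hlt
    intro hbot
    have h1 : v - P v ∈ C ⊓ LinearMap.ker P := by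
      refine ⟨C.sub_mem hv (hlt.le (hPr v)), ?_⟩
      change P (v - P v) = 0
      rw [map_sub, hPs _ (hPr v), sub_self]
    rw [hbot, Submodule.mem_bot, sub_eq_zero] at h1
    apply hvS
    rw [h1]
    exact hPr v
  obtain ⟨A, hA, hAi⟩ := exists_irr_le hne hinv
  refine ⟨A, hA.trans inf_le_left, hAi, ?_⟩
  rw [eq_bot_iff]
  rintro s ⟨hs1, hs2⟩
  have h1 : P s = 0 := (hA hs1).2
  rw [hPs s hs2] at h1
  exact (Submodule.mem_bot K).mpr h1

/-- Irreducible subspaces in the kernel of the average are nontrivial. -/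
theorem exists_nontrivial_of_le_ker (hc : (Nat.card Q : K) ≠ 0) {A : Submodule K V}
    (hA : IsIrr ρ Q A) (hle : A ≤ LinearMap.ker (avg ρ Q)) : ∃ g ∈ Q, ∃ u ∈ A, ρ g u ≠ u := by
  by_contra hall
  push Not at hall
  obtain ⟨u, hu, hu0⟩ := Submodule.exists_mem_ne_zero_of_ne_bot hA.ne_bot
  have h1 : avg ρ Q u = 0 := hle hu
  rw [avg_apply_of_fixed hc (fun g hg => hall g hg u hu)] at h1
  exact hu0 h1

omit [Finite Q] in
/-- A subgroup normalized by `Q` and trivial on all the irreducible `Q`-submodules is trivial. -/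
theorem trivial_of_irr [FiniteDimensional K V] {Γ : Subgroup H} [Finite Γ] (hc : (Nat.card Γ : K) ≠ 0)
    (hΓ : Q ≤ Subgroup.normalizer (Γ : Set H))
    (h : ∀ A, IsIrr ρ Q A → ∀ g ∈ Γ, ∀ u ∈ A, ρ g u = u) : ∀ g ∈ Γ, ρ g = 1 := by
  intro g hg
  by_contra hne
  have hS : LinearMap.ker (avg ρ Γ) ≠ ⊥ := by
    intro hbot
    apply hne
    ext v
    have h1 : ρ g v - v ∈ LinearMap.ker (avg ρ Γ) := by
      change avg ρ Γ (ρ g v - v) = 0
      rw [map_sub, avg_apply_rho hg, sub_self]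
    rw [hbot, Submodule.mem_bot, sub_eq_zero] at h1
    simpa using h1
  obtain ⟨A, hA, hAi⟩ := exists_irr_le hS (isInv_ker_avg hΓ)
  obtain ⟨u, hu, hu0⟩ := Submodule.exists_mem_ne_zero_of_ne_bot hAi.ne_bot
  have h1 : avg ρ Γ u = 0 := hA hu
  rw [avg_apply_of_fixed hc (fun g hg => h A hAi g hg u hu)] at h1
  exact hu0 h1

end Cfsg.Agent.Lib.Gross.Avg
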