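/-
A group-theoretic lemma behind Gross's theorem on the `2`-length: a nilpotent group `G` generated by
the `a⁻¹ * τ a`, with center embedded in the units of an algebraically closed field, in which `τ` fixes
the center of the second center, has class at most two.
-/
import Mathlib

set_option autoImplicit false

namespace Cfsg.Agent.Lib.Gross.ClassTwo

universe u v

section count

variable {K : Type v} [Field K] [IsAlgClosed K]

/-- Homomorphisms into a group embedded in the units of `K`. -/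
theorem card_hom_le {A : Type u} [CommGroup A] [Finite A] {Z : Type u} [CommGroup Z] [Finite Z]
    (hA : (Nat.card A : K) ≠ 0) (l : Z →* Kˣ) (hl : Function.Injective l) :
    Nat.card (A →* Z) ≤ Nat.card A := by
  have hexp : ((Monoid.exponent A : ℕ) : K) ≠ 0 := by
    intro h
    apply hA
    obtain ⟨c, hc⟩ : Monoid.exponent A ∣ Nat.card A := Group.exponent_dvd_nat_card
    rw [hc]
    push_cast
    rw [h, zero_mul]
  haveI : NeZero ((Monoid.exponent A : ℕ) : K) := ⟨hexp⟩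
  have h1 : Nat.card (A →* Kˣ) = Nat.card A :=
    CommGroup.card_monoidHom_of_hasEnoughRootsOfUnity A K
  haveI : Finite (A →* Kˣ) := Nat.finite_of_card_ne_zero (by
    rw [h1]
    exact Nat.card_pos.ne')
  rw [← h1]
  refine Nat.card_le_card_of_injective (fun f => l.comp f) ?_
  intro f g h
  ext a
  have h2 := congrArg (fun F : A →* Kˣ => F a) h
  simp only [MonoidHom.comp_apply] at h2
  rw [hl h2]

end count

variable {G : Type u} [Group G]

/-- Membership in the second center. -/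
theorem mem_z2 {c : G} : c ∈ Subgroup.upperCentralSeries G 2 ↔ ∀ g, c * g * c⁻¹ * g⁻¹ ∈ Subgroup.center G := by
  rw [show (2 : ℕ) = 1 + 1 from rfl, Subgroup.mem_upperCentralSeries_succ_iff]
  simp only [Subgroup.upperCentralSeries_one, commutatorElement_def]

theorem center_le_z2 : Subgroup.center G ≤ Subgroup.upperCentralSeries G 2 := by
  intro z hz
  rw [mem_z2]
  intro g
  have h : z * g = g * z := (Subgroup.mem_center_iff.mp hz g).symm
  rw [h, mul_inv_cancel_right, mul_inv_cancel]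
  exact one_mem _

/-- The commutator map with a fixed element of the second center is multiplicative. -/
theorem comm_mul {c : G} (hc : c ∈ Subgroup.upperCentralSeries G 2) (g h : G) :
    c * (g * h) * c⁻¹ * (g * h)⁻¹ = (c * g * c⁻¹ * g⁻¹) * (c * h * c⁻¹ * h⁻¹) := by
  have h1 := Subgroup.mem_center_iff.mp (mem_z2.mp hc h) g⁻¹
  calc c * (g * h) * c⁻¹ * (g * h)⁻¹ = c * g * c⁻¹ * ((c * h * c⁻¹ * h⁻¹) * g⁻¹) := by group
    _ = c * g * c⁻¹ * (g⁻¹ * (c * h * c⁻¹ * h⁻¹)) := by rw [← h1]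
    _ = _ := by group

/-- The commutator map in the other variable. -/
theorem comm_mul_left {d : G} (e g : G) (hd : d ∈ Subgroup.upperCentralSeries G 2) :
    (e * d) * g * (e * d)⁻¹ * g⁻¹ = (e * g * e⁻¹ * g⁻¹) * (d * g * d⁻¹ * g⁻¹) := by
  have h1 := Subgroup.mem_center_iff.mp (mem_z2.mp hd g) e
  have h2 := Subgroup.mem_center_iff.mp (mem_z2.mp hd g) (e * g * e⁻¹ * g⁻¹)
  calc (e * d) * g * (e * d)⁻¹ * g⁻¹ = e * ((d * g * d⁻¹ * g⁻¹) * g) * e⁻¹ * g⁻¹ := by group
    _ = (e * (d * g * d⁻¹ * g⁻¹)) * g * e⁻¹ * g⁻¹ := by group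
    _ = ((d * g * d⁻¹ * g⁻¹) * e) * g * e⁻¹ * g⁻¹ := by rw [← h1]
    _ = (d * g * d⁻¹ * g⁻¹) * (e * g * e⁻¹ * g⁻¹) := by group
    _ = _ := h2.symm

/-- Fixed points in the second center are central. -/
theorem mem_center_of_fixed (τ : G ≃* G) (hgen : Subgroup.closure {g | ∃ a, g = a⁻¹ * τ a} = ⊤)
    (hZ : ∀ z ∈ Subgroup.center G, τ z = z) {c : G} (hc : c ∈ Subgroup.upperCentralSeries G 2) (hτ : τ c = c) :
    c ∈ Subgroup.center G := by
  have hf : ∀ g, c * τ g * c⁻¹ * (τ g)⁻¹ = c * g * c⁻¹ * g⁻¹ := by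
    intro g
    have h1 := hZ _ (mem_z2.mp hc g)
    rw [map_mul, map_mul, map_mul, map_inv, map_inv, hτ] at h1
    exact h1
  have h1 : Subgroup.closure {g | ∃ a, g = a⁻¹ * τ a} ≤ Subgroup.centralizer {c} := by
    rw [Subgroup.closure_le]
    rintro _ ⟨a, rfl⟩
    rw [SetLike.mem_coe, Subgroup.mem_centralizer_singleton_iff]
    have h2 := comm_mul hc a⁻¹ (τ a)
    have h3 := comm_mul hc a⁻¹ a
    rw [hf a] at h2
    rw [inv_mul_cancel, mul_one, inv_one, mul_one, mul_inv_cancel] at h3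
    rw [← h3] at h2
    have h4 : c * (a⁻¹ * τ a) * c⁻¹ * (a⁻¹ * τ a)⁻¹ = 1 := h2
    have h5 := mul_eq_one_iff_eq_inv.mp h4
    rw [inv_inv] at h5
    exact (mul_inv_eq_iff_eq_mul.mp h5).symm
  rw [hgen] at h1
  rw [Subgroup.mem_center_iff]
  intro g
  have h2 := h1 (Subgroup.mem_top g)
  rw [Subgroup.mem_centralizer_singleton_iff] at h2
  exact h2

variable [Finite G]

/-- **Class at most two.** -/
theorem class_two {K : Type v} [Field K] [IsAlgClosed K] (hnil : Group.IsNilpotent G)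
    (hcard : (Nat.card G : K) ≠ 0) (τ : G ≃* G) (hgen : Subgroup.closure {g | ∃ a, g = a⁻¹ * τ a} = ⊤)
    (l : Subgroup.center G →* Kˣ) (hl : Function.Injective l)
    (hτ : ∀ c ∈ Subgroup.upperCentralSeries G 2, (∀ d ∈ Subgroup.upperCentralSeries G 2, c * d = d * c) → τ c = c) :
    Subgroup.upperCentralSeries G 2 = ⊤ := by
  classical
  set Z2 : Subgroup G := Subgroup.upperCentralSeries G 2 with hZ2
  have hZf : ∀ z ∈ Subgroup.center G, τ z = z := fun z hz =>
    hτ z (center_le_z2 hz) (fun d _ => Subgroup.mem_center_iff.mp hz d |>.symm)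
  have hzz : ∀ c ∈ Z2, (∀ d ∈ Z2, c * d = d * c) → c ∈ Subgroup.center G := fun c hc h =>
    mem_center_of_fixed τ hgen hZf hc (hτ c hc h)
  -- the quotient of the second center
  letI instZ : CommGroup (Subgroup.center G) :=
    { (inferInstance : Group (Subgroup.center G)) with
      mul_comm := fun a b => Subtype.ext (Subgroup.mem_center_iff.mp a.2 b.1).symm }
  let Z₀ : Subgroup Z2 := (Subgroup.center G).subgroupOf Z2
  haveI hZ₀ : Z₀.Normal := inferInstanceAs ((Subgroup.center G).subgroupOf Z2).Normal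
  have hcom : ∀ a b : Z2, a * b * a⁻¹ * b⁻¹ ∈ Z₀ := by
    intro a b
    rw [Subgroup.mem_subgroupOf]
    exact mem_z2.mp a.2 b.1
  letI instA : CommGroup (Z2 ⧸ Z₀) :=
    { (inferInstance : Group (Z2 ⧸ Z₀)) with
      mul_comm := by
        intro a b
        obtain ⟨a, rfl⟩ := QuotientGroup.mk_surjective a
        obtain ⟨b, rfl⟩ := QuotientGroup.mk_surjective b
        rw [← QuotientGroup.mk_mul, ← QuotientGroup.mk_mul, QuotientGroup.eq]
        have h1 := hcom b⁻¹ a⁻¹
        convert h1 using 1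
        group }
  -- the pairing
  let φ₀ : G → Z2 →* Subgroup.center G := fun g =>
    { toFun := fun c => ⟨c.1 * g * c.1⁻¹ * g⁻¹, mem_z2.mp c.2 g⟩
      map_one' := by
        apply Subtype.ext
        simp
      map_mul' := by
        intro c d
        apply Subtype.ext
        exact comm_mul_left _ _ d.2 }
  have hφ₀Z : ∀ g, Z₀ ≤ (φ₀ g).ker := by
    intro g z hz
    rw [MonoidHom.mem_ker]
    apply Subtype.ext
    change z.1 * g * z.1⁻¹ * g⁻¹ = 1
    have h1 : z.1 * g = g * z.1 := (Subgroup.mem_center_iff.mp (Subgroup.mem_subgroupOf.mp hz) g).symm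
    rw [h1, mul_inv_cancel_right, mul_inv_cancel]
  let φ : G → (Z2 ⧸ Z₀) →* Subgroup.center G := fun g => QuotientGroup.lift Z₀ (φ₀ g) (hφ₀Z g)
  have hφ : ∀ g (c : Z2), ((φ g (c : Z2 ⧸ Z₀) : Subgroup.center G) : G) = c.1 * g * c.1⁻¹ * g⁻¹ :=
    fun g c => rfl
  let B : Z2 →* ((Z2 ⧸ Z₀) →* Subgroup.center G) :=
    { toFun := fun e => φ e.1
      map_one' := by
        apply QuotientGroup.monoidHom_ext
        ext c
        change ((φ 1 (c : Z2 ⧸ Z₀) : Subgroup.center G) : G) = 1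
        rw [hφ]
        simp
      map_mul' := by
        intro e e'
        apply QuotientGroup.monoidHom_ext
        ext c
        change ((φ (e * e').1 (c : Z2 ⧸ Z₀) : Subgroup.center G) : G)
          = ((φ e.1 (c : Z2 ⧸ Z₀) : Subgroup.center G) : G) * ((φ e'.1 (c : Z2 ⧸ Z₀) : Subgroup.center G) : G)
        rw [hφ, hφ, hφ]
        exact comm_mul c.2 _ _ }
  have hB : ∀ (e c : Z2), ((B e (c : Z2 ⧸ Z₀) : Subgroup.center G) : G) = c.1 * e.1 * c.1⁻¹ * e.1⁻¹ :=
    fun e c => rfl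
  have hBker : B.ker = Z₀ := by
    ext e
    rw [MonoidHom.mem_ker, Subgroup.mem_subgroupOf]
    constructor
    · intro he
      apply hzz _ e.2
      intro d hd
      have h1 := congrArg (fun f : (Z2 ⧸ Z₀) →* Subgroup.center G =>
        ((f ((⟨d, hd⟩ : Z2) : Z2 ⧸ Z₀) : Subgroup.center G) : G)) he
      beta_reduce at h1
      rw [hB] at h1
      have h2 : d * e.1 * d⁻¹ * e.1⁻¹ = 1 := h1
      have h3 : d * e.1 * d⁻¹ = e.1 := mul_inv_eq_one.mp h2
      have h4 : d * e.1 = e.1 * d := mul_inv_eq_iff_eq_mul.mp h3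
      exact h4.symm
    · intro he
      apply QuotientGroup.monoidHom_ext
      ext c
      change ((B e (c : Z2 ⧸ Z₀) : Subgroup.center G) : G) = 1
      rw [hB]
      have h1 : c.1 * e.1 = e.1 * c.1 := Subgroup.mem_center_iff.mp he c.1
      rw [h1, mul_inv_cancel_right, mul_inv_cancel]
  have hcardA : (Nat.card (Z2 ⧸ Z₀) : K) ≠ 0 := by
    intro h
    apply hcard
    have h1 : Nat.card (Z2 ⧸ Z₀) ∣ Nat.card G :=
      (Subgroup.card_quotient_dvd_card Z₀).trans (Subgroup.card_subgroup_dvd_card Z2)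
    obtain ⟨c, hc⟩ := h1
    rw [hc]
    push_cast
    rw [h, zero_mul]
  have hle := card_hom_le hcardA l hl
  haveI : Finite ((Z2 ⧸ Z₀) →* Subgroup.center G) :=
    Finite.of_injective (fun f => (f : (Z2 ⧸ Z₀) → Subgroup.center G)) DFunLike.coe_injective
  have hrange : B.range = ⊤ := by
    apply Subgroup.eq_top_of_le_card
    rw [← Subgroup.index_ker, hBker]
    exact hle
  -- every element is a product
  let C : Subgroup G := Subgroup.centralizer (Z2 : Set G)
  have hCmem : ∀ y, y ∈ C ↔ ∀ d ∈ Z2, d * y = y * d := by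
    intro y
    rw [Subgroup.mem_centralizer_iff]
    simp only [SetLike.mem_coe]
  have hfact : ∀ g : G, ∃ e ∈ Z2, ∃ y ∈ C, g = e * y := by
    intro g
    have h1 : φ g ∈ B.range := by
      rw [hrange]
      trivial
    obtain ⟨e, he⟩ := h1
    refine ⟨e.1, e.2, e.1⁻¹ * g, ?_, by group⟩
    rw [hCmem]
    intro d hd
    have h2 := congrArg (fun f : (Z2 ⧸ Z₀) →* Subgroup.center G =>
        ((f ((⟨d, hd⟩ : Z2) : Z2 ⧸ Z₀) : Subgroup.center G) : G)) he
    beta_reduce at h2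
    rw [hB, hφ] at h2
    have h3 : d * e.1 * d⁻¹ * e.1⁻¹ = d * g * d⁻¹ * g⁻¹ := h2
    have h4 : e.1 * d⁻¹ * e.1⁻¹ = g * d⁻¹ * g⁻¹ := by
      have : d * (e.1 * d⁻¹ * e.1⁻¹) = d * (g * d⁻¹ * g⁻¹) := by
        rw [← mul_assoc, ← mul_assoc, ← mul_assoc, ← mul_assoc, h3]
      exact mul_left_cancel this
    have h5 : e.1⁻¹ * g * d⁻¹ = d⁻¹ * (e.1⁻¹ * g) := by
      have h6 : g * d⁻¹ = e.1 * d⁻¹ * e.1⁻¹ * g := by
        rw [h4]
        group
      calc e.1⁻¹ * g * d⁻¹ = e.1⁻¹ * (g * d⁻¹) := by group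
        _ = e.1⁻¹ * (e.1 * d⁻¹ * e.1⁻¹ * g) := by rw [h6]
        _ = _ := by group
    calc d * (e.1⁻¹ * g) = d * (e.1⁻¹ * g * d⁻¹) * d := by group
      _ = d * (d⁻¹ * (e.1⁻¹ * g)) * d := by rw [h5]
      _ = _ := by group
  -- the centraliser is central
  haveI hCnil : Group.IsNilpotent C := inferInstance
  obtain ⟨N, hN⟩ := hCnil.nilpotent'
  have hser : ∀ k, ∀ c : C, c ∈ Subgroup.upperCentralSeries C k → c.1 ∈ Subgroup.center G := by
    intro k
    induction k with
    | zero =>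
      intro c hc
      have h1 : c = 1 := by simpa using hc
      rw [h1]
      exact one_mem _
    | succ k ih =>
      intro c hc
      rw [Subgroup.mem_upperCentralSeries_succ_iff] at hc
      apply hzz _ _ (fun d hd => (hCmem c.1).mp c.2 d hd |>.symm)
      rw [mem_z2]
      intro g
      obtain ⟨e, he, y, hy, rfl⟩ := hfact g
      have h1 := ih _ (hc ⟨y, hy⟩)
      have h2 : e * c.1 = c.1 * e := (hCmem c.1).mp c.2 e he
      have h3 : c.1 * (e * y) * c.1⁻¹ * (e * y)⁻¹ = e * (c.1 * y * c.1⁻¹ * y⁻¹) * e⁻¹ := by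
        calc c.1 * (e * y) * c.1⁻¹ * (e * y)⁻¹ = (c.1 * e) * y * c.1⁻¹ * y⁻¹ * e⁻¹ := by group
          _ = (e * c.1) * y * c.1⁻¹ * y⁻¹ * e⁻¹ := by rw [h2]
          _ = _ := by group
      rw [h3]
      have h4 : c.1 * y * c.1⁻¹ * y⁻¹ = ((c * ⟨y, hy⟩ * c⁻¹ * (⟨y, hy⟩ : C)⁻¹ : C) : G) := rfl
      rw [h4]
      exact (inferInstance : (Subgroup.center G).Normal).conj_mem _ h1 e
  rw [eq_top_iff]
  intro g _
  obtain ⟨e, he, y, hy, rfl⟩ := hfact g
  have h1 : (⟨y, hy⟩ : C) ∈ Subgroup.upperCentralSeries C N := by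
    rw [hN]
    trivial
  exact Z2.mul_mem he (center_le_z2 (hser N _ h1))

end Cfsg.Agent.Lib.Gross.ClassTwo
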