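/-
Free orbits of weights: if `σ` acts on a module with vanishing norm, normalizing a commuting family
`τ(B)` of semisimple operators, then the last power of `σ` centralizes the family.
-/
import Cfsg.Agent.Lib.HallHigman.FrobFree

set_option autoImplicit false

namespace Cfsg.Agent.Lib.Gross.Weight

open Module Cfsg.Agent.Lib.HallHigman.FrobFree

universe u v w

/-- Cyclic arithmetic: a subgroup containing `φ ^ p ^ (b + 1)` and `φ ^ d` with `0 < d < p ^ (b + 1)`
contains `φ ^ p ^ b`. -/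
theorem pow_mem_of_pow_mem {Γ : Type*} [Group Γ] (S : Subgroup Γ) (φ : Γ) {p : ℕ} (hp : p.Prime) (b d : ℕ)
    (h0 : 0 < d) (hd : d < p ^ (b + 1)) (h1 : φ ^ p ^ (b + 1) ∈ S) (h2 : φ ^ d ∈ S) : φ ^ p ^ b ∈ S := by
  obtain ⟨e, m, hm, rfl⟩ := Nat.exists_eq_pow_mul_and_not_dvd h0.ne' p hp.ne_one
  have hmpos : 0 < m := by
    rcases Nat.eq_zero_or_pos m with h | h
    · subst h
      simp at h0
    · exact h
  have heb : e ≤ b := by
    by_contra hb
    push Not at hb
    have h3 : p ^ (b + 1) ≤ p ^ e := Nat.pow_le_pow_right hp.pos hb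
    have h4 : p ^ e ≤ p ^ e * m := Nat.le_mul_of_pos_right _ hmpos
    omega
  have hcop : m.Coprime p := ((Nat.Prime.coprime_iff_not_dvd hp).mpr hm).symm
  obtain ⟨m', hm'⟩ := Nat.exists_mul_mod_eq_one_of_coprime hcop hp.one_lt
  have hmm : m * m' = p * (m * m' / p) + 1 := by
    have := Nat.div_add_mod (m * m') p
    rw [hm'.2] at this
    exact this.symm
  have h3 : (φ ^ (p ^ e * m)) ^ (p ^ (b - e) * m') = φ ^ p ^ b * (φ ^ p ^ (b + 1)) ^ (m * m' / p) := by
    rw [← pow_mul, ← pow_mul, ← pow_add]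
    congr 1
    have e1 : p ^ b = p ^ e * p ^ (b - e) := by
      rw [← pow_add, Nat.add_sub_cancel' heb]
    calc p ^ e * m * (p ^ (b - e) * m') = p ^ e * p ^ (b - e) * (m * m') := by ring
      _ = p ^ b * (p * (m * m' / p) + 1) := by rw [← e1, ← hmm]
      _ = _ := by rw [pow_succ]; ring
  have h4 : φ ^ p ^ b * (φ ^ p ^ (b + 1)) ^ (m * m' / p) ∈ S := by
    rw [← h3]
    exact S.pow_mem h2 _
  have h5 := S.mul_mem h4 (S.inv_mem (S.pow_mem h1 (m * m' / p)))
  simpa using h5

theorem inv_pow_mul_pow {Γ : Type*} [Group Γ] (φ : Γ) {a c : ℕ} (h : a ≤ c) :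
    (φ ^ a)⁻¹ * φ ^ c = φ ^ (c - a) := by
  obtain ⟨d, rfl⟩ := Nat.exists_eq_add_of_le h
  simp [pow_add]

variable {K : Type u} [Field K] [IsAlgClosed K] {U : Type v} [AddCommGroup U] [Module K U]
  [FiniteDimensional K U] {B : Type w} [Group B] [Finite B]

/-- **Free orbits.** -/
theorem fixed_of_norm_zero (hB : (Nat.card B : K) ≠ 0) (τ : B →* End K U)
    (hab : ∀ g h, τ g * τ h = τ h * τ g) (φ : B ≃* B) (σ : End K U)
    (hσ : ∀ g, σ * τ g = τ (φ g) * σ) {p : ℕ} (hp : p.Prime) (b : ℕ) (hσP : σ ^ p ^ (b + 1) = 1)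
    (hN : ∑ i ∈ Finset.range (p ^ (b + 1)), σ ^ i = 0) :
    ∀ g, τ ((φ ^ p ^ b : MulAut B) g) = τ g := by
  classical
  have hmk : ∀ g, τ g ^ Nat.card B = 1 := by
    intro g
    rw [← map_pow, pow_card_eq_one', map_one]
  obtain ⟨hind, htop⟩ := wt_indep τ (fun i j => hab i j) (Nat.card B) hB hmk
  have hσj : ∀ (j : ℕ) (g : B), σ ^ j * τ g = τ ((φ ^ j : MulAut B) g) * σ ^ j := by
    intro j
    induction j with
    | zero =>
      intro g
      simp
    | succ j ih =>
      intro g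
      rw [pow_succ, mul_assoc, hσ, ← mul_assoc, ih, pow_succ, mul_assoc]
      rfl
  have key : ∀ χ : B → K, wt τ χ ≠ ⊥ → ∀ g, χ ((φ ^ p ^ b : MulAut B) g) = χ g := by
    intro χ hχ
    obtain ⟨v, hv, hv0⟩ := Submodule.exists_mem_ne_zero_of_ne_bot hχ
    have hval : ∀ g, τ g v = χ g • v := fun g => mem_wt.mp hv g
    let S : Subgroup (MulAut B) :=
      { carrier := {ψ | ∀ g, χ (ψ g) = χ g}
        mul_mem' := by
          intro a c ha hc g
          rw [MulAut.mul_apply, ha, hc]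
        one_mem' := fun g => rfl
        inv_mem' := by
          intro a ha g
          have h1 := ha (a⁻¹ g)
          rw [← h1, ← MulAut.mul_apply, mul_inv_cancel, MulAut.one_apply] }
    have hS : ∀ ψ, ψ ∈ S ↔ ∀ g, χ (ψ g) = χ g := fun ψ => Iff.rfl
    have h1 : (φ ^ p ^ (b + 1) : MulAut B) ∈ S := by
      rw [hS]
      intro g
      have h2 := hσj (p ^ (b + 1)) g
      rw [hσP, one_mul, mul_one] at h2
      have h3 := hval g
      rw [h2, hval] at h3
      exact smul_left_injective K hv0 h3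
    by_contra hne
    have hno : ∀ d, 0 < d → d < p ^ (b + 1) → (φ ^ d : MulAut B) ∉ S := by
      intro d h0 hd h
      apply hne
      exact (hS _).mp (pow_mem_of_pow_mem S φ hp b d h0 hd h1 h)
    let ch : Fin (p ^ (b + 1)) → (B → K) := fun j g => χ ((φ⁻¹ ^ (j : ℕ) : MulAut B) g)
    have hchv : ∀ j : Fin (p ^ (b + 1)), (σ ^ (j : ℕ)) v ∈ wt τ (ch j) := by
      intro j
      rw [mem_wt]
      intro g
      have h2 := hσj j ((φ⁻¹ ^ (j : ℕ) : MulAut B) g)
      have h3 : (φ ^ (j : ℕ) : MulAut B) ((φ⁻¹ ^ (j : ℕ) : MulAut B) g) = g := by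
        rw [← MulAut.mul_apply, inv_pow, mul_inv_cancel, MulAut.one_apply]
      rw [h3] at h2
      rw [← Module.End.mul_apply, ← h2, Module.End.mul_apply, hval, map_smul]
    have hlt : ∀ i j : Fin (p ^ (b + 1)), (i : ℕ) < j → ch i ≠ ch j := by
      intro i j hij h
      apply hno ((j : ℕ) - i) (by omega) (by have := j.2; omega)
      rw [hS]
      intro g
      have h2 := congrFun h ((φ ^ (j : ℕ) : MulAut B) g)
      simp only [ch] at h2
      have h3 : (φ⁻¹ ^ (j : ℕ) : MulAut B) ((φ ^ (j : ℕ) : MulAut B) g) = g := by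
        rw [← MulAut.mul_apply, inv_pow, inv_mul_cancel, MulAut.one_apply]
      have h4 : (φ⁻¹ ^ (i : ℕ) : MulAut B) ((φ ^ (j : ℕ) : MulAut B) g)
          = (φ ^ ((j : ℕ) - i) : MulAut B) g := by
        rw [← MulAut.mul_apply, inv_pow, inv_pow_mul_pow φ hij.le]
      rw [h3, h4] at h2
      exact h2
    have hinj : Function.Injective ch := by
      intro i j h
      rcases lt_trichotomy (i : ℕ) (j : ℕ) with h1 | h1 | h1
      · exact absurd h (hlt i j h1)
      · exact Fin.ext h1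
      · exact absurd h.symm (hlt j i h1)
    have hsum : ∑ j : Fin (p ^ (b + 1)), (σ ^ (j : ℕ)) v = 0 := by
      rw [← Finset.sum_range (fun i => (σ ^ i) v)]
      have h2 := congrArg (fun f : End K U => f v) hN
      simpa [LinearMap.sum_apply] using h2
    have h2 := eq_zero_of_sum_eq_zero (hind.comp hinj) (fun j => (σ ^ (j : ℕ)) v) hchv hsum
      ⟨0, pow_pos hp.pos _⟩
    apply hv0
    simpa using h2
  intro g
  ext v
  have hv : v ∈ ⨆ χ, wt τ χ := by
    rw [htop]
    trivial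
  induction hv using Submodule.iSup_induction' with
  | mem χ x hx =>
    by_cases hχ : wt τ χ = ⊥
    · rw [hχ, Submodule.mem_bot] at hx
      rw [hx, map_zero, map_zero]
    · rw [mem_wt.mp hx, mem_wt.mp hx, key χ hχ]
  | zero => simp
  | add x y _ _ h1 h2 => rw [map_add, map_add, h1, h2]

end Cfsg.Agent.Lib.Gross.Weight
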