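/-
Class at most two: a `q`-group `Q = [Q, t]` normalized by a `p`-element `x`, with `t` the last nontrivial
power of `x`, on a module where the norm of `x` vanishes.
-/
import Cfsg.Agent.Lib.Gross.ClassTwo
import Cfsg.Agent.Lib.Gross.Weight
import Cfsg.Agent.Lib.Gross.Avg
import Cfsg.Agent.Lib.Gross.Stab

set_option autoImplicit false

namespace Cfsg.Agent.Lib.Gross.CL

open Module Cfsg.Agent.Lib.HallHigman.Irr Cfsg.Agent.Lib.HallHigman.Core Cfsg.Agent.Lib.Gross.Avg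
  Cfsg.Agent.Lib.Gross.Stab Cfsg.Agent.Lib.Gross.Weight Cfsg.Agent.Lib.Gross.ClassTwo
open scoped commutatorElement

universe u v w

section conjOn

variable {H : Type w} [Group H]

/-- Conjugation by an element of the normalizer, as an automorphism of the subgroup. -/
def conjOn (Q : Subgroup H) (s : H) (hs : s ∈ Subgroup.normalizer (Q : Set H)) : Q ≃* Q where
  toFun g := ⟨s * g.1 * s⁻¹, conj_mem_of_mem_normalizer hs g.2⟩
  invFun g := ⟨s⁻¹ * g.1 * s, inv_conj_mem_of_mem_normalizer hs g.2⟩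
  left_inv g := Subtype.ext (by simp [mul_assoc])
  right_inv g := Subtype.ext (by simp [mul_assoc])
  map_mul' a b := Subtype.ext (by simp [mul_assoc])

theorem conjOn_val (Q : Subgroup H) (s : H) (hs : s ∈ Subgroup.normalizer (Q : Set H)) (g : Q) :
    ((conjOn Q s hs g : Q) : H) = s * g.1 * s⁻¹ := rfl

theorem conjOn_pow (Q : Subgroup H) (s : H) (hs : s ∈ Subgroup.normalizer (Q : Set H)) (k : ℕ) (g : Q) :
    (((conjOn Q s hs ^ k : MulAut Q) g : Q) : H) = s ^ k * g.1 * (s ^ k)⁻¹ := by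
  induction k generalizing g with
  | zero => simp
  | succ k ih =>
    rw [pow_succ, MulAut.mul_apply, ih, conjOn_val, pow_succ]
    group

/-- `Q = [Q, t]` says that `Q` is generated by the `a⁻¹ * a ^ t`. -/
theorem closure_eq_top (Q : Subgroup H) (t : H) (ht : t ∈ Subgroup.normalizer (Q : Set H))
    (hfin : IsOfFinOrder t) (h : ⁅Q, Subgroup.zpowers t⁆ = Q) :
    Subgroup.closure {g : Q | ∃ a, g = a⁻¹ * conjOn Q t ht a} = ⊤ := by
  set D := Subgroup.closure {g : Q | ∃ a, g = a⁻¹ * conjOn Q t ht a} with hD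
  have key : ∀ (k : ℕ) (a : Q), a⁻¹ * (conjOn Q t ht ^ k : MulAut Q) a ∈ D := by
    intro k
    induction k with
    | zero =>
      intro a
      simp [D.one_mem]
    | succ k ih =>
      intro a
      have h1 : a⁻¹ * conjOn Q t ht a ∈ D := Subgroup.subset_closure ⟨a, rfl⟩
      have h2 := D.mul_mem h1 (ih (conjOn Q t ht a))
      rw [pow_succ, MulAut.mul_apply]
      simpa [mul_assoc] using h2
  have hle : ⁅Q, Subgroup.zpowers t⁆ ≤ D.map Q.subtype := by
    rw [Subgroup.commutator_le]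
    intro g hg c hc
    obtain ⟨k, rfl⟩ := hfin.mem_powers_iff_mem_zpowers.mpr hc
    refine ⟨_, key k ⟨g⁻¹, Q.inv_mem hg⟩, ?_⟩
    simp [conjOn_pow, commutatorElement_def, mul_assoc]
  rw [h] at hle
  rw [eq_top_iff]
  intro g _
  obtain ⟨d, hd, hdg⟩ := hle g.2
  have : d = g := Subtype.ext hdg
  rwa [← this]

theorem map_mem_center {G : Type*} [Group G] (φ : G ≃* G) {z : G} (hz : z ∈ Subgroup.center G) :
    φ z ∈ Subgroup.center G := by
  rw [Subgroup.mem_center_iff] at hz ⊢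
  intro g
  have h1 := hz (φ.symm g)
  have h2 := congrArg φ h1
  simpa using h2

theorem map_mem_z2 {G : Type*} [Group G] (φ : G ≃* G) {c : G} (hc : c ∈ Subgroup.upperCentralSeries G 2) :
    φ c ∈ Subgroup.upperCentralSeries G 2 := by
  rw [mem_z2] at hc ⊢
  intro g
  have h1 := map_mem_center φ (hc (φ.symm g))
  simpa using h1

end conjOn

section LemmaA

variable {K : Type u} [Field K] [IsAlgClosed K] {V : Type v} [AddCommGroup V] [Module K V]
  [FiniteDimensional K V] {H : Type w} [Group H]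

/-- **Lemma A**: abelian (modulo the kernel) subgroups normalized by `x` are centralized, modulo the kernel,
by the last power of `x`, when the norm of `x` vanishes. -/
theorem conj_fixed (ρ : H →* End K V) (B : Subgroup H) [Finite B] (hB : (Nat.card B : K) ≠ 0)
    (hab : ∀ g ∈ B, ∀ h ∈ B, ρ g * ρ h = ρ h * ρ g) (x : H) (hx : x ∈ Subgroup.normalizer (B : Set H))
    {p : ℕ} (hp : p.Prime) (b : ℕ) (hxP : x ^ p ^ (b + 1) = 1)
    (hN : ∑ i ∈ Finset.range (p ^ (b + 1)), ρ x ^ i = 0) :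
    ∀ g ∈ B, ρ (x ^ p ^ b * g * (x ^ p ^ b)⁻¹) = ρ g := by
  intro g hg
  have h1 := fixed_of_norm_zero hB (ρ.comp B.subtype) (fun g h => hab g.1 g.2 h.1 h.2)
    (conjOn B x hx) (ρ x) (fun g => by
      change ρ x * ρ g.1 = ρ (x * g.1 * x⁻¹) * ρ x
      rw [← map_mul, ← map_mul]
      simp) hp b (by rw [← map_pow, hxP, map_one]) hN ⟨g, hg⟩
  simp only [MonoidHom.comp_apply, Subgroup.subtype_apply, conjOn_pow] at h1
  exact h1

end LemmaA

section ClassTwoRep

variable {K : Type u} [Field K] [IsAlgClosed K] {U : Type v} [AddCommGroup U] [Module K U]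
  [FiniteDimensional K U] [Nontrivial U] {H : Type w} [Group H]

/-- Class at most two for a subgroup of `GL(U)` acting irreducibly. -/
theorem class_two_rep (ρ : H →* End K U) (hρ : Function.Injective ρ) (Γ : Subgroup H) [Finite Γ]
    (hnil : Group.IsNilpotent Γ) (hc : (Nat.card Γ : K) ≠ 0)
    (hirr : ∀ W : Submodule K U, (∀ g ∈ Γ, ∀ w ∈ W, ρ g w ∈ W) → W = ⊥ ∨ W = ⊤)
    (s : H) (hs : s ∈ Subgroup.normalizer (Γ : Set H)) {p : ℕ} (hp : p.Prime) (b : ℕ)
    (hsP : s ^ p ^ (b + 1) = 1) (hN : ∑ i ∈ Finset.range (p ^ (b + 1)), ρ s ^ i = 0)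
    (hgen : Subgroup.closure {g : Γ | ∃ a, g = a⁻¹ * conjOn Γ (s ^ p ^ b) (Subgroup.pow_mem _ hs _) a} = ⊤) :
    Subgroup.upperCentralSeries Γ 2 = ⊤ := by
  classical
  obtain ⟨v, hv⟩ := exists_ne (0 : U)
  have hsch : ∀ c : Subgroup.center Γ, ∃ μ : K, ρ c.1.1 = μ • 1 := by
    intro c
    refine Cfsg.Agent.Lib.HallHigman.Critical.schur (ρ.comp Γ.subtype) (fun W hW => hirr W
      (fun g hg w hw => hW ⟨g, hg⟩ w hw)) _ (fun g => ?_)
    have h1 := Subgroup.mem_center_iff.mp c.2 g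
    have h2 := congrArg (fun a : Γ => ρ a.1) h1
    simpa using h2
  choose μ hμ using hsch
  have hμv : ∀ c, ρ c.1.1 v = μ c • v := fun c => by
    rw [hμ]
    simp
  let l₀ : Subgroup.center Γ →* K :=
    { toFun := μ
      map_one' := by
        have h1 := hμv 1
        simp only [OneMemClass.coe_one, map_one, Module.End.one_apply] at h1
        have h2 : (1 : K) • v = μ 1 • v := by rw [one_smul]; exact h1
        exact (smul_left_injective K hv h2).symm
      map_mul' := by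
        intro c d
        have h1 := hμv (c * d)
        have h2 : ρ (c * d).1.1 v = ρ c.1.1 (ρ d.1.1 v) := by
          simp only [Subgroup.coe_mul, map_mul, Module.End.mul_apply]
        rw [h2, hμv d, map_smul, hμv c, smul_smul] at h1
        have h3 := smul_left_injective K hv h1
        rw [← h3, mul_comm] }
  have hτ : ∀ c ∈ Subgroup.upperCentralSeries Γ 2, (∀ d ∈ Subgroup.upperCentralSeries Γ 2, c * d = d * c) →
      conjOn Γ (s ^ p ^ b) (Subgroup.pow_mem _ hs _) c = c := by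
    intro c hc1 hc2
    set Z2 := Subgroup.upperCentralSeries Γ 2 with hZ2
    let B₀ : Subgroup Γ := Z2 ⊓ Subgroup.centralizer (Z2 : Set Γ)
    let B' : Subgroup H := B₀.map Γ.subtype
    have hB₀ : ∀ g : Γ, g ∈ B₀ ↔ g ∈ Z2 ∧ ∀ d ∈ Z2, g * d = d * g := by
      intro g
      rw [Subgroup.mem_inf, Subgroup.mem_centralizer_iff]
      constructor
      · rintro ⟨h1, h2⟩
        exact ⟨h1, fun d hd => (h2 d hd).symm⟩
      · rintro ⟨h1, h2⟩
        exact ⟨h1, fun d hd => (h2 d hd).symm⟩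
    have hB₀φ : ∀ (φ : Γ ≃* Γ) (g : Γ), g ∈ B₀ → φ g ∈ B₀ := by
      intro φ g hg
      obtain ⟨h1, h2⟩ := (hB₀ g).mp hg
      refine (hB₀ _).mpr ⟨map_mem_z2 φ h1, fun d hd => ?_⟩
      have h3 := h2 (φ.symm d) (map_mem_z2 φ.symm hd)
      have h4 := congrArg φ h3
      simpa using h4
    have hB's : s ∈ Subgroup.normalizer (B' : Set H) := by
      rw [Subgroup.mem_normalizer_iff]
      intro g
      constructor
      · rintro ⟨γ, hγ, rfl⟩
        exact ⟨_, hB₀φ (conjOn Γ s hs) γ hγ, rfl⟩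
      · rintro ⟨γ, hγ, hγg⟩
        refine ⟨_, hB₀φ (conjOn Γ s hs).symm γ hγ, ?_⟩
        have h1 : ((conjOn Γ s hs).symm γ : Γ).1 = s⁻¹ * γ.1 * s := rfl
        have h2 : γ.1 = s * g * s⁻¹ := hγg
        change ((conjOn Γ s hs).symm γ : Γ).1 = g
        rw [h1, h2]
        group
    haveI : Finite B' := by
      haveI : Finite B₀ := inferInstance
      exact Finite.of_equiv _ (B₀.equivMapOfInjective Γ.subtype Γ.subtype_injective).toEquiv
    have hcB : (Nat.card B' : K) ≠ 0 := by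
      have h1 : Nat.card B' = Nat.card B₀ :=
        (Nat.card_congr (B₀.equivMapOfInjective Γ.subtype Γ.subtype_injective).toEquiv).symm
      rw [h1]
      intro h2
      apply hc
      obtain ⟨e, he⟩ := Subgroup.card_subgroup_dvd_card B₀
      rw [he]
      push_cast
      rw [h2, zero_mul]
    have hab : ∀ g ∈ B', ∀ h ∈ B', ρ g * ρ h = ρ h * ρ g := by
      rintro _ ⟨g, hg, rfl⟩ _ ⟨h, hh, rfl⟩
      have h1 := ((hB₀ g).mp hg).2 h ((hB₀ h).mp hh).1
      have h2 := congrArg (fun a : Γ => ρ a.1) h1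
      simpa using h2
    have hcB' : c.1 ∈ B' := ⟨c, (hB₀ c).mpr ⟨hc1, hc2⟩, rfl⟩
    have h1 := conj_fixed ρ B' hcB hab s hB's hp b hsP hN c.1 hcB'
    exact Subtype.ext (hρ h1)
  refine class_two (K := K) hnil hc (conjOn Γ (s ^ p ^ b) (Subgroup.pow_mem _ hs _)) hgen
    l₀.toHomUnits ?_ hτ
  intro c d h
  have h1 : μ c = μ d := congrArg Units.val h
  have h2 : ρ c.1.1 = ρ d.1.1 := by
    rw [hμ, hμ, h1]
  exact Subtype.ext (Subtype.ext (hρ h2))

end ClassTwoRep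

section Main

variable {K : Type u} [Field K] [IsAlgClosed K] {p : ℕ} [hp : Fact p.Prime] [CharP K p]
  {V : Type v} [AddCommGroup V] [Module K V] [FiniteDimensional K V] {H : Type w} [Group H] [Finite H]

/-- Class at most two on each irreducible submodule. -/
theorem irr_class_two {q : ℕ} [Fact q.Prime] (hq : (q : K) ≠ 0) (ρ : H →* End K V) (Q : Subgroup H)
    (hQ : IsPGroup q Q) (x : H) (hx : x ∈ Subgroup.normalizer (Q : Set H)) (n : ℕ)
    (hxL : x ^ p ^ (n + 1) = 1) (hN : (ρ x - 1) ^ (p ^ (n + 1) - 1) = 0)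
    (hQt : ⁅Q, Subgroup.zpowers (x ^ p ^ n)⁆ = Q) {A : Submodule K V} (hA : IsIrr ρ Q A)
    (g₁ g₂ h : Q) {u : V} (hu : u ∈ A) :
    ρ ⁅g₁.1, g₂.1⁆ (ρ h.1 u) = ρ h.1 (ρ ⁅g₁.1, g₂.1⁆ u) := by
  classical
  have hpp : p.Prime := hp.out
  have hxn : ∀ i : ℕ, x ^ i ∈ Subgroup.normalizer (Q : Set H) := fun i => Subgroup.pow_mem _ hx i
  obtain ⟨a, U, ha, hU, htU, hAU, hno⟩ := exists_stab ρ Q x hx n hxL hA
  have hind : iSupIndep (fun i : Fin (p ^ a) => tw ρ (x ^ (i : ℕ)) U) :=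
    iSupIndep_of_no_hom (ρ := ρ) (Q := Q) _ (fun i => hU.tw (hxn _)) hno
  haveI hNT : Nontrivial U := Submodule.nontrivial_iff_ne_bot.mpr hU.ne_bot
  obtain ⟨u₀, hu₀, hu₀0⟩ := Submodule.exists_mem_ne_zero_of_ne_bot hU.ne_bot
  have hPpos : 0 < p ^ (n + 1) := pow_pos hpp.pos _
  have han : a ≤ n := by
    by_contra hc
    have ha' : a = n + 1 := by omega
    subst ha'
    have h1 := block_bound ρ x (n + 1) 1 _ le_rfl hind htU hu₀ (by simpa using hu₀0) hN
    omega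
  obtain ⟨b, rfl⟩ : ∃ b, n = a + b := ⟨n - a, by omega⟩
  set y := x ^ p ^ a with hy
  have hyn : y ∈ Subgroup.normalizer (Q : Set H) := hxn _
  have hyP : y ^ p ^ (b + 1) = 1 := by
    rw [hy, ← pow_mul, ← pow_add, show a + (b + 1) = a + b + 1 by ring, hxL]
  have hNU : ∀ w ∈ U, ((ρ y - 1) ^ (p ^ (b + 1) - 1)) w = 0 := by
    intro w hw
    by_contra hne
    have h1 := block_bound ρ x a (p ^ (b + 1)) _ (Nat.one_le_pow _ _ hpp.pos) hind htU hw hne hN
    rw [← pow_add, show a + (b + 1) = a + b + 1 by ring] at h1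
    omega
  let τ : Q →* End K U := resQ ρ Q U hU.inv
  let σ : End K U := (ρ y).restrict htU
  have hσv : ∀ w : U, ((σ w : U) : V) = ρ y w.1 := fun w => rfl
  have hσpow : ∀ (k : ℕ) (w : U), (((σ ^ k) w : U) : V) = ((ρ y) ^ k) w.1 := by
    intro k
    induction k with
    | zero => simp
    | succ k ih =>
      intro w
      rw [pow_succ, Module.End.mul_apply, ih, pow_succ, Module.End.mul_apply, hσv]
  have hσsub : ∀ (k : ℕ) (w : U), (((σ - 1) ^ k) w : U).1 = ((ρ y - 1) ^ k) w.1 := by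
    intro k
    induction k with
    | zero => simp
    | succ k ih =>
      intro w
      rw [pow_succ, Module.End.mul_apply, ih, pow_succ, Module.End.mul_apply]
      simp [hσv]
  have hσP : σ ^ p ^ (b + 1) = 1 := by
    ext w
    rw [hσpow, ← map_pow, hyP, map_one]
    rfl
  have hσN : ∑ i ∈ Finset.range (p ^ (b + 1)), σ ^ i = 0 := by
    rw [sum_pow_eq (K := K) (p := p)]
    ext w
    rw [hσsub, hNU _ w.2]
    rfl
  have hPbpos : 0 < p ^ (b + 1) := pow_pos hpp.pos _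
  let σu : (End K U)ˣ :=
    { val := σ
      inv := σ ^ (p ^ (b + 1) - 1)
      val_inv := by
        rw [← pow_succ', Nat.sub_add_cancel hPbpos, hσP]
      inv_val := by
        rw [← pow_succ, Nat.sub_add_cancel hPbpos, hσP] }
  let τu : Q →* (End K U)ˣ := τ.toHomUnits
  let Γ : Subgroup (End K U)ˣ := τu.range
  have hτσ : ∀ (k : ℕ) (g : Q), σu ^ k * τu g * (σu ^ k)⁻¹ = τu (conjOn Q (y ^ k) (Subgroup.pow_mem _ hyn _) g) := by
    intro k g
    rw [mul_inv_eq_iff_eq_mul]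
    apply Units.ext
    ext w
    change (((σ ^ k) ((τ g) w) : U) : V) = (((τ (conjOn Q (y ^ k) (Subgroup.pow_mem _ hyn _) g)) ((σ ^ k) w) : U) : V)
    rw [hσpow]
    change ((ρ y) ^ k) (ρ g.1 w.1) = ρ (y ^ k * g.1 * (y ^ k)⁻¹) (((σ ^ k) w : U) : V)
    rw [hσpow, ← map_pow, ← Module.End.mul_apply, ← Module.End.mul_apply, ← map_mul, ← map_mul]
    simp
  have hτσ1 : ∀ g : Q, σu * τu g * σu⁻¹ = τu (conjOn Q y hyn g) := by
    intro g
    have h1 := hτσ 1 g
    simp only [pow_one] at h1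
    rw [h1]
  have hs : σu ∈ Subgroup.normalizer (Γ : Set (End K U)ˣ) := by
    rw [Subgroup.mem_normalizer_iff]
    intro g
    constructor
    · rintro ⟨g, rfl⟩
      exact ⟨_, (hτσ1 g).symm⟩
    · rintro ⟨g', hg'⟩
      refine ⟨(conjOn Q y hyn).symm g', ?_⟩
      have h1 := hτσ1 ((conjOn Q y hyn).symm g')
      rw [MulEquiv.apply_symm_apply, hg'] at h1
      have h2 : σu * τu ((conjOn Q y hyn).symm g') * σu⁻¹ = σu * g * σu⁻¹ := h1
      exact mul_left_cancel (mul_right_cancel h2)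
  have hQc : Nat.card Q ≠ 0 := Nat.card_pos.ne'
  let f : Q →* Γ := τu.rangeRestrict
  have hf : Function.Surjective f := τu.rangeRestrict_surjective
  haveI : Finite Γ := Finite.of_surjective f hf
  have hΓq : IsPGroup q Γ := hQ.of_surjective f hf
  have hnil : Group.IsNilpotent Γ := hΓq.isNilpotent
  have hcΓ : (Nat.card Γ : K) ≠ 0 := by
    obtain ⟨e, he⟩ := IsPGroup.iff_card.mp hΓq
    rw [he]
    push_cast
    exact pow_ne_zero _ hq
  have hirrU := resQ_irr hU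
  have hirr : ∀ W : Submodule K U, (∀ g ∈ Γ, ∀ w ∈ W, (Units.coeHom (End K U)) g w ∈ W) → W = ⊥ ∨ W = ⊤ := by
    intro W hW
    apply hirrU
    intro g w hw
    exact hW _ ⟨g, rfl⟩ w hw
  have ht : x ^ p ^ (a + b) = y ^ p ^ b := by
    rw [hy, ← pow_mul, ← pow_add]
  have hgenQ := closure_eq_top Q (y ^ p ^ b) (Subgroup.pow_mem _ hyn _) (isOfFinOrder_of_finite _)
    (by rw [← ht]; exact hQt)
  have hgen : Subgroup.closure {g : Γ | ∃ a, g = a⁻¹ * conjOn Γ (σu ^ p ^ b) (Subgroup.pow_mem _ hs _) a} = ⊤ := by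
    rw [eq_top_iff, ← MonoidHom.range_eq_top.mpr hf, MonoidHom.range_eq_map, ← hgenQ, MonoidHom.map_closure]
    apply Subgroup.closure_mono
    rintro _ ⟨_, ⟨c, rfl⟩, rfl⟩
    refine ⟨f c, ?_⟩
    rw [map_mul, map_inv]
    congr 1
    apply Subtype.ext
    rw [conjOn_val]
    exact (hτσ _ c).symm
  have hZ2 := class_two_rep (Units.coeHom (End K U)) Units.val_injective Γ hnil hcΓ hirr σu hs hpp b
    (by
      apply Units.ext
      exact hσP)
    (by
      simpa using hσN)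
    hgen
  -- translate
  have hcomm : ∀ w ∈ U, ρ ⁅g₁.1, g₂.1⁆ (ρ h.1 w) = ρ h.1 (ρ ⁅g₁.1, g₂.1⁆ w) := by
    intro w hw
    have h1 : f g₁ ∈ Subgroup.upperCentralSeries Γ 2 := by
      rw [hZ2]
      trivial
    have h2 := Subgroup.mem_center_iff.mp (mem_z2.mp h1 (f g₂)) (f h)
    have h3 : f (h * ⁅g₁, g₂⁆) = f (⁅g₁, g₂⁆ * h) := by
      simp only [map_mul, commutatorElement_def, map_inv]
      simpa [mul_assoc] using h2
    have h4 := congrArg (fun z : Γ => ((z.1 : End K U) ⟨w, hw⟩ : U).1) h3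
    have e1 : ∀ z : Q, ((((f z : Γ) : (End K U)ˣ) : End K U) : End K U) = τ z := fun z => rfl
    beta_reduce at h4
    rw [e1, e1] at h4
    have e2 : ∀ (z : Q) (w' : U), ((τ z) w' : U).1 = ρ z.1 w'.1 := fun z w' => rfl
    rw [e2, e2] at h4
    simp only [Subgroup.coe_mul, commutatorElement_def, Subgroup.coe_inv, map_mul, Module.End.mul_apply] at h4 ⊢
    exact h4.symm
  obtain ⟨F, hF0, hF1, hF2⟩ := hAU
  have hinj := hA.inj_of_hom hF1 hF2
  have hcA : ∀ g : Q, ρ g.1 u ∈ A := fun g => hA.inv g.1 g.2 _ hu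
  have hgc : ⁅g₁.1, g₂.1⁆ ∈ Q := by
    rw [commutatorElement_def]
    exact Q.mul_mem (Q.mul_mem (Q.mul_mem g₁.2 g₂.2) (Q.inv_mem g₁.2)) (Q.inv_mem g₂.2)
  have h1 : ρ ⁅g₁.1, g₂.1⁆ (ρ h.1 u) - ρ h.1 (ρ ⁅g₁.1, g₂.1⁆ u) ∈ A :=
    A.sub_mem (hA.inv _ hgc _ (hA.inv _ h.2 _ hu)) (hA.inv _ h.2 _ (hA.inv _ hgc _ hu))
  have h2 := hinj _ h1 (by
    rw [map_sub, hF1 _ hgc _ (hA.inv _ h.2 _ hu), hF1 _ h.2 _ hu,
      hF1 _ h.2 _ (hA.inv _ hgc _ hu), hF1 _ hgc _ hu]
    rw [hcomm _ (hF0 _ hu), sub_self])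
  exact sub_eq_zero.mp h2

/-- **Class at most two.** -/
theorem class_le_two {q : ℕ} [Fact q.Prime] (hq : (q : K) ≠ 0) (ρ : H →* End K V) (Q : Subgroup H)
    (hQ : IsPGroup q Q) (x : H) (hx : x ∈ Subgroup.normalizer (Q : Set H)) (n : ℕ)
    (hxL : x ^ p ^ (n + 1) = 1) (hN : (ρ x - 1) ^ (p ^ (n + 1) - 1) = 0)
    (hQt : ⁅Q, Subgroup.zpowers (x ^ p ^ n)⁆ = Q) :
    ∀ c ∈ ⁅Q, Q⁆, ∀ h ∈ Q, ρ c * ρ h = ρ h * ρ c := by
  classical
  have hN1 : Q ≤ Subgroup.normalizer (Q : Set H) := Subgroup.le_normalizer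
  have hCQ : ⁅Q, Q⁆ ≤ Q := Cfsg.Agent.Lib.Coprime.Action.commutator_le_of_le_normalizer hN1
  have hN2 : Q ≤ Subgroup.normalizer ((⁅Q, Q⁆ : Subgroup H) : Set H) :=
    Cfsg.Agent.Lib.Coprime.Action.le_normalizer_commutator_of_le hN1 hN1
  have hN3 : Q ≤ Subgroup.normalizer ((⁅⁅Q, Q⁆, Q⁆ : Subgroup H) : Set H) :=
    Cfsg.Agent.Lib.Coprime.Action.le_normalizer_commutator_of_le hN2 hN1
  have hC3 : ⁅⁅Q, Q⁆, Q⁆ ≤ Q := (Cfsg.Agent.Lib.Coprime.Action.commutator_le_of_le_normalizer hN1).trans' 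
    (Subgroup.commutator_mono hCQ le_rfl)
  have hc3 : (Nat.card (⁅⁅Q, Q⁆, Q⁆ : Subgroup H) : K) ≠ 0 := by
    obtain ⟨e, he⟩ := IsPGroup.iff_card.mp (hQ.to_le hC3)
    rw [he]
    push_cast
    exact pow_ne_zero _ hq
  have htriv := trivial_of_irr (ρ := ρ) (Q := Q) hc3 hN3 (by
    intro A hA g hg u hu
    -- the kernel on `A`
    let F : Subgroup H :=
      { carrier := {g | ∀ u ∈ A, ρ g u = u}
        mul_mem' := by
          intro a b ha hb u hu
          rw [map_mul, Module.End.mul_apply, hb u hu, ha u hu]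
        one_mem' := by
          intro u _
          simp
        inv_mem' := by
          intro a ha u hu
          calc ρ a⁻¹ u = ρ a⁻¹ (ρ a u) := by rw [ha u hu]
            _ = u := rho_inv_apply ρ a u }
    let Y : Subgroup H :=
      { carrier := {g | g ∈ Q ∧ ∀ h ∈ Q, ∀ u ∈ A, ρ g (ρ h u) = ρ h (ρ g u)}
        mul_mem' := by
          rintro a b ⟨ha, ha'⟩ ⟨hb, hb'⟩
          refine ⟨Q.mul_mem ha hb, fun h hh u hu => ?_⟩
          rw [map_mul, Module.End.mul_apply, Module.End.mul_apply, hb' h hh u hu,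
            ha' h hh _ (hA.inv b hb u hu)]
        one_mem' := by
          refine ⟨Q.one_mem, fun h _ u _ => ?_⟩
          simp
        inv_mem' := by
          rintro a ⟨ha, ha'⟩
          refine ⟨Q.inv_mem ha, fun h hh u hu => ?_⟩
          have h1 := ha' h hh _ (hA.inv _ (Q.inv_mem ha) u hu)
          rw [rho_apply_inv] at h1
          rw [← h1, rho_inv_apply] }
    have hCY : ⁅Q, Q⁆ ≤ Y := by
      rw [Subgroup.commutator_le]
      intro g₁ h₁ g₂ h₂
      refine ⟨hCQ (Subgroup.commutator_mem_commutator h₁ h₂), fun h hh u hu => ?_⟩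
      exact irr_class_two hq ρ Q hQ x hx n hxL hN hQt hA ⟨g₁, h₁⟩ ⟨g₂, h₂⟩ ⟨h, hh⟩ hu
    have hF : ⁅⁅Q, Q⁆, Q⁆ ≤ F := by
      rw [Subgroup.commutator_le]
      intro c hc h hh u hu
      obtain ⟨hc1, hc2⟩ := hCY hc
      have h1 : ρ c⁻¹ (ρ h⁻¹ u) ∈ A := hA.inv _ (Q.inv_mem hc1) _ (hA.inv _ (Q.inv_mem hh) _ hu)
      have h2 := hc2 h hh _ h1
      simp only [commutatorElement_def, map_mul, Module.End.mul_apply]
      rw [h2, rho_apply_inv, rho_apply_inv]
    exact hF hg u hu)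
  intro c hc h hh
  have h1 := htriv _ (Subgroup.commutator_mem_commutator hc hh)
  rw [commutatorElement_def] at h1
  have h2 : c * h = ((c * h) * c⁻¹ * h⁻¹) * (h * c) := by group
  rw [← map_mul, ← map_mul, h2, map_mul, h1, one_mul]

end Main

end Cfsg.Agent.Lib.Gross.CL
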