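/-
The Frattini quotient of a normal `p`-subgroup as a module over an algebraically closed field.
-/
import Cfsg.Agent.Lib.HallHigman.Section
import Cfsg.Agent.Lib.Coprime.Action
import Cfsg.Agent.Lib.PGroups.Basic

set_option autoImplicit false

namespace Cfsg.Agent.Lib.Gross.Sect

open Module Cfsg.Agent.Lib.HallHigman.Section
open scoped commutatorElement

universe w

/-- Coprime action trivial on the Frattini quotient is trivial. -/
theorem centralizes_of_frattini {G : Type w} [Group G] [Finite G] {p : ℕ} [Fact p.Prime]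
    (T : Subgroup G) (hTp : IsPGroup p T) (A : Subgroup G) (hAT : A ≤ Subgroup.normalizer (T : Set G))
    (hcop : (Nat.card A).Coprime p)
    (h : ∀ a ∈ A, ∀ t ∈ T, a * t * a⁻¹ * t⁻¹ ∈ (frattini T).map T.subtype) :
    ∀ a ∈ A, ∀ t ∈ T, a * t = t * a := by
  set Φ := (frattini T).map T.subtype with hΦ
  have hcomm : ⁅T, A⁆ ≤ Φ := by
    rw [Subgroup.commutator_le]
    intro t ht b hb
    have h1 := Φ.inv_mem (h b hb t ht)
    have e : (b * t * b⁻¹ * t⁻¹)⁻¹ = ⁅t, b⁆ := by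
      rw [commutatorElement_def]; group
    rwa [e] at h1
  have hTc : Nat.card T = p ^ (Classical.choose (IsPGroup.iff_card.mp hTp)) :=
    Classical.choose_spec (IsPGroup.iff_card.mp hTp)
  have hcop' : (Nat.card A).Coprime (Nat.card T) := by
    rw [hTc]
    exact hcop.pow_right _
  have hsup := Cfsg.Agent.Lib.Coprime.Action.commutator_sup_fixed (K := T) (A := A) hAT hcop'
    (Or.inr (by haveI := hTp.isNilpotent; infer_instance))
  set J := (Subgroup.centralizer (A : Set G)).subgroupOf T with hJ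
  have hJtop : J ⊔ frattini T = ⊤ := by
    apply Subgroup.map_injective T.subtype_injective
    rw [Subgroup.map_sup, ← hΦ, ← MonoidHom.range_eq_map, Subgroup.range_subtype, hJ,
      Subgroup.subgroupOf_map_subtype]
    apply le_antisymm
    · exact sup_le inf_le_right (Subgroup.map_subtype_le _)
    · conv_lhs => rw [← hsup]
      rw [sup_comm]
      refine sup_le_sup ?_ hcomm
      rw [inf_comm]
  have hJ2 : J = ⊤ := frattini_nongenerating hJtop
  have hTA : T ≤ Subgroup.centralizer (A : Set G) := Subgroup.subgroupOf_eq_top.mp hJ2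
  intro a ha t ht
  exact Subgroup.mem_centralizer_iff.mp (hTA ht) a ha

/-- The module `T / Φ(T)` over `ZMod p`. -/
theorem exists_frattini_rep {G : Type w} [Group G] [Finite G] {p : ℕ} [hp : Fact p.Prime]
    (T : Subgroup G) [hTn : T.Normal] (hTp : IsPGroup p T) :
    ∃ (V : Type w) (_ : AddCommGroup V) (_ : Module (ZMod p) V) (_ : FiniteDimensional (ZMod p) V)
      (ρ : G →* End (ZMod p) V),
      (∀ g, (∀ t ∈ T, g * t = t * g) → ρ g = 1) ∧
      (∀ A : Subgroup G, (Nat.card A).Coprime p → (∀ a ∈ A, ρ a = 1) → ∀ a ∈ A, ∀ t ∈ T, a * t = t * a) ∧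
      (∀ (x : G) (m : ℕ), (∀ t ∈ T, (t * x) ^ m = x ^ m) → ∑ i ∈ Finset.range m, (ρ x) ^ i = 0) ∧
      (∀ g h, (∀ c ∈ T, h * (g * c * g⁻¹ * c⁻¹) = (g * c * g⁻¹ * c⁻¹) * h) → (ρ h - 1) * (ρ g - 1) = 0) := by
  classical
  set Φ := (frattini T).map T.subtype with hΦ
  haveI hΦn : Φ.Normal := ConjAct.normal_of_characteristic_of_normal
  have hΦT : Φ ≤ T := Subgroup.map_subtype_le _
  have hcomm : ∀ a ∈ T, ∀ b ∈ T, a * b * a⁻¹ * b⁻¹ ∈ Φ := by
    intro a ha b hb
    have h1 := Cfsg.Agent.Lib.PGroups.Basic.commutator_le_frattini hTp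
    have h2 : ⁅(⟨a, ha⟩ : T), (⟨b, hb⟩ : T)⁆ ∈ frattini T :=
      h1 (Subgroup.commutator_mem_commutator (by trivial) (by trivial))
    exact ⟨_, h2, rfl⟩
  have hexp : ∀ a ∈ T, a ^ p ∈ Φ := by
    intro a ha
    exact ⟨_, Cfsg.Agent.Lib.PGroups.Basic.pow_mem_frattini hTp (⟨a, ha⟩ : T), rfl⟩
  obtain ⟨V, i1, i2, i3, ρ₁, π, hπadd, hπsurj, hπ0, hπact⟩ := exists_section_module (p := p) Φ T hΦT hcomm hexp
  have hπ1 : π 1 = 0 := by
    have := hπadd 1 1
    rw [mul_one] at this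
    simpa using this
  have hπinv : ∀ a, π a⁻¹ = - π a := by
    intro a
    have := hπadd a⁻¹ a
    rw [inv_mul_cancel, hπ1] at this
    exact (eq_neg_of_add_eq_zero_left this.symm)
  have hπc : ∀ (g : G) (t : T), g * t.1 * g⁻¹ * t.1⁻¹ ∈ T := by
    intro g t
    exact T.mul_mem (hTn.conj_mem t.1 t.2 g) (T.inv_mem t.2)
  have hact1 : ∀ (g : G) (t : T), ρ₁ g (π t) - π t = π ⟨g * t.1 * g⁻¹ * t.1⁻¹, hπc g t⟩ := by
    intro g t
    have hmem : g * t.1 * g⁻¹ ∈ T := hTn.conj_mem t.1 t.2 g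
    rw [hπact g t ⟨_, hmem⟩ rfl]
    have e : (⟨g * t.1 * g⁻¹ * t.1⁻¹, hπc g t⟩ : T) = ⟨_, hmem⟩ * t⁻¹ := Subtype.ext rfl
    rw [e, hπadd, hπinv]
    abel
  have hnorm : ∀ (x : G) (t : T) (m : ℕ) (w : T), w.1 = (t.1 * x) ^ m * (x ^ m)⁻¹ →
      π w = ∑ i ∈ Finset.range m, ((ρ₁ x) ^ i) (π t) := by
    intro x t m
    induction m with
    | zero =>
      intro w hw
      have : w = 1 := Subtype.ext (by simpa using hw)
      rw [this, hπ1]
      simp
    | succ m ih =>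
      intro w hw
      have hmem : (t.1 * x) ^ m * (x ^ m)⁻¹ ∈ T := by
        have h1 : ((t.1 * x : G) : G ⧸ T) = (x : G ⧸ T) := by
          rw [QuotientGroup.eq]
          have e : (t.1 * x)⁻¹ * x = x⁻¹ * t.1⁻¹ * x := by group
          rw [e]
          have := hTn.conj_mem t.1⁻¹ (T.inv_mem t.2) x⁻¹
          simpa using this
        have h2 : (((t.1 * x) ^ m : G) : G ⧸ T) = ((x ^ m : G) : G ⧸ T) := by
          rw [QuotientGroup.mk_pow, QuotientGroup.mk_pow, h1]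
        rw [QuotientGroup.eq] at h2
        have h3 := hTn.conj_mem _ h2 ((t.1 * x) ^ m)
        have e : (t.1 * x) ^ m * (((t.1 * x) ^ m)⁻¹ * x ^ m) * ((t.1 * x) ^ m)⁻¹
            = x ^ m * ((t.1 * x) ^ m)⁻¹ := by group
        rw [e] at h3
        have h4 := T.inv_mem h3
        simpa using h4
      have hih := ih ⟨_, hmem⟩ rfl
      have hmem2 : x * ((t.1 * x) ^ m * (x ^ m)⁻¹) * x⁻¹ ∈ T := hTn.conj_mem _ hmem x
      have h5 := hπact x ⟨_, hmem⟩ ⟨_, hmem2⟩ rfl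
      have e : w = t * ⟨_, hmem2⟩ := by
        apply Subtype.ext
        rw [hw]
        change _ = t.1 * (x * ((t.1 * x) ^ m * (x ^ m)⁻¹) * x⁻¹)
        rw [pow_succ', pow_succ']
        group
      rw [e, hπadd, ← h5, hih, Finset.sum_range_succ', pow_zero, Module.End.one_apply, map_sum,
        add_comm]
      congr 1
      refine Finset.sum_congr rfl (fun i _ => ?_)
      rw [pow_succ', Module.End.mul_apply]
  refine ⟨V, i1, i2, i3, ρ₁, ?_, ?_, ?_, ?_⟩
  · intro g hg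
    ext v
    obtain ⟨t, rfl⟩ := hπsurj v
    have h1 := hact1 g t
    have h2 : (⟨g * t.1 * g⁻¹ * t.1⁻¹, hπc g t⟩ : T) = 1 := by
      apply Subtype.ext
      change g * t.1 * g⁻¹ * t.1⁻¹ = 1
      rw [hg t.1 t.2]
      group
    rw [h2, hπ1, sub_eq_zero] at h1
    rw [h1]
    rfl
  · intro A hcop hA
    refine centralizes_of_frattini T hTp A (by rw [Subgroup.normalizer_eq_top]; exact le_top) hcop ?_
    intro a ha t ht
    have h1 := hact1 a ⟨t, ht⟩
    rw [hA a ha, Module.End.one_apply, sub_self] at h1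
    exact (hπ0 _).mp h1.symm
  · intro x m hm
    ext v
    obtain ⟨t, rfl⟩ := hπsurj v
    have h1 := hnorm x t m 1 (by
      rw [hm t.1 t.2]
      simp)
    rw [hπ1] at h1
    simp only [LinearMap.sum_apply, LinearMap.zero_apply]
    exact h1.symm
  · intro g h hgh
    ext v
    obtain ⟨c, rfl⟩ := hπsurj v
    simp only [Module.End.mul_apply, LinearMap.zero_apply]
    have e1 : (ρ₁ g - 1) (π c) = π ⟨g * c.1 * g⁻¹ * c.1⁻¹, hπc g c⟩ := hact1 g c
    rw [e1]
    have e2 : (ρ₁ h - 1) (π ⟨g * c.1 * g⁻¹ * c.1⁻¹, hπc g c⟩)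
        = π ⟨h * (g * c.1 * g⁻¹ * c.1⁻¹) * h⁻¹ * (g * c.1 * g⁻¹ * c.1⁻¹)⁻¹, hπc h ⟨_, hπc g c⟩⟩ := hact1 h ⟨_, hπc g c⟩
    rw [e2]
    have e3 : (⟨h * (g * c.1 * g⁻¹ * c.1⁻¹) * h⁻¹ * (g * c.1 * g⁻¹ * c.1⁻¹)⁻¹, hπc h ⟨_, hπc g c⟩⟩ : T) = 1 := by
      apply Subtype.ext
      change h * (g * c.1 * g⁻¹ * c.1⁻¹) * h⁻¹ * (g * c.1 * g⁻¹ * c.1⁻¹)⁻¹ = 1
      rw [hgh c.1 c.2]
      group
    rw [e3, hπ1]

/-- The module `T / Φ(T)` over an algebraically closed field. -/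
theorem exists_closed_rep {G : Type w} [Group G] [Finite G] {p : ℕ} [hp : Fact p.Prime]
    (T : Subgroup G) [hTn : T.Normal] (hTp : IsPGroup p T) :
    ∃ (F : Type) (_ : Field F) (_ : IsAlgClosed F) (_ : CharP F p)
      (V : Type w) (_ : AddCommGroup V) (_ : Module F V) (_ : FiniteDimensional F V)
      (ρ : G →* End F V),
      (∀ g, (∀ t ∈ T, g * t = t * g) → ρ g = 1) ∧
      (∀ A : Subgroup G, (Nat.card A).Coprime p → (∀ a ∈ A, ρ a = 1) → ∀ a ∈ A, ∀ t ∈ T, a * t = t * a) ∧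
      (∀ (x : G) (m : ℕ), (∀ t ∈ T, (t * x) ^ m = x ^ m) → ∑ i ∈ Finset.range m, (ρ x) ^ i = 0) ∧
      (∀ g h, (∀ c ∈ T, h * (g * c * g⁻¹ * c⁻¹) = (g * c * g⁻¹ * c⁻¹) * h) → (ρ h - 1) * (ρ g - 1) = 0) := by
  classical
  obtain ⟨V, i1, i2, i3, ρ₀, h1, h2, h3, h4⟩ := exists_frattini_rep T hTp
  let F := AlgebraicClosure (ZMod p)
  let b := Module.End.baseChangeHom (ZMod p) F V
  have hbinj : Function.Injective b := LinearMap.baseChangeHom_injective (ZMod p) V F
  let ρ : G →* End F (TensorProduct (ZMod p) F V) := (b.toMonoidHom).comp ρ₀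
  have hρ : ∀ g, ρ g = b (ρ₀ g) := fun g => rfl
  refine ⟨F, inferInstance, inferInstance, inferInstance, TensorProduct (ZMod p) F V, inferInstance, inferInstance,
    inferInstance, ρ, ?_, ?_, ?_, ?_⟩
  · intro g hg
    rw [hρ, h1 g hg, map_one]
  · intro A hcop hA
    refine h2 A hcop (fun a ha => hbinj ?_)
    rw [map_one, ← hρ]
    exact hA a ha
  · intro x m hm
    have h5 := congrArg b (h3 x m hm)
    rw [map_sum, map_zero] at h5
    simp only [map_pow] at h5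
    exact h5
  · intro g h hgh
    have h5 := congrArg b (h4 g h hgh)
    rw [map_mul, map_sub, map_sub, map_one, map_zero] at h5
    exact h5

end Cfsg.Agent.Lib.Gross.Sect
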