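/-
Auxiliary group theory for the analysis of configurations in Gross's theorem.
-/
import Cfsg.Agent.Lib.Gross.Sect
import Cfsg.Agent.Lib.Gross.CL

set_option autoImplicit false

namespace Cfsg.Agent.Lib.Gross.ConfigAux

open Module Cfsg.Agent.Lib.HallHigman.Irr Cfsg.Agent.Lib.Gross.CL Cfsg.Agent.Lib.Gross.Sect
open scoped commutatorElement

universe u v w

section Groups

variable {G : Type w} [Group G]

theorem mem_normalizer_of_forall {a : G} {A : Subgroup G} (h : ∀ g ∈ A, a * g * a⁻¹ ∈ A)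
    (h' : ∀ g ∈ A, a⁻¹ * g * a ∈ A) : a ∈ Subgroup.normalizer (A : Set G) := by
  rw [Subgroup.mem_normalizer_iff]
  intro g
  constructor
  · exact h g
  · intro hg
    have := h' _ hg
    simpa [mul_assoc] using this

theorem mem_normalizer_sup {a : G} {A B : Subgroup G} (hA : a ∈ Subgroup.normalizer (A : Set G))
    (hB : a ∈ Subgroup.normalizer (B : Set G)) : a ∈ Subgroup.normalizer ((A ⊔ B : Subgroup G) : Set G) := by
  have key : ∀ s, s ∈ Subgroup.normalizer (A : Set G) → s ∈ Subgroup.normalizer (B : Set G) →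
      ∀ g ∈ A ⊔ B, s * g * s⁻¹ ∈ A ⊔ B := by
    intro s hs hs' g hg
    have h1 : A ⊔ B ≤ (A ⊔ B).comap (MulAut.conj s).toMonoidHom := by
      refine sup_le (fun c hc => ?_) (fun c hc => ?_)
      · exact (le_sup_left : A ≤ A ⊔ B) (conj_mem_of_mem_normalizer hs hc)
      · exact (le_sup_right : B ≤ A ⊔ B) (conj_mem_of_mem_normalizer hs' hc)
    exact h1 hg
  refine mem_normalizer_of_forall (key a hA hB) ?_
  intro g hg
  have := key a⁻¹ (Subgroup.inv_mem _ hA) (Subgroup.inv_mem _ hB) g hg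
  simpa using this

theorem mem_normalizer_zpowers_of_comm {a b : G} (h : a * b = b * a) :
    a ∈ Subgroup.normalizer ((Subgroup.zpowers b : Subgroup G) : Set G) := by
  have hc : ∀ g ∈ Subgroup.zpowers b, a * g = g * a := by
    rintro _ ⟨k, rfl⟩
    have h1 : Commute a b := h
    exact (h1.zpow_right k)
  refine mem_normalizer_of_forall (fun g hg => ?_) (fun g hg => ?_)
  · rw [hc g hg, mul_inv_cancel_right]
    exact hg
  · have h1 : Commute a⁻¹ g := Commute.inv_left (hc g hg)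
    rw [h1.eq, mul_assoc, inv_mul_cancel, mul_one]
    exact hg

theorem mem_normalizer_zpowers_pow (x : G) (k : ℕ) :
    x ∈ Subgroup.normalizer ((Subgroup.zpowers (x ^ k) : Subgroup G) : Set G) :=
  mem_normalizer_zpowers_of_comm ((Commute.refl x).pow_right k)

/-- `[T, Z]` is normalized by `T`. -/
theorem le_normalizer_comm_self (T Z : Subgroup G) :
    T ≤ Subgroup.normalizer ((⁅T, Z⁆ : Subgroup G) : Set G) := by
  have key : ∀ b ∈ T, ∀ g ∈ ⁅T, Z⁆, b * g * b⁻¹ ∈ ⁅T, Z⁆ := by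
    intro b hb g hg
    have h1 : ⁅T, Z⁆ ≤ (⁅T, Z⁆ : Subgroup G).comap (MulAut.conj b).toMonoidHom := by
      rw [Subgroup.commutator_le]
      intro a ha c hc
      change b * ⁅a, c⁆ * b⁻¹ ∈ ⁅T, Z⁆
      have e : b * ⁅a, c⁆ * b⁻¹ = ⁅b * a, c⁆ * ⁅b, c⁆⁻¹ := by
        simp only [commutatorElement_def]
        group
      rw [e]
      exact Subgroup.mul_mem _ (Subgroup.commutator_mem_commutator (T.mul_mem hb ha) hc)
        (Subgroup.inv_mem _ (Subgroup.commutator_mem_commutator hb hc))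
    exact h1 hg
  intro b hb
  refine mem_normalizer_of_forall (key b hb) ?_
  intro g hg
  have := key b⁻¹ (T.inv_mem hb) g hg
  simpa using this

theorem map_mem_normalizer {H : Type*} [Group H] (f : G →* H) {g : G} {A : Subgroup G}
    (hg : g ∈ Subgroup.normalizer (A : Set G)) : f g ∈ Subgroup.normalizer ((A.map f : Subgroup H) : Set H) := by
  refine mem_normalizer_of_forall ?_ ?_
  · rintro _ ⟨a, ha, rfl⟩
    refine ⟨g * a * g⁻¹, conj_mem_of_mem_normalizer hg ha, ?_⟩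
    simp
  · rintro _ ⟨a, ha, rfl⟩
    refine ⟨g⁻¹ * a * g, inv_conj_mem_of_mem_normalizer hg ha, ?_⟩
    simp

theorem isPGroup_zpowers {p : ℕ} [hp : Fact p.Prime] {x : G} {k : ℕ} (h : x ^ p ^ k = 1) :
    IsPGroup p (Subgroup.zpowers x) := by
  obtain ⟨j, -, hj⟩ := (Nat.dvd_prime_pow hp.out).mp (orderOf_dvd_of_pow_eq_one h)
  exact IsPGroup.of_card (n := j) (by rw [Nat.card_zpowers, hj])

/-- Elements acting trivially on `A` modulo `Y`. -/
def TrivMod (A Y : Subgroup G) : Subgroup G where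
  carrier := {g | g ∈ Subgroup.normalizer (A : Set G) ∧ g ∈ Subgroup.normalizer (Y : Set G) ∧
    ∀ c ∈ A, g * c * g⁻¹ * c⁻¹ ∈ Y}
  mul_mem' := by
    rintro g h ⟨h1, h2, h3⟩ ⟨h4, h5, h6⟩
    refine ⟨Subgroup.mul_mem _ h1 h4, Subgroup.mul_mem _ h2 h5, fun c hc => ?_⟩
    have h7 := conj_mem_of_mem_normalizer h2 (h6 c hc)
    have h8 := Y.mul_mem h7 (h3 c hc)
    convert h8 using 1
    group
  one_mem' := ⟨one_mem _, one_mem _, fun c _ => by simp [Y.one_mem]⟩
  inv_mem' := by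
    rintro g ⟨h1, h2, h3⟩
    refine ⟨Subgroup.inv_mem _ h1, Subgroup.inv_mem _ h2, fun c hc => ?_⟩
    have h4 := h3 (g⁻¹ * c * g) (inv_conj_mem_of_mem_normalizer h1 hc)
    have h7 := Y.inv_mem h4
    convert h7 using 1
    group

theorem mem_trivMod {A Y : Subgroup G} {g : G} : g ∈ TrivMod A Y ↔
    g ∈ Subgroup.normalizer (A : Set G) ∧ g ∈ Subgroup.normalizer (Y : Set G) ∧
      ∀ c ∈ A, g * c * g⁻¹ * c⁻¹ ∈ Y := Iff.rfl

/-- If the conjugates of `t` act trivially, so does `[S, t]`. -/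
theorem comm_le_trivMod {A Y S : Subgroup G} {t : G} (hfin : IsOfFinOrder t)
    (h : ∀ a ∈ S, a * t * a⁻¹ ∈ TrivMod A Y) : ⁅S, Subgroup.zpowers t⁆ ≤ TrivMod A Y := by
  rw [Subgroup.commutator_le]
  intro a ha c hc
  obtain ⟨k, rfl⟩ := hfin.mem_powers_iff_mem_zpowers.mpr hc
  have ht : t ∈ TrivMod A Y := by
    have := h 1 S.one_mem
    simpa using this
  have e : ⁅a, (fun i => t ^ i) k⁆ = (a * t * a⁻¹) ^ k * (t ^ k)⁻¹ := by
    simp only [commutatorElement_def, conj_pow]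
  rw [e]
  exact Subgroup.mul_mem _ (Subgroup.pow_mem _ (h a ha) k) (Subgroup.inv_mem _ (Subgroup.pow_mem _ ht k))

/-- If `z` commutes with its commutators with the elements of an `r`-group and `z` has `s`-power order,
then `z` centralizes the group. -/
theorem comm_of_comm_commutator {A : Subgroup G} {r s : ℕ} [hr : Fact r.Prime] (hrs : r ≠ s) [hs : Fact s.Prime]
    (hA : IsPGroup r A) {z : G} {e : ℕ} (hz : z ^ s ^ e = 1) (hzA : z ∈ Subgroup.normalizer (A : Set G))
    (h : ∀ c ∈ A, z * (z * c * z⁻¹ * c⁻¹) = (z * c * z⁻¹ * c⁻¹) * z) : ∀ c ∈ A, z * c = c * z := by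
  intro c hc
  set w := z * c * z⁻¹ * c⁻¹ with hw
  have hwA : w ∈ A := A.mul_mem (conj_mem_of_mem_normalizer hzA hc) (A.inv_mem hc)
  have hcomm : Commute z w := h c hc
  have hpow : ∀ k : ℕ, z ^ k * c * (z ^ k)⁻¹ = w ^ k * c := by
    intro k
    induction k with
    | zero => simp
    | succ k ih =>
      have e1 : z * c * z⁻¹ = w * c := by rw [hw]; group
      have e2 : z * w ^ k * z⁻¹ = w ^ k := by
        rw [(hcomm.pow_right k).eq, mul_inv_cancel_right]
      calc z ^ (k + 1) * c * (z ^ (k + 1))⁻¹ = z * (z ^ k * c * (z ^ k)⁻¹) * z⁻¹ := by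
            rw [pow_succ']
            group
        _ = z * (w ^ k * c) * z⁻¹ := by rw [ih]
        _ = (z * w ^ k * z⁻¹) * (z * c * z⁻¹) := by group
        _ = w ^ k * (w * c) := by rw [e1, e2]
        _ = _ := by rw [pow_succ]; group
  have h1 := hpow (s ^ e)
  rw [hz] at h1
  simp only [one_mul, inv_one, mul_one] at h1
  have h2 : w ^ s ^ e = 1 := mul_right_cancel (b := c) (by rw [one_mul]; exact h1.symm)
  obtain ⟨m, hm⟩ := hA ⟨w, hwA⟩
  have hm' : w ^ r ^ m = 1 := congrArg Subtype.val hm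
  have h3 := pow_gcd_eq_one.mpr ⟨h2, hm'⟩
  have h4 : Nat.gcd (s ^ e) (r ^ m) = 1 :=
    Nat.Coprime.pow _ _ ((Nat.coprime_primes hs.out hr.out).mpr (Ne.symm hrs))
  rw [h4, pow_one] at h3
  have h5 : z * c * z⁻¹ = c := by
    rw [hw] at h3
    exact mul_inv_eq_one.mp h3
  exact mul_inv_eq_iff_eq_mul.mp h5

/-- A `q`-group with `Q = [Q, Q]` is trivial. -/
theorem eq_bot_of_perfect [Finite G] {q : ℕ} [Fact q.Prime] {Q : Subgroup G} (hQ : IsPGroup q Q)
    (h : Q ≤ ⁅Q, Q⁆) : Q = ⊥ := by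
  by_contra hbot
  haveI : Nontrivial Q := (Subgroup.bot_or_nontrivial Q).resolve_left hbot
  haveI : Group.IsNilpotent Q := hQ.isNilpotent
  have h1 : commutator Q < ⊤ := Group.IsSolvable.commutator_lt_top_of_nontrivial Q
  have h2 : (commutator Q).map Q.subtype = ⁅Q, Q⁆ := by
    rw [Subgroup.map_subtype_commutator]
  have h3 : commutator Q = ⊤ := by
    apply Subgroup.map_injective Q.subtype_injective
    rw [h2, ← MonoidHom.range_eq_map, Subgroup.range_subtype]
    exact le_antisymm (Cfsg.Agent.Lib.Coprime.Action.commutator_le_of_le_normalizer Subgroup.le_normalizer) h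
  exact h1.ne h3

end Groups

section Sect

theorem comm_of_map_commutator {G : Type*} [Group G] {M : Type*} [Monoid M] (ρ : G →* M) (g h : G)
    (h5 : ρ ⁅g, h⁆ = 1) : ρ g * ρ h = ρ h * ρ g := by
  rw [← map_mul, ← map_mul]
  have e : g * h = ⁅g, h⁆ * (h * g) := by
    simp [commutatorElement_def]
  rw [e, map_mul, h5, one_mul]

theorem map_commutator_of_comm {G : Type*} [Group G] {M : Type*} [Monoid M] (ρ : G →* M) (g h : G)
    (h5 : ρ g * ρ h = ρ h * ρ g) : ρ ⁅g, h⁆ = 1 := by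
  have e : ⁅g, h⁆ = (g * h) * (h * g)⁻¹ := by
    simp only [commutatorElement_def]
    group
  rw [e, map_mul, map_mul, h5, ← map_mul, ← map_mul]
  simp

/-- The action of `B` on a `2`-group `U` is controlled by the action on the Frattini quotient: if `B` acts
as an abelian group on `U`, the last power of `x` centralizes it modulo the centralizer of `U`. -/
theorem sect_U2 {G : Type w} [Group G] [Finite G] (U : Subgroup G) (hU : IsPGroup 2 U) (x : G)
    (hxU : x ∈ Subgroup.normalizer (U : Set G)) (n : ℕ) (hxL : x ^ 2 ^ (n + 1) = 1)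
    (hm : ∀ u ∈ U, (u * x) ^ 2 ^ (n + 1) = 1) (B : Subgroup G) {s : ℕ} [hsp : Fact s.Prime] (hs : s ≠ 2)
    (hB : IsPGroup s B) (hBU : B ≤ Subgroup.normalizer (U : Set G))
    (hxB : x ∈ Subgroup.normalizer (B : Set G)) (hab : ⁅B, B⁆ ≤ Subgroup.centralizer (U : Set G)) :
    ⁅B, Subgroup.zpowers (x ^ 2 ^ n)⁆ ≤ Subgroup.centralizer (U : Set G) := by
  classical
  haveI : Fact (Nat.Prime 2) := ⟨Nat.prime_two⟩
  let M : Subgroup G := Subgroup.normalizer (U : Set G)
  let T : Subgroup M := U.subgroupOf M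
  haveI hTn : T.Normal := (Subgroup.normal_subgroupOf_iff_le_normalizer Subgroup.le_normalizer).mpr le_rfl
  have hT : IsPGroup 2 T := hU.comap_of_injective M.subtype M.subtype_injective
  obtain ⟨F, i1, i2, i3, W, i4, i5, i6, ρ, h1, h2, h3, h4⟩ := Cfsg.Agent.Lib.Gross.Sect.exists_closed_rep T hT
  have hsF : (s : F) ≠ 0 := by
    intro h
    have h5 := (CharP.cast_eq_zero_iff F 2 s).mp h
    exact hs ((Nat.prime_dvd_prime_iff_eq Nat.prime_two hsp.out).mp h5).symm
  let x' : M := ⟨x, hxU⟩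
  let B' : Subgroup M := B.subgroupOf M
  have hB'm : ∀ g : M, g ∈ B' ↔ g.1 ∈ B := fun g => Subgroup.mem_subgroupOf
  have hB's : IsPGroup s B' := hB.comap_of_injective M.subtype M.subtype_injective
  have hcB' : (Nat.card B' : F) ≠ 0 := by
    obtain ⟨e, he⟩ := IsPGroup.iff_card.mp hB's
    rw [he]
    push_cast
    exact pow_ne_zero _ hsF
  have hab' : ∀ g ∈ B', ∀ h ∈ B', ρ g * ρ h = ρ h * ρ g := by
    intro g hg h hh
    have h5 : ρ ⁅g, h⁆ = 1 := by
      apply h1
      intro t ht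
      apply Subtype.ext
      have h6 : ⁅g.1, h.1⁆ ∈ Subgroup.centralizer (U : Set G) :=
        hab (Subgroup.commutator_mem_commutator ((hB'm g).mp hg) ((hB'm h).mp hh))
      have h7 := Subgroup.mem_centralizer_iff.mp h6 t.1 ht
      exact h7.symm
    exact comm_of_map_commutator ρ g h h5
  have hx'L : x' ^ 2 ^ (n + 1) = 1 := Subtype.ext (by simpa [x'] using hxL)
  have hx'B' : x' ∈ Subgroup.normalizer (B' : Set M) := by
    refine mem_normalizer_of_forall (fun g hg => (hB'm _).mpr ?_) (fun g hg => (hB'm _).mpr ?_)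
    · exact conj_mem_of_mem_normalizer hxB ((hB'm g).mp hg)
    · exact inv_conj_mem_of_mem_normalizer hxB ((hB'm g).mp hg)
  have hN' := h3 x' (2 ^ (n + 1)) (fun t ht => by
    apply Subtype.ext
    have h5 := hm t.1 ht
    simp only [Subgroup.coe_pow, Subgroup.coe_mul]
    change (t.1 * x) ^ _ = x ^ _
    rw [hxL, h5])
  have hfix := conj_fixed ρ B' hcB' hab' x' hx'B' Nat.prime_two n hx'L hN'
  rw [Subgroup.commutator_le]
  intro g hg c hc
  have hfin : IsOfFinOrder (x ^ 2 ^ n) := isOfFinOrder_of_finite _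
  obtain ⟨k, rfl⟩ := hfin.mem_powers_iff_mem_zpowers.mpr hc
  let g' : M := ⟨g, hBU hg⟩
  let t' : M := x' ^ 2 ^ n
  have hcm : ρ g' * ρ t' = ρ t' * ρ g' := by
    have h5 := hfix g' ((hB'm g').mpr hg)
    have e1 : ρ t' * ρ g' = ρ (t' * g' * t'⁻¹) * ρ t' := by
      rw [← map_mul, ← map_mul]
      simp
    rw [e1, h5]
  have hcmk : ρ g' * ρ (t' ^ k) = ρ (t' ^ k) * ρ g' := by
    rw [map_pow]
    exact (Commute.pow_right hcm k).eq
  let e : M := ⁅g', t' ^ k⁆
  have he : ρ e = 1 := map_commutator_of_comm ρ g' _ hcmk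
  have hev : e.1 = ⁅g, (fun i => (x ^ 2 ^ n) ^ i) k⁆ := rfl
  have heB : e.1 ∈ B := by
    rw [hev, commutatorElement_def]
    have e2 : ∀ C : G, g * C * g⁻¹ * C⁻¹ = g * (C * g⁻¹ * C⁻¹) := fun C => by group
    rw [e2]
    refine B.mul_mem hg ?_
    exact conj_mem_of_mem_normalizer (Subgroup.pow_mem _ (Subgroup.pow_mem _ hxB _) _) (B.inv_mem hg)
  obtain ⟨j, hj⟩ := hB ⟨e.1, heB⟩
  have hj' : e ^ s ^ j = 1 := by
    apply Subtype.ext
    have h8 := congrArg Subtype.val hj
    simpa using h8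
  have hes : IsPGroup s (Subgroup.zpowers e) := isPGroup_zpowers hj'
  have hcop : (Nat.card (Subgroup.zpowers e)).Coprime 2 := by
    obtain ⟨a, ha⟩ := IsPGroup.iff_card.mp hes
    rw [ha]
    exact Nat.Coprime.pow_left a ((Nat.coprime_primes hsp.out Nat.prime_two).mpr hs)
  have h5 := h2 (Subgroup.zpowers e) hcop (fun a ha =>
    (Subgroup.zpowers_le.mpr (MonoidHom.mem_ker.mpr he) : Subgroup.zpowers e ≤ ρ.ker) ha) e (Subgroup.mem_zpowers e)
  rw [Subgroup.mem_centralizer_iff]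
  intro u hu
  have h6 := h5 ⟨u, Subgroup.le_normalizer hu⟩ hu
  have h7 := congrArg Subtype.val h6
  rw [← hev]
  exact h7.symm

end Sect

end Cfsg.Agent.Lib.Gross.ConfigAux
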