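/-
Isotypic sums: independence, the numerical identity in characteristic two, and a single Jordan block.
-/
import Cfsg.Agent.Lib.Gross.Avg
import Cfsg.Agent.Lib.HallHigman.Core

set_option autoImplicit false

namespace Cfsg.Agent.Lib.Gross.Isotypic

open Module Cfsg.Agent.Lib.HallHigman.Irr Cfsg.Agent.Lib.Gross.Avg

universe u v w

section Indep

variable {K : Type u} [Field K] {V : Type v} [AddCommGroup V] [Module K V] {H : Type w} [Group H]
  {ρ : H →* End K V} {Q : Subgroup H}

theorem isInv_sSup {F : Set (Submodule K V)} (h : ∀ A ∈ F, IsInv ρ Q A) : IsInv ρ Q (sSup F) := by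
  intro g hg w hw
  have h1 : sSup F ≤ (sSup F).comap (ρ g) :=
    sSup_le (fun A hA a ha => (le_sSup hA : A ≤ sSup F) (h A hA g hg a ha))
  exact h1 hw

/-- An irreducible in a sum of irreducibles is isomorphic to one of them. -/
theorem exists_hom_of_le_sSup {F : Set (Submodule K V)} (hF : ∀ B ∈ F, IsIrr ρ Q B) {A : Submodule K V}
    (hA : IsIrr ρ Q A) (hle : A ≤ sSup F) : ∃ B ∈ F, HomNZ ρ Q A B := by
  classical
  obtain ⟨v, hv, hv0⟩ := Submodule.exists_mem_ne_zero_of_ne_bot hA.ne_bot
  obtain ⟨T, hTF, hvT'⟩ := (Submodule.mem_sSup_iff_exists_finset).mp (hle hv)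
  have hvT : v ∈ T.sup id := by
    rw [Finset.sup_eq_iSup]
    simpa using hvT'
  have hinvT : ∀ T' : Finset (Submodule K V), (T' : Set (Submodule K V)) ⊆ F → IsInv ρ Q (T'.sup id) := by
    intro T' h
    rw [Finset.sup_id_eq_sSup]
    exact isInv_sSup (fun B hB => (hF B (h hB)).inv)
  have hAT : A ≤ T.sup id := by
    have hinv : IsInv ρ Q (A ⊓ T.sup id) := by
      rintro g hg w ⟨h1, h2⟩
      exact ⟨hA.inv g hg w h1, hinvT T hTF g hg w h2⟩
    rcases hA.min _ inf_le_left hinv with h | h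
    · exfalso
      have : v ∈ A ⊓ T.sup id := ⟨hv, hvT⟩
      rw [h, Submodule.mem_bot] at this
      exact hv0 this
    · rw [← h]
      exact inf_le_right
  have key : ∀ T' : Finset (Submodule K V), (T' : Set (Submodule K V)) ⊆ F → A ≤ T'.sup id →
      ∃ B ∈ T', HomNZ ρ Q A B := by
    intro T'
    induction T' using Finset.induction_on with
    | empty =>
      intro _ h
      exact absurd (le_bot_iff.mp h) hA.ne_bot
    | insert B T' _ ih =>
      intro hsub h
      rw [Finset.coe_insert, Set.insert_subset_iff] at hsub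
      rw [Finset.sup_insert] at h
      by_cases h1 : A ≤ T'.sup id
      · obtain ⟨B', hB', hh⟩ := ih hsub.2 h1
        exact ⟨B', Finset.mem_insert_of_mem hB', hh⟩
      · exact ⟨B, Finset.mem_insert_self _ _, homNZ_of_le_sup hA.inv (hF B hsub.1) (hinvT _ hsub.2) h h1⟩
  obtain ⟨B, hB, hh⟩ := key T hTF hAT
  exact ⟨B, hTF hB, hh⟩

/-- Sums of irreducibles of different isomorphism types are independent. -/
theorem iSupIndep_of_sep [FiniteDimensional K V] {J : Type*} (F : J → Set (Submodule K V))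
    (hF : ∀ j, ∀ A ∈ F j, IsIrr ρ Q A)
    (hsep : ∀ j j', j ≠ j' → ∀ A ∈ F j, ∀ B ∈ F j', ¬ HomNZ ρ Q A B) :
    iSupIndep fun j => sSup (F j) := by
  classical
  intro j
  let F' : Set (Submodule K V) := {B | ∃ j', j' ≠ j ∧ B ∈ F j'}
  have hF' : ∀ B ∈ F', IsIrr ρ Q B := by
    rintro B ⟨j', -, hB⟩
    exact hF j' B hB
  have hle : ⨆ (j') (_ : j' ≠ j), sSup (F j') ≤ sSup F' := by
    refine iSup₂_le (fun j' hj' => sSup_le (fun B hB => le_sSup ⟨j', hj', hB⟩))
  refine Disjoint.mono_right hle ?_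
  rw [disjoint_iff]
  by_contra hne
  have hinv : IsInv ρ Q (sSup (F j) ⊓ sSup F') := by
    rintro g hg w ⟨h1, h2⟩
    exact ⟨isInv_sSup (fun A hA => (hF j A hA).inv) g hg w h1, isInv_sSup (fun A hA => (hF' A hA).inv) g hg w h2⟩
  obtain ⟨A, hA, hAi⟩ := exists_irr_le hne hinv
  obtain ⟨B, hB, h1⟩ := exists_hom_of_le_sSup (hF j) hAi (hA.trans inf_le_left)
  obtain ⟨B', hB', h2⟩ := exists_hom_of_le_sSup hF' hAi (hA.trans inf_le_right)
  obtain ⟨j', hj', hB'j⟩ := hB'
  exact hsep j j' (Ne.symm hj') B hB B' hB'j (HomNZ.trans hAi (h1.symm hAi (hF j B hB)) h2)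

end Indep

section Num

variable {K : Type u} [Field K] [CharP K 2] {A : Type*} [Ring A] [Algebra K A]

/-- The identity `∑ i • Y ^ i = Y * (Y - 1) ^ (2 ^ k - 2)` in characteristic two. -/
theorem sum_cast_smul_pow (Y : A) (k : ℕ) (hk : 1 ≤ k) :
    ∑ i ∈ Finset.range (2 ^ k), ((i : ℕ) : K) • Y ^ i = Y * (Y - 1) ^ (2 ^ k - 2) := by
  have h2 : (2 : K) = 0 := by
    have := CharP.cast_eq_zero K 2
    simpa using this
  have h1 : ∀ m : ℕ, ∑ i ∈ Finset.range (2 * m), ((i : ℕ) : K) • Y ^ i = Y * ∑ j ∈ Finset.range m, (Y ^ 2) ^ j := by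
    intro m
    induction m with
    | zero => simp
    | succ m ih =>
      rw [show 2 * (m + 1) = 2 * m + 1 + 1 by ring, Finset.sum_range_succ, Finset.sum_range_succ, ih,
        Finset.sum_range_succ, mul_add]
      have e1 : ((2 * m : ℕ) : K) = 0 := by
        push_cast
        rw [h2, zero_mul]
      have e2 : ((2 * m + 1 : ℕ) : K) = 1 := by
        push_cast
        rw [h2, zero_mul, zero_add]
      rw [e1, e2, zero_smul, one_smul, add_zero, ← pow_mul, ← pow_succ']
  obtain ⟨k, rfl⟩ : ∃ k', k = k' + 1 := ⟨k - 1, by omega⟩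
  rw [pow_succ', h1, Cfsg.Agent.Lib.HallHigman.Core.sum_pow_eq (K := K) (p := 2)]
  have h3 : Y ^ 2 - 1 = (Y - 1) ^ 2 := by
    have := Cfsg.Agent.Lib.HallHigman.Core.sub_one_pow (K := K) (p := 2) Y 1
    simpa using this.symm
  rw [h3, ← pow_mul]
  congr 2
  have : 1 ≤ 2 ^ k := Nat.one_le_pow _ _ (by norm_num)
  omega

end Num

section Block

variable {K : Type u} [Field K] {V : Type v} [AddCommGroup V] [Module K V] [FiniteDimensional K V]

/-- A single Jordan block: the kernel of `N` is the image of `N ^ (q - 1)`. -/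
theorem single_block {A : Submodule K V} {N : End K V} {q : ℕ} (hq : 1 ≤ q) (hA : finrank K A = q)
    (hNA : ∀ u ∈ A, N u ∈ A) (hNq : ∀ u ∈ A, (N ^ q) u = 0) {e : V} (he : e ∈ A)
    (hne : (N ^ (q - 1)) e ≠ 0) {a : V} (ha : a ∈ A) (hNa : N a = 0) :
    ∃ w ∈ A, a = (N ^ (q - 1)) w := by
  classical
  have hpow : ∀ j, ∀ u ∈ A, (N ^ j) u ∈ A := by
    intro j
    induction j with
    | zero =>
      intro u hu
      simpa using hu
    | succ j ih =>
      intro u hu
      rw [pow_succ', Module.End.mul_apply]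
      exact hNA _ (ih u hu)
  have hbig : ∀ j, q ≤ j → (N ^ j) e = 0 := by
    intro j hj
    rw [show j = (j - q) + q by omega, pow_add, Module.End.mul_apply, hNq e he, map_zero]
  -- the triangular computation
  have tri : ∀ (s : ℕ) (c : Fin q → K), (N ^ s) (∑ l, c l • (N ^ (l : ℕ)) e) = 0 →
      ∀ l : Fin q, (l : ℕ) + s < q → c l = 0 := by
    intro s c h0 l
    obtain ⟨n, hn⟩ : ∃ n, (l : ℕ) = n := ⟨_, rfl⟩
    induction n using Nat.strong_induction_on generalizing l with
    | _ n ih =>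
      intro hl
      have h1 : (N ^ (q - 1 - l)) (∑ i, c i • (N ^ (i : ℕ)) e) = 0 := by
        rw [show q - 1 - (l : ℕ) = (q - 1 - l - s) + s by omega, pow_add, Module.End.mul_apply, h0, map_zero]
      simp only [map_sum, map_smul] at h1
      rw [Finset.sum_eq_single l] at h1
      · rw [← Module.End.mul_apply, ← pow_add, show q - 1 - (l : ℕ) + (l : ℕ) = q - 1 by omega] at h1
        exact (smul_eq_zero.mp h1).resolve_right hne
      · intro l' _ hl'
        rcases lt_or_gt_of_ne (Fin.val_ne_of_ne hl') with h2 | h2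
        · rw [ih _ (by omega) l' rfl (by omega)]
          simp
        · rw [← Module.End.mul_apply, ← pow_add, hbig _ (by omega), smul_zero]
      · intro h'
        exact absurd (Finset.mem_univ l) h'
  have hli : LinearIndependent K (fun l : Fin q => (N ^ (l : ℕ)) e) := by
    rw [Fintype.linearIndependent_iff]
    intro c hc l
    exact tri 0 c (by simpa using hc) l (by have := l.2; omega)
  have hspan : Submodule.span K (Set.range fun l : Fin q => (N ^ (l : ℕ)) e) = A := by
    apply Submodule.eq_of_le_of_finrank_eq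
    · rw [Submodule.span_le]
      rintro _ ⟨l, rfl⟩
      exact hpow _ _ he
    · rw [finrank_span_eq_card hli, hA]
      simp
  rw [← hspan, Submodule.mem_span_range_iff_exists_fun] at ha
  obtain ⟨c, rfl⟩ := ha
  have h1 := tri 1 c (by simpa using hNa)
  let last : Fin q := ⟨q - 1, by omega⟩
  refine ⟨c last • e, A.smul_mem _ he, ?_⟩
  rw [Finset.sum_eq_single last]
  · simp [last]
  · intro l _ hl
    have hl' : (l : ℕ) ≠ q - 1 := fun h => hl (Fin.ext h)
    rw [h1 l (by have := l.2; omega), zero_smul]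
  · intro h'
    exact absurd (Finset.mem_univ last) h'

end Block

end Cfsg.Agent.Lib.Gross.Isotypic
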