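/-
Theorem J: the exceptional case of Hall-Higman for `Q = [Q, t]`, with vanishing norm of `x`.
-/
import Cfsg.Agent.Lib.Gross.CL
import Cfsg.Agent.Lib.HallHigman.Reduction

set_option autoImplicit false

namespace Cfsg.Agent.Lib.Gross.J

open Module Cfsg.Agent.Lib.HallHigman.Irr Cfsg.Agent.Lib.HallHigman.Core Cfsg.Agent.Lib.Gross.Avg
  Cfsg.Agent.Lib.Gross.Stab Cfsg.Agent.Lib.Gross.CL
open scoped commutatorElement

universe u v w

/-- Mersenne prime powers have exponent one. -/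
theorem mersenne_exp_one {q m k : ℕ} (hq : q.Prime) (hq2 : q ≠ 2) (hm : 1 ≤ m) (h : q ^ m + 1 = 2 ^ k) :
    m = 1 := by
  have hodd : Odd q := hq.odd_of_ne_two hq2
  have h3 : 3 ≤ q := by
    have := hq.two_le
    omega
  rcases Nat.even_or_odd' m with ⟨w, rfl | rfl⟩
  · -- even
    exfalso
    have h1 : (q ^ w) ^ 2 % 4 = 1 := by
      have h2 : Odd (q ^ w) := hodd.pow
      obtain ⟨e, he⟩ := h2
      rw [he]
      ring_nf
      omega
    have hgt : 1 < q ^ (2 * w) := Nat.one_lt_pow (by omega) (by omega)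
    rw [pow_mul', ] at h hgt
    obtain ⟨k, rfl⟩ : ∃ k', k = k' + 2 := by
      by_contra hk
      have hk' : k = 0 ∨ k = 1 := by
        by_contra h5
        exact hk ⟨k - 2, by omega⟩
      rcases hk' with rfl | rfl <;> omega
    rw [pow_add] at h
    omega
  · -- odd
    have hd : q + 1 ∣ q ^ (2 * w + 1) + 1 := by
      have := Odd.nat_add_dvd_pow_add_pow q 1 (n := 2 * w + 1) (by simp)
      simpa using this
    rw [h] at hd
    obtain ⟨c, hc, hc2⟩ := (Nat.dvd_prime_pow Nat.prime_two).mp hd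
    obtain ⟨e, he⟩ := hodd
    have h2 : q ^ 2 ≡ 1 [MOD 2 ^ (c + 1)] := by
      have h4 : q ^ 2 = 1 + e * 2 ^ (c + 1) := by
        have h5 : q * q = (q + 1) * (2 * e) + 1 := by
          subst he
          ring
        rw [hc2] at h5
        rw [pow_two, h5, pow_succ]
        ring
      rw [h4]
      simp [Nat.ModEq]
    have h6 : q ^ (2 * w + 1) ≡ q [MOD 2 ^ (c + 1)] := by
      have h7 := (h2.pow w).mul_right q
      rw [← pow_mul, one_pow, one_mul] at h7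
      rwa [pow_succ]
    have h8 : 2 ^ k ≡ 2 ^ c [MOD 2 ^ (c + 1)] := by
      rw [← h, ← hc2]
      exact h6.add_right 1
    by_cases hkc : c < k
    · exfalso
      have h9 : 2 ^ (c + 1) ∣ 2 ^ k := pow_dvd_pow 2 hkc
      have h10 : 2 ^ k % 2 ^ (c + 1) = 0 := Nat.mod_eq_zero_of_dvd h9
      have h11 : 2 ^ c % 2 ^ (c + 1) = 2 ^ c :=
        Nat.mod_eq_of_lt (Nat.pow_lt_pow_right (by norm_num) (by omega))
      have h12 : 2 ^ k % 2 ^ (c + 1) = 2 ^ c % 2 ^ (c + 1) := h8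
      rw [h10, h11] at h12
      have := pow_pos (show 0 < 2 by norm_num) c
      omega
    · have hk : k = c := by omega
      subst hk
      have h13 : q ^ (2 * w + 1) = q ^ 1 := by
        rw [pow_one]
        omega
      have h14 := Nat.pow_right_injective hq.two_le h13
      exact h14

section Main

variable {K : Type u} [Field K] [IsAlgClosed K] {p : ℕ} [hp : Fact p.Prime] [CharP K p]
  {V : Type v} [AddCommGroup V] [Module K V] [FiniteDimensional K V] {H : Type w} [Group H] [Finite H]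

/-- Elements of `Q` commuting with `t` are central in `Q`, modulo the kernel. -/
theorem center_of_comm {q : ℕ} [Fact q.Prime] (hq : (q : K) ≠ 0) (ρ : H →* End K V) (Q : Subgroup H)
    (hQ : IsPGroup q Q) (x : H) (hx : x ∈ Subgroup.normalizer (Q : Set H)) (n : ℕ)
    (hxL : x ^ p ^ (n + 1) = 1) (hN : (ρ x - 1) ^ (p ^ (n + 1) - 1) = 0)
    (hQt : ⁅Q, Subgroup.zpowers (x ^ p ^ n)⁆ = Q) :
    ∀ g ∈ Q, g * x ^ p ^ n = x ^ p ^ n * g → ∀ h ∈ Q, ρ g * ρ h = ρ h * ρ g := by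
  classical
  have hcl := class_le_two hq ρ Q hQ x hx n hxL hN hQt
  set t := x ^ p ^ n with ht
  have htn : t ∈ Subgroup.normalizer (Q : Set H) := Subgroup.pow_mem _ hx _
  -- central elements
  let B : Subgroup H :=
    { carrier := {g | g ∈ Q ∧ ∀ h ∈ Q, ρ g * ρ h = ρ h * ρ g}
      mul_mem' := by
        rintro a b ⟨ha, ha'⟩ ⟨hb, hb'⟩
        refine ⟨Q.mul_mem ha hb, fun h hh => ?_⟩
        rw [map_mul, mul_assoc, hb' h hh, ← mul_assoc, ha' h hh, mul_assoc]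
      one_mem' := by
        refine ⟨Q.one_mem, fun h _ => ?_⟩
        simp
      inv_mem' := by
        rintro a ⟨ha, ha'⟩
        refine ⟨Q.inv_mem ha, fun h hh => ?_⟩
        have h1 := ha' h hh
        have e1 : ρ a⁻¹ * ρ a = 1 := by rw [← map_mul, inv_mul_cancel, map_one]
        have e2 : ρ a * ρ a⁻¹ = 1 := by rw [← map_mul, mul_inv_cancel, map_one]
        calc ρ a⁻¹ * ρ h = ρ a⁻¹ * ρ h * (ρ a * ρ a⁻¹) := by rw [e2, mul_one]
          _ = ρ a⁻¹ * (ρ h * ρ a) * ρ a⁻¹ := by noncomm_ring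
          _ = ρ a⁻¹ * (ρ a * ρ h) * ρ a⁻¹ := by rw [h1]
          _ = (ρ a⁻¹ * ρ a) * ρ h * ρ a⁻¹ := by noncomm_ring
          _ = _ := by rw [e1, one_mul] }
  have hBmem : ∀ g, g ∈ B ↔ g ∈ Q ∧ ∀ h ∈ Q, ρ g * ρ h = ρ h * ρ g := fun g => Iff.rfl
  have hconj : ∀ s ∈ Subgroup.normalizer (Q : Set H), ∀ g ∈ B, s * g * s⁻¹ ∈ B := by
    intro s hs g hg
    obtain ⟨hg1, hg2⟩ := (hBmem g).mp hg
    refine (hBmem _).mpr ⟨conj_mem_of_mem_normalizer hs hg1, fun h hh => ?_⟩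
    have h1 := hg2 _ (inv_conj_mem_of_mem_normalizer hs hh)
    have e1 : ρ (s * g * s⁻¹) * ρ h = ρ s * (ρ g * ρ (s⁻¹ * h * s)) * ρ s⁻¹ := by
      simp only [← map_mul]
      congr 1
      group
    have e2 : ρ h * ρ (s * g * s⁻¹) = ρ s * (ρ (s⁻¹ * h * s) * ρ g) * ρ s⁻¹ := by
      simp only [← map_mul]
      congr 1
      group
    rw [e1, e2, h1]
  have hBn : x ∈ Subgroup.normalizer (B : Set H) := by
    rw [Subgroup.mem_normalizer_iff]
    intro g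
    constructor
    · exact hconj x hx g
    · intro hg
      have := hconj x⁻¹ (Subgroup.inv_mem _ hx) _ hg
      simpa [mul_assoc] using this
  have hBQ : B ≤ Q := fun g hg => hg.1
  have hcB : (Nat.card B : K) ≠ 0 := by
    obtain ⟨e, he⟩ := IsPGroup.iff_card.mp (hQ.to_le hBQ)
    rw [he]
    push_cast
    exact pow_ne_zero _ hq
  have hfix := conj_fixed ρ B hcB (fun g hg h hh => hg.2 h (hBQ hh)) x hBn hp.out n hxL
    (by rw [sum_pow_eq (K := K) (p := p)]; exact hN)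
  intro g hg hgt h hh
  -- the centralizer of `ρ g`
  let F : Subgroup Q :=
    { carrier := {a | ρ g * ρ a.1 = ρ a.1 * ρ g}
      mul_mem' := by
        intro a b ha hb
        have ha' : ρ g * ρ a.1 = ρ a.1 * ρ g := ha
        have hb' : ρ g * ρ b.1 = ρ b.1 * ρ g := hb
        change ρ g * ρ (a.1 * b.1) = ρ (a.1 * b.1) * ρ g
        rw [map_mul, ← mul_assoc, ha', mul_assoc, hb', mul_assoc]
      one_mem' := by
        change ρ g * ρ 1 = ρ 1 * ρ g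
        simp
      inv_mem' := by
        intro a ha
        have ha' : ρ g * ρ a.1 = ρ a.1 * ρ g := ha
        change ρ g * ρ a.1⁻¹ = ρ a.1⁻¹ * ρ g
        have e1 : ρ a.1⁻¹ * ρ a.1 = 1 := by rw [← map_mul, inv_mul_cancel, map_one]
        have e2 : ρ a.1 * ρ a.1⁻¹ = 1 := by rw [← map_mul, mul_inv_cancel, map_one]
        calc ρ g * ρ a.1⁻¹ = (ρ a.1⁻¹ * ρ a.1) * (ρ g * ρ a.1⁻¹) := by rw [e1, one_mul]
          _ = ρ a.1⁻¹ * (ρ a.1 * ρ g) * ρ a.1⁻¹ := by noncomm_ring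
          _ = ρ a.1⁻¹ * (ρ g * ρ a.1) * ρ a.1⁻¹ := by rw [ha']
          _ = ρ a.1⁻¹ * ρ g * (ρ a.1 * ρ a.1⁻¹) := by noncomm_ring
          _ = _ := by rw [e2, mul_one] }
  have hgen := closure_eq_top Q t htn (isOfFinOrder_of_finite _) hQt
  have hFtop : F = ⊤ := by
    rw [eq_top_iff, ← hgen, Subgroup.closure_le]
    rintro _ ⟨a, rfl⟩
    change ρ g * ρ (a⁻¹ * conjOn Q t htn a).1 = ρ (a⁻¹ * conjOn Q t htn a).1 * ρ g
    have hca : g * a.1 * g⁻¹ * a.1⁻¹ ∈ B := by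
      refine ⟨Q.mul_mem (Q.mul_mem (Q.mul_mem hg a.2) (Q.inv_mem hg)) (Q.inv_mem a.2), fun h hh => ?_⟩
      exact hcl _ (Subgroup.commutator_mem_commutator hg a.2) h hh
    have h1 := hfix _ hca
    have hgc : t * g * t⁻¹ = g := by
      rw [← hgt]
      group
    set A := a.1 with hA
    set A' := t * A * t⁻¹ with hA'
    have e1 : t * (g * A * g⁻¹ * A⁻¹) * t⁻¹ = g * A' * g⁻¹ * A'⁻¹ := by
      calc t * (g * A * g⁻¹ * A⁻¹) * t⁻¹
          = (t * g * t⁻¹) * (t * A * t⁻¹) * (t * g * t⁻¹)⁻¹ * (t * A * t⁻¹)⁻¹ := by group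
        _ = _ := by rw [hgc]
    rw [e1] at h1
    have e2 : g * (A⁻¹ * A') * g⁻¹ = A⁻¹ * ((g * A * g⁻¹ * A⁻¹)⁻¹ * (g * A' * g⁻¹ * A'⁻¹)) * A' := by group
    have e3 : ρ ((g * A * g⁻¹ * A⁻¹)⁻¹ * (g * A' * g⁻¹ * A'⁻¹)) = 1 := by
      rw [map_mul, h1, ← map_mul, inv_mul_cancel, map_one]
    have e4 : ρ (g * (A⁻¹ * A') * g⁻¹) = ρ (A⁻¹ * A') := by
      rw [e2, map_mul, map_mul, e3, mul_one, ← map_mul]
    have e5 : (a⁻¹ * conjOn Q t htn a).1 = A⁻¹ * A' := rfl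
    rw [e5]
    calc ρ g * ρ (A⁻¹ * A') = ρ (g * (A⁻¹ * A') * g⁻¹) * ρ g := by
          rw [← map_mul, ← map_mul]
          congr 1
          group
      _ = _ := by rw [e4]
  have h2 : (⟨h, hh⟩ : Q) ∈ F := by
    rw [hFtop]
    trivial
  exact h2

/-- **Theorem J.** -/
theorem thmJ {q : ℕ} [Fact q.Prime] (hq : (q : K) ≠ 0) (hpq : p ≠ q) (ρ : H →* End K V) (Q : Subgroup H)
    (hQ : IsPGroup q Q) (x : H) (hx : x ∈ Subgroup.normalizer (Q : Set H)) (n : ℕ)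
    (hxL : x ^ p ^ (n + 1) = 1) (hN : (ρ x - 1) ^ (p ^ (n + 1) - 1) = 0)
    (hQt : ⁅Q, Subgroup.zpowers (x ^ p ^ n)⁆ = Q)
    {U₁ : Submodule K V} (hU₁ : IsIrr ρ Q U₁) (hnt : ∃ g ∈ Q, ∃ u ∈ U₁, ρ g u ≠ u)
    (r : ℕ) (hr : (ρ x - 1) ^ r = 0) :
    p ^ (n + 1) ≤ r ∨ ∃ (n₀ m a : ℕ) (U : Submodule K V), 1 ≤ n₀ ∧ n₀ ≤ n + 1 ∧ 1 ≤ m ∧ p ^ n₀ - 1 = q ^ m ∧
      p ^ (n + 1 - n₀) * (p ^ n₀ - 1) ≤ r ∧ n + 1 = a + n₀ ∧ IsIrr ρ Q U ∧
      (∀ u ∈ U, ρ (x ^ p ^ a) u ∈ U) ∧ HomNZ ρ Q U₁ U ∧ finrank K U = q ^ m ∧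
      (∃ u ∈ U, ((ρ (x ^ p ^ a) - 1) ^ (p ^ n₀ - 2)) u ≠ 0) ∧
      ∀ i j : Fin (p ^ a), i ≠ j → ¬ HomNZ ρ Q (tw ρ (x ^ (i : ℕ)) U) (tw ρ (x ^ (j : ℕ)) U) := by
  classical
  have hpp : p.Prime := hp.out
  have hgen : ∀ U : Submodule K V, IsInv ρ Q U → (∀ u ∈ U, ρ (x ^ p ^ n) u = u) →
      ∀ g ∈ Q, ∀ u ∈ U, ρ g u = u := by
    intro U hU hy
    refine Cfsg.Agent.Lib.HallHigman.Reduction.fixed_of_commutator ρ Q _ hQt hU ?_
    intro z hz u hu
    have hfin : IsOfFinOrder (x ^ p ^ n) := isOfFinOrder_of_finite _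
    obtain ⟨w, rfl⟩ := hfin.mem_powers_iff_mem_zpowers.mpr hz
    simp only
    rw [map_pow]
    induction w with
    | zero => simp
    | succ w ih =>
      have hz' : (x ^ p ^ n) ^ w ∈ Subgroup.zpowers (x ^ p ^ n) :=
        Subgroup.pow_mem _ (Subgroup.mem_zpowers _) _
      rw [pow_succ, Module.End.mul_apply, hy u hu, ih hz']
  have hord : orderOf x = p ^ (n + 1) := by
    obtain ⟨k, hk, hord⟩ := (Nat.dvd_prime_pow hpp).mp (orderOf_dvd_of_pow_eq_one hxL)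
    by_cases hkn : k = n + 1
    · rw [hord, hkn]
    exfalso
    have h1 : x ^ p ^ n = 1 := by
      rw [← orderOf_dvd_iff_pow_eq_one, hord]
      exact pow_dvd_pow p (by omega)
    obtain ⟨g, hg, u, hu, hgu⟩ := hnt
    apply hgu
    exact hgen U₁ hU₁.inv (fun u _ => by rw [h1, map_one]; rfl) g hg u hu
  exact core_full' hq hpq ρ Q hQ x hx n hord (center_of_comm hq ρ Q hQ x hx n hxL hN hQt) hgen hU₁ hnt r hr

end Main

end Cfsg.Agent.Lib.Gross.J
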