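/-
Irreducible submodules in the exceptional case in characteristic two: each irreducible on which `Q` is
nontrivial is invariant under `y = x ^ 2 ^ a`, and `y` acts on it as a single Jordan block.
-/
import Cfsg.Agent.Lib.Gross.J
import Cfsg.Agent.Lib.Gross.Isotypic

set_option autoImplicit false

namespace Cfsg.Agent.Lib.Gross.IR

open Module Cfsg.Agent.Lib.HallHigman.Irr Cfsg.Agent.Lib.HallHigman.Core Cfsg.Agent.Lib.Gross.Avg
  Cfsg.Agent.Lib.Gross.Isotypic Cfsg.Agent.Lib.Gross.J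

universe u v w

variable {K : Type u} [Field K] {V : Type v} [AddCommGroup V] [Module K V] {H : Type w} [Group H]

/-- `F` is a `Q`-homomorphism on `U`. -/
def QH (ρ : H →* End K V) (Q : Subgroup H) (U : Submodule K V) (F : End K V) : Prop :=
  ∀ g ∈ Q, ∀ a ∈ U, F (ρ g a) = ρ g (F a)

variable {ρ : H →* End K V} {Q : Subgroup H} {U : Submodule K V}

/-- The image of an irreducible under a homomorphism which is not zero. -/
theorem IsIrr.map_hom (hU : IsIrr ρ Q U) {F : End K V} (hF : QH ρ Q U F) (h0 : ∃ a ∈ U, F a ≠ 0) :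
    IsIrr ρ Q (U.map F) := by
  have hinj := hU.inj_of_hom hF h0
  refine ⟨?_, ?_, ?_⟩
  · obtain ⟨a, ha, ha0⟩ := h0
    intro h
    have : F a ∈ U.map F := ⟨a, ha, rfl⟩
    rw [h, Submodule.mem_bot] at this
    exact ha0 this
  · rintro g hg _ ⟨a, ha, rfl⟩
    exact ⟨ρ g a, hU.inv g hg a ha, hF g hg a ha⟩
  · intro W' hle hW'
    have hinv : IsInv ρ Q (U ⊓ W'.comap F) := by
      rintro g hg a ⟨h1, h2⟩
      refine ⟨hU.inv g hg a h1, ?_⟩
      change F (ρ g a) ∈ W'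
      rw [hF g hg a h1]
      exact hW' g hg _ h2
    rcases hU.min _ inf_le_left hinv with h | h
    · left
      rw [Submodule.eq_bot_iff]
      intro w hw
      obtain ⟨a, ha, rfl⟩ := hle hw
      have : a ∈ U ⊓ W'.comap F := ⟨ha, hw⟩
      rw [h, Submodule.mem_bot] at this
      rw [this, map_zero]
    · right
      apply le_antisymm hle
      rintro _ ⟨a, ha, rfl⟩
      rw [← h] at ha
      exact ha.2

section Char2

variable [CharP K 2] [FiniteDimensional K V]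

/-- The norm of `y = x ^ 2 ^ a` vanishes on the homomorphic images of `U`, when the `x ^ i`-twists of `U`
(`i < 2 ^ a`) are pairwise non-isomorphic. -/
theorem iso_norm (x : H) (hx : x ∈ Subgroup.normalizer (Q : Set H)) (a k : ℕ)
    (hxL : x ^ 2 ^ (a + k) = 1) (hN : (ρ x - 1) ^ (2 ^ (a + k) - 1) = 0) (hU : IsIrr ρ Q U)
    (hyU : ∀ u ∈ U, ρ (x ^ 2 ^ a) u ∈ U)
    (hno : ∀ i j : Fin (2 ^ a), i ≠ j → ¬ HomNZ ρ Q (tw ρ (x ^ (i : ℕ)) U) (tw ρ (x ^ (j : ℕ)) U)) :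
    ∀ F, QH ρ Q U F → ∀ u ∈ U, (((ρ (x ^ 2 ^ a) - 1) ^ (2 ^ k - 1) : End K V)) (F u) = 0 := by
  classical
  have hxn : ∀ i : ℕ, x ^ i ∈ Subgroup.normalizer (Q : Set H) := fun i => Subgroup.pow_mem _ hx i
  set y := x ^ 2 ^ a with hy
  have hyn : y ∈ Subgroup.normalizer (Q : Set H) := hxn _
  have hyP : y ^ 2 ^ k = 1 := by
    rw [hy, ← pow_mul, ← pow_add, hxL]
  have hyi : y⁻¹ = y ^ (2 ^ k - 1) := by
    rw [inv_eq_iff_mul_eq_one, ← pow_succ', Nat.sub_add_cancel (Nat.one_le_pow _ _ (by norm_num)), hyP]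
  have hypow : ∀ j : ℕ, ∀ u ∈ U, ρ (y ^ j) u ∈ U := by
    intro j
    induction j with
    | zero =>
      intro u hu
      simpa using hu
    | succ j ih =>
      intro u hu
      rw [pow_succ', map_mul, Module.End.mul_apply]
      exact hyU _ (ih u hu)
  have hyU' : ∀ u ∈ U, ρ y⁻¹ u ∈ U := fun u hu => by
    rw [hyi]
    exact hypow _ u hu
  have hUeq : tw ρ y U = U := by
    ext v
    rw [mem_tw]
    constructor
    · intro h
      have := hyU _ h
      rwa [rho_apply_inv] at this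
    · exact hyU' v
  let Iso : Submodule K V := sSup {A | IsIrr ρ Q A ∧ HomNZ ρ Q U A}
  let Fam : Fin (2 ^ a) → Set (Submodule K V) := fun j => {A | IsIrr ρ Q A ∧ HomNZ ρ Q (tw ρ (x ^ (j : ℕ)) U) A}
  have hind0 : iSupIndep fun j => sSup (Fam j) := by
    apply iSupIndep_of_sep (ρ := ρ) (Q := Q) Fam (fun j A hA => hA.1)
    rintro j j' hjj' A ⟨hA, hAU⟩ B ⟨hB, hBU⟩ hAB
    have h1 : IsIrr ρ Q (tw ρ (x ^ (j : ℕ)) U) := hU.tw (hxn _)
    have h2 : IsIrr ρ Q (tw ρ (x ^ (j' : ℕ)) U) := hU.tw (hxn _)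
    exact hno j j' hjj' (HomNZ.trans hB (HomNZ.trans hA hAU hAB) (hBU.symm h2 hB))
  have hind : iSupIndep (fun j : Fin (2 ^ a) => tw ρ (x ^ (j : ℕ)) Iso) := by
    refine hind0.mono (fun j => ?_)
    change Submodule.map (ρ (x ^ (j : ℕ))) Iso ≤ sSup (Fam j)
    rw [Submodule.map_le_iff_le_comap]
    refine sSup_le ?_
    rintro A ⟨hA, hAU⟩ w hw
    have hmem : tw ρ (x ^ (j : ℕ)) A ∈ Fam j := ⟨hA.tw (hxn _), hAU.tw (hxn _)⟩
    exact (le_sSup hmem : tw ρ (x ^ (j : ℕ)) A ≤ sSup (Fam j)) (apply_mem_tw hw)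
  have htU : ∀ u ∈ Iso, ρ y u ∈ Iso := by
    have h1 : Iso ≤ Iso.comap (ρ y) := by
      refine sSup_le ?_
      rintro A ⟨hA, hAU⟩ w hw
      have h2 := hAU.tw hyn
      rw [hUeq] at h2
      have hmem : tw ρ y A ∈ {A | IsIrr ρ Q A ∧ HomNZ ρ Q U A} := ⟨hA.tw hyn, h2⟩
      exact (le_sSup hmem : tw ρ y A ≤ Iso) (apply_mem_tw hw)
    exact fun u hu => h1 hu
  have hzero : ∀ w ∈ Iso, (((ρ y - 1) ^ (2 ^ k - 1) : End K V)) w = 0 := by
    intro w hw
    by_contra hne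
    have h1 := block_bound ρ x a (2 ^ k) _ (Nat.one_le_pow _ _ (by norm_num)) hind htU hw hne hN
    rw [← pow_add] at h1
    have : 0 < 2 ^ (a + k) := pow_pos (by norm_num) _
    omega
  intro F hF u hu
  by_cases h0 : ∃ a ∈ U, F a ≠ 0
  · apply hzero
    have hmem : U.map F ∈ {A | IsIrr ρ Q A ∧ HomNZ ρ Q U A} :=
      ⟨IsIrr.map_hom hU hF h0, F, fun a ha => ⟨a, ha, rfl⟩, hF, h0⟩
    exact (le_sSup hmem : U.map F ≤ Iso) ⟨u, hu, rfl⟩
  · push Not at h0
    rw [h0 u hu, map_zero]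

/-- **Lemma X.** -/
theorem hom_comm_y (hU : IsIrr ρ Q U) (y : H) (hyn : y ∈ Subgroup.normalizer (Q : Set H)) (k : ℕ)
    (hk : 1 ≤ k) (hyP : y ^ 2 ^ k = 1) (hyU : ∀ u ∈ U, ρ y u ∈ U)
    (hη : ∃ u ∈ U, (((ρ y - 1) ^ (2 ^ k - 2) : End K V)) u ≠ 0)
    (hiso : ∀ F, QH ρ Q U F → ∀ u ∈ U, (((ρ y - 1) ^ (2 ^ k - 1) : End K V)) (F u) = 0) :
    ∀ F, QH ρ Q U F → ∀ u ∈ U, ρ y (F u) = F (ρ y u) := by
  classical
  have hyi : y⁻¹ = y ^ (2 ^ k - 1) := by
    rw [inv_eq_iff_mul_eq_one, ← pow_succ', Nat.sub_add_cancel (Nat.one_le_pow _ _ (by norm_num)), hyP]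
  have hypow : ∀ j : ℕ, ∀ u ∈ U, ρ (y ^ j) u ∈ U := by
    intro j
    induction j with
    | zero =>
      intro u hu
      simpa using hu
    | succ j ih =>
      intro u hu
      rw [pow_succ', map_mul, Module.End.mul_apply]
      exact hyU _ (ih u hu)
  have hyU' : ∀ u ∈ U, ρ y⁻¹ u ∈ U := fun u hu => by
    rw [hyi]
    exact hypow _ u hu
  set Y := ρ y with hY
  set Yi := ρ y⁻¹ with hYi
  have hYYi : Y * Yi = 1 := by rw [hY, hYi, ← map_mul, mul_inv_cancel, map_one]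
  have hYiY : Yi * Y = 1 := by rw [hY, hYi, ← map_mul, inv_mul_cancel, map_one]
  have hYiYv : ∀ v, Yi (Y v) = v := fun v => by
    rw [← Module.End.mul_apply, hYiY]
    rfl
  have hYYiv : ∀ v, Y (Yi v) = v := fun v => by
    rw [← Module.End.mul_apply, hYYi]
    rfl
  let T : End K (End K V) := LinearMap.mulLeft K Y ∘ₗ LinearMap.mulRight K Yi
  have hT : ∀ F, T F = Y * (F * Yi) := fun F => rfl
  have hTv : ∀ F v, T F v = Y (F (Yi v)) := fun F v => rfl
  have hTpow : ∀ j F, (T ^ j) F = ρ (y ^ j) * F * ρ (y⁻¹ ^ j) := by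
    intro j
    induction j with
    | zero =>
      intro F
      simp
    | succ j ih =>
      intro F
      rw [pow_succ', Module.End.mul_apply, ih, hT, pow_succ', pow_succ, map_mul, map_mul]
      simp only [mul_assoc, hY, hYi]
  have hTP : T ^ 2 ^ k = 1 := by
    ext F v
    rw [hTpow, hyP, inv_pow, hyP]
    simp
  have hA0 : (T - 1) ^ 2 ^ k = 0 := by
    rw [sub_one_pow (K := K) (p := 2), hTP, sub_self]
  have hQHT : ∀ F, QH ρ Q U F → QH ρ Q U (T F) := by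
    intro F hF g hg a ha
    have hg' : y⁻¹ * g * y ∈ Q := inv_conj_mem_of_mem_normalizer hyn hg
    have e1 : Yi (ρ g a) = ρ (y⁻¹ * g * y) (Yi a) := by
      rw [hYi, ← Module.End.mul_apply, ← Module.End.mul_apply, ← map_mul, ← map_mul]
      simp
    rw [hTv, hTv, e1, hF _ hg' _ (hyU' a ha)]
    have e3 : Y * ρ (y⁻¹ * g * y) = ρ g * Y := by
      rw [hY, ← map_mul, ← map_mul]
      congr 1
      group
    exact LinearMap.congr_fun e3 (F (Yi a))
  have hQHA : ∀ (j : ℕ) (F), QH ρ Q U F → QH ρ Q U (((T - 1) ^ j) F) := by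
    intro j
    induction j with
    | zero =>
      intro F hF
      simpa using hF
    | succ j ih =>
      intro F hF g hg a ha
      rw [pow_succ', Module.End.mul_apply]
      have h1 := ih F hF
      simp only [LinearMap.sub_apply, Module.End.one_apply, map_sub]
      rw [hQHT _ h1 g hg a ha, h1 g hg a ha]
  intro F₀ hF₀ u₀ hu₀
  by_contra hne
  let P : ℕ → Prop := fun j => ∀ u ∈ U, (((T - 1) ^ j) F₀) u = 0
  have hPk : P (2 ^ k) := by
    intro u _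
    rw [hA0]
    rfl
  have hmono : ∀ j, P j → P (j + 1) := by
    intro j hj u hu
    rw [pow_succ', Module.End.mul_apply]
    simp only [LinearMap.sub_apply, Module.End.one_apply]
    rw [hTv, hj _ (hyU' u hu), hj u hu, map_zero, sub_self]
  have hnP1 : ¬ P 1 := by
    intro h
    apply hne
    have h1 := h _ (hyU u₀ hu₀)
    rw [pow_one] at h1
    simp only [LinearMap.sub_apply, Module.End.one_apply] at h1
    rw [hTv, hYiYv] at h1
    exact sub_eq_zero.mp h1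
  have hex : ∃ j, P j := ⟨_, hPk⟩
  have hj0 := Nat.find_spec hex
  have hmin : ∀ j, j < Nat.find hex → ¬ P j := fun j hj => Nat.find_min hex hj
  obtain ⟨j, hj⟩ : ∃ j, Nat.find hex = j + 2 := by
    by_contra hcon
    have h0 : Nat.find hex = 0 ∨ Nat.find hex = 1 := by
      by_contra h5
      exact hcon ⟨Nat.find hex - 2, by omega⟩
    rcases h0 with h0 | h0
    · rw [h0] at hj0
      exact hnP1 (hmono 0 hj0)
    · rw [h0] at hj0
      exact hnP1 hj0
  rw [hj] at hj0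
  have hnP : ¬ P (j + 1) := hmin _ (by omega)
  simp only [P] at hnP hj0
  push Not at hnP
  obtain ⟨u₁, hu₁, hg₁⟩ := hnP
  set f' := ((T - 1) ^ j) F₀ with hf'
  set g' := ((T - 1) ^ (j + 1)) F₀ with hg'
  have hg'f' : g' = T f' - f' := by
    rw [hg', pow_succ', Module.End.mul_apply]
    rfl
  have hj0' : ∀ u ∈ U, (T g' - g') u = 0 := by
    intro u hu
    have h1 := hj0 u hu
    rw [pow_succ', Module.End.mul_apply] at h1
    exact h1
  have hQf : QH ρ Q U f' := hQHA _ _ hF₀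
  have hQg : QH ρ Q U g' := hQHA _ _ hF₀
  have ha : ∀ u ∈ U, Y (g' u) = g' (Y u) := by
    intro u hu
    have h1 := hj0' _ (hyU u hu)
    rw [LinearMap.sub_apply, hTv, hYiYv] at h1
    exact sub_eq_zero.mp h1
  have hb : ∀ u ∈ U, Y (f' u) = f' (Y u) + g' (Y u) := by
    intro u hu
    rw [hg'f', LinearMap.sub_apply, hTv, hYiYv]
    abel
  have hYU : ∀ (i : ℕ), ∀ u ∈ U, (Y ^ i) u ∈ U := by
    intro i u hu
    rw [hY, ← map_pow]
    exact hypow i u hu
  have hc : ∀ (i : ℕ), ∀ u ∈ U, (Y ^ i) (f' u) = f' ((Y ^ i) u) + ((i : ℕ) : K) • g' ((Y ^ i) u) := by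
    intro i
    induction i with
    | zero =>
      intro u _
      simp
    | succ i ih =>
      intro u hu
      rw [pow_succ', Module.End.mul_apply, ih u hu, map_add, map_smul, hb _ (hYU i u hu), ha _ (hYU i u hu),
        Module.End.mul_apply]
      push_cast
      rw [add_smul, one_smul]
      abel
  have hinj := hU.inj_of_hom hQg ⟨u₁, hu₁, hg₁⟩
  obtain ⟨u₂, hu₂, hu₂0⟩ := hη
  have hsumf : ∑ i ∈ Finset.range (2 ^ k), (Y ^ i) (f' u₂) = 0 := by
    have h1 := hiso f' hQf u₂ hu₂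
    rw [← sum_pow_eq (K := K) (p := 2)] at h1
    simpa [LinearMap.sum_apply] using h1
  have hsumu : ∑ i ∈ Finset.range (2 ^ k), (Y ^ i) u₂ = 0 := by
    have h1 := hiso 1 (fun g _ a _ => rfl) u₂ hu₂
    rw [← sum_pow_eq (K := K) (p := 2)] at h1
    simpa [LinearMap.sum_apply] using h1
  have hw : ∑ i ∈ Finset.range (2 ^ k), ((i : ℕ) : K) • (Y ^ i) u₂ = Y ((((Y - 1) ^ (2 ^ k - 2) : End K V)) u₂) := by
    have h1 := congrArg (fun f : End K V => f u₂) (sum_cast_smul_pow (K := K) Y k hk)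
    simpa [LinearMap.sum_apply] using h1
  have h3 : g' (Y ((((Y - 1) ^ (2 ^ k - 2) : End K V)) u₂)) = 0 := by
    rw [← hw, map_sum]
    simp only [map_smul]
    have h4 : ∑ i ∈ Finset.range (2 ^ k), (Y ^ i) (f' u₂)
        = ∑ i ∈ Finset.range (2 ^ k), (f' ((Y ^ i) u₂) + ((i : ℕ) : K) • g' ((Y ^ i) u₂)) :=
      Finset.sum_congr rfl (fun i _ => hc i u₂ hu₂)
    rw [hsumf, Finset.sum_add_distrib, ← map_sum, hsumu, map_zero, zero_add] at h4
    exact h4.symm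
  have h5 : Y ((((Y - 1) ^ (2 ^ k - 2) : End K V)) u₂) ∈ U :=
    hyU _ (sub_pow_mem hyU _ hu₂)
  have h6 := hinj _ h5 h3
  apply hu₂0
  have h7 := hYiYv ((((Y - 1) ^ (2 ^ k - 2) : End K V)) u₂)
  rw [h6, map_zero] at h7
  exact h7.symm

/-- **Lemma IR.** Irreducibles in the exceptional case. -/
theorem irr_props [IsAlgClosed K] [Finite H] {q : ℕ} [Fact q.Prime] (hq : (q : K) ≠ 0) (hq2 : q ≠ 2)
    (hQ : IsPGroup q Q) (x : H) (hx : x ∈ Subgroup.normalizer (Q : Set H)) (n : ℕ)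
    (hxL : x ^ 2 ^ (n + 1) = 1) (hN : (ρ x - 1) ^ (2 ^ (n + 1) - 1) = 0)
    (hQt : ⁅Q, Subgroup.zpowers (x ^ 2 ^ n)⁆ = Q)
    {U₁ : Submodule K V} (hU₁ : IsIrr ρ Q U₁) (hnt : ∃ g ∈ Q, ∃ u ∈ U₁, ρ g u ≠ u) :
    ∃ n₀ a : ℕ, 2 ^ n₀ = q + 1 ∧ n + 1 = a + n₀ ∧ (∀ u ∈ U₁, ρ (x ^ 2 ^ a) u ∈ U₁) ∧
      (∀ u ∈ U₁, ((ρ (x ^ 2 ^ a) - 1) ^ q) u = 0) ∧ finrank K U₁ = q ∧
      ∃ u ∈ U₁, ((ρ (x ^ 2 ^ a) - 1) ^ (q - 1)) u ≠ 0 := by
  classical
  have hqp : q.Prime := Fact.out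
  have hLpos : 0 < 2 ^ (n + 1) := pow_pos (by norm_num) _
  rcases thmJ hq (Ne.symm hq2) ρ Q hQ x hx n hxL hN hQt hU₁ hnt _ hN with h | 
    ⟨n₀, m, a, U, h1, h2, h3, h4, h5, h6, hU, hyU, hU₁U, hfin, hη, hno⟩
  · omega
  have hn₀pos : 1 ≤ 2 ^ n₀ := Nat.one_le_pow _ _ (by norm_num)
  have hm : m = 1 := mersenne_exp_one hqp hq2 h3 (k := n₀) (by omega)
  subst hm
  rw [pow_one] at h4 hfin
  have hq2n : 2 ^ n₀ = q + 1 := by omega
  rw [h6] at hxL hN
  have hnorm := iso_norm x hx a n₀ hxL hN hU hyU hno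
  have hyn : x ^ 2 ^ a ∈ Subgroup.normalizer (Q : Set H) := Subgroup.pow_mem _ hx _
  have hyP : (x ^ 2 ^ a) ^ 2 ^ n₀ = 1 := by
    rw [← pow_mul, ← pow_add, hxL]
  have hcomm := hom_comm_y hU _ hyn n₀ h1 hyP hyU hη hnorm
  obtain ⟨F, h0, hF, hF2⟩ := hU₁U.symm hU₁ hU
  have hinj := hU.inj_of_hom hF hF2
  have hsurj := IsIrr.surj_of_hom hU.inv hU₁ h0 hF hF2
  have hcomm' := hcomm F hF
  set y := x ^ 2 ^ a with hy
  have hcj : ∀ (j : ℕ), ∀ w ∈ U, ((ρ y - 1) ^ j) (F w) = F (((ρ y - 1) ^ j) w) := by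
    intro j
    induction j with
    | zero =>
      intro w _
      simp
    | succ j ih =>
      intro w hw
      rw [pow_succ, Module.End.mul_apply]
      have e : (ρ y - 1) (F w) = F ((ρ y - 1) w) := by
        simp only [LinearMap.sub_apply, Module.End.one_apply, map_sub]
        rw [hcomm' w hw]
      rw [e]
      have h7 := ih ((ρ y - 1) w) (U.sub_mem (hyU w hw) hw)
      rw [Module.End.mul_apply]
      exact h7
  refine ⟨n₀, a, hq2n, h6, ?_, ?_, ?_, ?_⟩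
  · intro u hu
    rw [← hsurj] at hu
    obtain ⟨w, hw, rfl⟩ := hu
    rw [hcomm' w hw]
    exact h0 _ (hyU w hw)
  · intro u hu
    rw [← hsurj] at hu
    obtain ⟨w, hw, rfl⟩ := hu
    rw [hcj q w hw]
    have h7 := hnorm 1 (fun g _ a _ => rfl) w hw
    rw [show 2 ^ n₀ - 1 = q by omega] at h7
    have h8 : ((ρ y - 1) ^ q) w = 0 := h7
    rw [h8, map_zero]
  · have hinj' : Function.Injective (F ∘ₗ U.subtype) := by
      rw [← LinearMap.ker_eq_bot, LinearMap.ker_eq_bot']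
      intro w hw
      exact Subtype.ext (hinj w.1 w.2 hw)
    have h7 := LinearMap.finrank_range_of_inj hinj'
    have h8 : LinearMap.range (F ∘ₗ U.subtype) = U₁ := by
      rw [LinearMap.range_comp, Submodule.range_subtype, hsurj]
    rw [h8] at h7
    rw [h7, hfin]
  · obtain ⟨w, hw, hw0⟩ := hη
    refine ⟨F w, h0 w hw, ?_⟩
    rw [hcj _ w hw, show q - 1 = 2 ^ n₀ - 2 by omega]
    intro h9
    exact hw0 (hinj _ (sub_pow_mem hyU _ hw) h9)

end Char2

end Cfsg.Agent.Lib.Gross.IR
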