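/-
Subgroups `Q₁`, `Q₂` with `Q = [Q, t]` for two different (Mersenne) primes: the block structure of `y`
on the commutators of the module does not match, and `[Q₁, Q₂]`-type commutators vanish.
-/
import Cfsg.Agent.Lib.Gross.IR

set_option autoImplicit false

namespace Cfsg.Agent.Lib.Gross.Mismatch

open Module Cfsg.Agent.Lib.HallHigman.Irr Cfsg.Agent.Lib.HallHigman.Core Cfsg.Agent.Lib.Gross.Avg
  Cfsg.Agent.Lib.Gross.Isotypic Cfsg.Agent.Lib.Gross.IR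

universe u v w

variable {K : Type u} [Field K] {V : Type v} [AddCommGroup V] [Module K V] {H : Type w} [Group H]
  {ρ : H →* End K V} {Q : Subgroup H}

/-- The kernel of the average is free over `K[y]/(y - 1)^q`, when all the irreducible constituents are. -/
theorem good_ker [FiniteDimensional K V] [Finite Q] (hc : (Nat.card Q : K) ≠ 0) (y : H) (q : ℕ) (hq : 1 ≤ q)
    (hirr : ∀ A, IsIrr ρ Q A → (∃ g ∈ Q, ∃ u ∈ A, ρ g u ≠ u) → (∀ u ∈ A, ρ y u ∈ A) ∧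
      (∀ u ∈ A, ((ρ y - 1) ^ q) u = 0) ∧ finrank K A = q ∧ ∃ u ∈ A, ((ρ y - 1) ^ (q - 1)) u ≠ 0) :
    ∀ v ∈ LinearMap.ker (avg ρ Q), ((ρ y - 1) ^ q) v = 0 ∧
      (ρ y v = v → ∃ w ∈ LinearMap.ker (avg ρ Q), v = ((ρ y - 1) ^ (q - 1)) w) := by
  classical
  set C := LinearMap.ker (avg ρ Q) with hC
  let P : Submodule K V → Prop := fun S => IsInv ρ Q S ∧ S ≤ C ∧ (∀ u ∈ S, ρ y u ∈ S) ∧
    (∀ u ∈ S, ((ρ y - 1) ^ q) u = 0) ∧ (∀ u ∈ S, ρ y u = u → ∃ w ∈ S, u = ((ρ y - 1) ^ (q - 1)) w)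
  have hbot : P ⊥ := by
    refine ⟨?_, bot_le, ?_, ?_, ?_⟩
    · intro g _ w hw
      rw [(Submodule.mem_bot K).mp hw, map_zero]
      exact zero_mem _
    · intro u hu
      rw [(Submodule.mem_bot K).mp hu, map_zero]
      exact zero_mem _
    · intro u hu
      rw [(Submodule.mem_bot K).mp hu, map_zero]
    · intro u hu _
      exact ⟨0, zero_mem _, by rw [(Submodule.mem_bot K).mp hu, map_zero]⟩
  obtain ⟨S, hS⟩ := exists_maximal_of_wellFoundedGT P ⟨⊥, hbot⟩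
  obtain ⟨h1, h2, h3, h4, h5⟩ := hS.1
  have hSC : S = C := by
    by_contra hne
    have hlt : S < C := lt_of_le_of_ne h2 hne
    obtain ⟨A, hAC, hAi, hdisj⟩ := exists_irr_inf_bot hc h1 isInv_ker_avg_self hlt
    obtain ⟨a1, a2, a3, a4⟩ := hirr A hAi (exists_nontrivial_of_le_ker hc hAi hAC)
    have hP' : P (S ⊔ A) := by
      refine ⟨?_, sup_le h2 hAC, ?_, ?_, ?_⟩
      · intro g hg w hw
        obtain ⟨s, hs, a, ha, rfl⟩ := Submodule.mem_sup.mp hw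
        rw [map_add]
        exact Submodule.add_mem_sup (h1 g hg s hs) (hAi.inv g hg a ha)
      · intro w hw
        obtain ⟨s, hs, a, ha, rfl⟩ := Submodule.mem_sup.mp hw
        rw [map_add]
        exact Submodule.add_mem_sup (h3 s hs) (a1 a ha)
      · intro w hw
        obtain ⟨s, hs, a, ha, rfl⟩ := Submodule.mem_sup.mp hw
        rw [map_add, h4 s hs, a2 a ha, add_zero]
      · intro w hw hf
        obtain ⟨s, hs, a, ha, rfl⟩ := Submodule.mem_sup.mp hw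
        rw [map_add] at hf
        have hd : ρ y s - s ∈ S ⊓ A := by
          refine ⟨S.sub_mem (h3 s hs) hs, ?_⟩
          have e : ρ y s - s = a - ρ y a := by
            have h6 : ρ y s + ρ y a - (s + ρ y a) = s + a - (s + ρ y a) := by rw [hf]
            simpa using h6
          rw [e]
          exact A.sub_mem ha (a1 a ha)
        rw [inf_comm, hdisj, Submodule.mem_bot] at hd
        have hs1 : ρ y s = s := sub_eq_zero.mp hd
        have ha1 : ρ y a = a := by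
          rw [hs1] at hf
          exact add_left_cancel hf
        obtain ⟨w₁, hw₁, e₁⟩ := h5 s hs hs1
        obtain ⟨e, he, hne⟩ := a4
        obtain ⟨w₂, hw₂, e₂⟩ := single_block (N := ρ y - 1) hq a3
          (fun u hu => by
            simp only [LinearMap.sub_apply, Module.End.one_apply]
            exact A.sub_mem (a1 u hu) hu) a2 he hne ha
          (by
            simp only [LinearMap.sub_apply, Module.End.one_apply]
            rw [ha1, sub_self])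
        refine ⟨w₁ + w₂, Submodule.add_mem_sup hw₁ hw₂, ?_⟩
        rw [map_add, ← e₁, ← e₂]
    have hle : S ⊔ A ≤ S := hS.2 hP' le_sup_left
    have hAS : A ≤ S := le_sup_right.trans hle
    rw [inf_eq_left.mpr hAS] at hdisj
    exact hAi.ne_bot hdisj
  intro v hv
  rw [← hSC] at hv
  refine ⟨h4 v hv, fun hf => ?_⟩
  obtain ⟨w, hw, e⟩ := h5 v hv hf
  exact ⟨w, hSC ▸ hw, e⟩

variable [CharP K 2]

/-- The mismatch. -/
theorem mismatch_core (x : H) (n a₁ k₁ a₂ k₂ q₁ q₂ : ℕ) (hxL : x ^ 2 ^ (n + 1) = 1) (h1 : n + 1 = a₁ + k₁)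
    (h2 : n + 1 = a₂ + k₂) (hq1 : 2 ^ k₁ = q₁ + 1) (hq2 : 2 ^ k₂ = q₂ + 1) (hq₁ : 1 ≤ q₁) (hlt : a₁ < a₂)
    (E : End K V) (hE : E * E = E) (hEx : E * ρ x = ρ x * E) (C₁ C₂ : Submodule K V)
    (hE1 : ∀ v, E v ∈ C₁) (hE2 : ∀ v, E v ∈ C₂)
    (hfree : ∀ v ∈ C₁, ρ (x ^ 2 ^ a₁) v = v → ∃ w ∈ C₁, v = ((ρ (x ^ 2 ^ a₁) - 1) ^ (q₁ - 1)) w)
    (hbound : ∀ v ∈ C₂, ((ρ (x ^ 2 ^ a₂) - 1) ^ q₂) v = 0) : E = 0 := by
  classical
  by_contra hE0
  obtain ⟨u, hu⟩ : ∃ u, E u ≠ 0 := by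
    by_contra hcon
    push Not at hcon
    exact hE0 (LinearMap.ext hcon)
  have hform : ∀ a, ρ (x ^ 2 ^ a) - 1 = (ρ x - 1) ^ 2 ^ a := by
    intro a
    rw [sub_one_pow (K := K) (p := 2), map_pow]
  set η := ρ (x ^ 2 ^ a₁) - 1 with hη
  have hEη : E * η = η * E := by
    have hc : Commute E (ρ x - 1) := by
      refine Commute.sub_right ?_ (Commute.one_right _)
      exact hEx
    rw [hη, hform]
    exact (hc.pow_right _).eq
  have hEηj : ∀ j v, E ((η ^ j) v) = (η ^ j) (E v) := by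
    intro j v
    have hc : Commute E (η ^ j) := Commute.pow_right hEη j
    have := LinearMap.congr_fun hc.eq v
    simpa using this
  have hηP : η ^ 2 ^ k₁ = 0 := by
    rw [hη, sub_one_pow (K := K) (p := 2), ← map_pow, ← pow_mul, ← pow_add, ← h1, hxL, map_one, sub_self]
  have hex : ∃ j, (η ^ j) (E u) = 0 := ⟨2 ^ k₁, by rw [hηP]; rfl⟩
  have hj0 := Nat.find_spec hex
  have hmin : ∀ j, j < Nat.find hex → (η ^ j) (E u) ≠ 0 := fun j hj => Nat.find_min hex hj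
  obtain ⟨j, hj⟩ : ∃ j, Nat.find hex = j + 1 := by
    refine ⟨Nat.find hex - 1, ?_⟩
    have : Nat.find hex ≠ 0 := by
      intro h
      rw [h, pow_zero] at hj0
      exact hu hj0
    omega
  rw [hj] at hj0
  have hne := hmin j (by omega)
  set v := (η ^ j) (E u) with hv
  have hEv : E v = v := by
    have h3 : E (E u) = E u := by
      rw [← Module.End.mul_apply, hE]
    rw [hv, hEηj, h3]
  have hηv : η v = 0 := by
    rw [hv, ← Module.End.mul_apply, ← pow_succ']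
    exact hj0
  have hfix : ρ (x ^ 2 ^ a₁) v = v := by
    have := hηv
    rw [hη] at this
    simpa [sub_eq_zero] using this
  have hvC : v ∈ C₁ := by
    rw [← hEv]
    exact hE1 v
  obtain ⟨w, hw, e⟩ := hfree v hvC hfix
  have hkey : ∀ c ∈ C₂, (η ^ (q₁ - 1)) c = 0 := by
    intro c hc
    have h3 := hbound c hc
    rw [hform] at h3
    rw [hη, hform, ← pow_mul]
    rw [← pow_mul] at h3
    have hA1 : 2 ^ a₁ * 2 ≤ 2 ^ a₂ := by
      rw [← pow_succ]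
      exact Nat.pow_le_pow_right (by norm_num) hlt
    have h4 : 2 ^ a₁ * (q₁ + 1) = 2 ^ (n + 1) := by
      rw [← hq1, ← pow_add, ← h1]
    have h5 : 2 ^ a₂ * (q₂ + 1) = 2 ^ (n + 1) := by
      rw [← hq2, ← pow_add, ← h2]
    obtain ⟨q', rfl⟩ : ∃ q', q₁ = q' + 1 := ⟨q₁ - 1, by omega⟩
    simp only [Nat.add_sub_cancel]
    have h6 : 2 ^ a₂ * q₂ ≤ 2 ^ a₁ * q' := by
      rw [Nat.mul_add] at h4 h5
      rw [Nat.mul_add] at h4
      omega
    rw [show 2 ^ a₁ * q' = (2 ^ a₁ * q' - 2 ^ a₂ * q₂) + 2 ^ a₂ * q₂ by omega, pow_add, Module.End.mul_apply,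
      h3, map_zero]
  apply hne
  rw [← hEv, e, hEηj]
  exact hkey _ (hE2 w)

section Main

variable [IsAlgClosed K] [FiniteDimensional K V] [Finite H]

/-- The structure of the kernel of the average. -/
theorem exists_structure {q : ℕ} [Fact q.Prime] (hq : (q : K) ≠ 0) (hq2 : q ≠ 2)
    (hQ : IsPGroup q Q) (x : H) (hx : x ∈ Subgroup.normalizer (Q : Set H)) (n : ℕ)
    (hxL : x ^ 2 ^ (n + 1) = 1) (hN : (ρ x - 1) ^ (2 ^ (n + 1) - 1) = 0)
    (hQt : ⁅Q, Subgroup.zpowers (x ^ 2 ^ n)⁆ = Q) (hne : ∃ g ∈ Q, ρ g ≠ 1) :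
    ∃ k a : ℕ, 2 ^ k = q + 1 ∧ n + 1 = a + k ∧ ∀ v ∈ LinearMap.ker (avg ρ Q),
      ((ρ (x ^ 2 ^ a) - 1) ^ q) v = 0 ∧
      (ρ (x ^ 2 ^ a) v = v → ∃ w ∈ LinearMap.ker (avg ρ Q), v = ((ρ (x ^ 2 ^ a) - 1) ^ (q - 1)) w) := by
  classical
  have hqp : q.Prime := Fact.out
  obtain ⟨g₀, hg₀, hg₀1⟩ := hne
  obtain ⟨U₁, hU₁, hnt⟩ := Cfsg.Agent.Lib.HallHigman.Reduction.exists_irr_nontrivial hq ρ Q hQ hg₀ hg₀1
  obtain ⟨k, a, hk, ha, -⟩ := irr_props hq hq2 hQ x hx n hxL hN hQt hU₁ hnt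
  refine ⟨k, a, hk, ha, ?_⟩
  have hc : (Nat.card Q : K) ≠ 0 := by
    obtain ⟨e, he⟩ := IsPGroup.iff_card.mp hQ
    rw [he]
    push_cast
    exact pow_ne_zero _ hq
  refine good_ker hc _ q hqp.one_lt.le (fun A hA hAnt => ?_)
  obtain ⟨k', a', hk', ha', h1, h2, h3, h4⟩ := irr_props hq hq2 hQ x hx n hxL hN hQt hA hAnt
  have e1 : k' = k := Nat.pow_right_injective (le_refl 2) (hk'.trans hk.symm)
  have e2 : a' = a := by omega
  subst e1 e2
  exact ⟨h1, h2, h3, h4⟩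

/-- **Mismatch lemma.** -/
theorem mismatch {q₁ q₂ : ℕ} [Fact q₁.Prime] [Fact q₂.Prime] (hq₁ : (q₁ : K) ≠ 0) (hq₂ : (q₂ : K) ≠ 0)
    (h1 : q₁ ≠ 2) (h2 : q₂ ≠ 2) (hne : q₁ ≠ q₂) (Q₁ Q₂ Z : Subgroup H)
    (hQ₁ : IsPGroup q₁ Q₁) (hQ₂ : IsPGroup q₂ Q₂) (x : H) (hx₁ : x ∈ Subgroup.normalizer (Q₁ : Set H))
    (hx₂ : x ∈ Subgroup.normalizer (Q₂ : Set H)) (n : ℕ)
    (hxL : x ^ 2 ^ (n + 1) = 1) (hN : (ρ x - 1) ^ (2 ^ (n + 1) - 1) = 0)
    (hQ₁t : ⁅Q₁, Subgroup.zpowers (x ^ 2 ^ n)⁆ = Q₁) (hQ₂t : ⁅Q₂, Subgroup.zpowers (x ^ 2 ^ n)⁆ = Q₂)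
    (hZQ : Z ≤ Q₁) (hxZ : x ∈ Subgroup.normalizer (Z : Set H))
    (hZD : Z ≤ Subgroup.normalizer (Q₂ : Set H)) :
    ∀ z ∈ Z, ∀ d ∈ Q₂, ρ z * ρ d = ρ d * ρ z := by
  classical
  have hp₁ : q₁.Prime := Fact.out
  have hp₂ : q₂.Prime := Fact.out
  intro z hz d hd
  by_cases hA : ∃ g ∈ Q₁, ρ g ≠ 1
  swap
  · push Not at hA
    rw [hA z (hZQ hz)]
    simp
  by_cases hB : ∃ g ∈ Q₂, ρ g ≠ 1
  swap
  · push Not at hB
    rw [hB d hd]
    simp
  obtain ⟨k₁, a₁, hk₁, ha₁, hC₁⟩ := exists_structure hq₁ h1 hQ₁ x hx₁ n hxL hN hQ₁t hA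
  obtain ⟨k₂, a₂, hk₂, ha₂, hC₂⟩ := exists_structure hq₂ h2 hQ₂ x hx₂ n hxL hN hQ₂t hB
  have hZc : (Nat.card Z : K) ≠ 0 := by
    obtain ⟨e, he⟩ := IsPGroup.iff_card.mp (hQ₁.to_le hZQ)
    rw [he]
    push_cast
    exact pow_ne_zero _ hq₁
  have hQ₂c : (Nat.card Q₂ : K) ≠ 0 := by
    obtain ⟨e, he⟩ := IsPGroup.iff_card.mp hQ₂
    rw [he]
    push_cast
    exact pow_ne_zero _ hq₂
  set e₂ := avg ρ Q₂ with he₂
  set eZ := avg ρ Z with heZ
  have hcomm : eZ * e₂ = e₂ * eZ := avg_comm_avg hZD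
  have hid₂ : e₂ * e₂ = e₂ := avg_idem hQ₂c
  have hidZ : eZ * eZ = eZ := avg_idem hZc
  have hc' : Commute (1 - e₂) (1 - eZ) := by
    refine Commute.sub_left (Commute.one_left _) (Commute.sub_right (Commute.one_right _) ?_)
    exact hcomm.symm
  let E : End K V := (1 - e₂) * (1 - eZ)
  have hi₂ : (1 - e₂) * (1 - e₂) = 1 - e₂ := by
    noncomm_ring
    rw [hid₂]
    abel
  have hiZ : (1 - eZ) * (1 - eZ) = 1 - eZ := by
    noncomm_ring
    rw [hidZ]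
    abel
  have hE : E * E = E := by
    simp only [E]
    calc (1 - e₂) * (1 - eZ) * ((1 - e₂) * (1 - eZ)) = (1 - e₂) * ((1 - eZ) * (1 - e₂)) * (1 - eZ) := by
          noncomm_ring
      _ = (1 - e₂) * ((1 - e₂) * (1 - eZ)) * (1 - eZ) := by rw [hc'.eq]
      _ = ((1 - e₂) * (1 - e₂)) * ((1 - eZ) * (1 - eZ)) := by noncomm_ring
      _ = _ := by rw [hi₂, hiZ]
  have hEx : E * ρ x = ρ x * E := by
    have h3 : Commute (ρ x) e₂ := avg_comm hx₂
    have h4 : Commute (ρ x) eZ := avg_comm hxZ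
    have h5 : Commute (ρ x) E := by
      apply Commute.mul_right
      · exact (Commute.one_right _).sub_right h3
      · exact (Commute.one_right _).sub_right h4
    exact h5.eq.symm
  have hE1 : ∀ v, E v ∈ LinearMap.ker (avg ρ Q₁) := by
    intro v
    rw [LinearMap.mem_ker]
    have e3 : E = (1 - eZ) * (1 - e₂) := hc'.eq
    rw [e3, Module.End.mul_apply, ← Module.End.mul_apply, mul_sub, mul_one,
      avg_mul_avg_of_le hZc hZQ, sub_self]
    rfl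
  have hE2 : ∀ v, E v ∈ LinearMap.ker (avg ρ Q₂) := by
    intro v
    rw [LinearMap.mem_ker]
    change e₂ ((1 - e₂) ((1 - eZ) v)) = 0
    rw [← Module.End.mul_apply, mul_sub, mul_one, hid₂, sub_self]
    rfl
  have hak : k₁ ≠ k₂ := by
    intro h
    subst h
    exact hne (by omega)
  have hE0 : E = 0 := by
    have hq₁1 := hp₁.one_lt
    have hq₂1 := hp₂.one_lt
    rcases lt_or_gt_of_ne (show a₁ ≠ a₂ by omega) with hlt | hlt
    · exact mismatch_core x n a₁ k₁ a₂ k₂ q₁ q₂ hxL ha₁ ha₂ hk₁ hk₂ hq₁1.le hlt E hE hEx _ _ hE1 hE2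
        (fun v hv => (hC₁ v hv).2) (fun v hv => (hC₂ v hv).1)
    · exact mismatch_core x n a₂ k₂ a₁ k₁ q₂ q₁ hxL ha₂ ha₁ hk₂ hk₁ hq₂1.le hlt E hE hEx _ _ hE2 hE1
        (fun v hv => (hC₂ v hv).2) (fun v hv => (hC₁ v hv).1)
  have hz1 : ∀ w ∈ LinearMap.ker e₂, ρ z w = w := by
    intro w hw
    have hw' : e₂ w = 0 := hw
    have h3 : ((1 - eZ) * (1 - e₂)) w = 0 := by
      have e3 : E = (1 - eZ) * (1 - e₂) := hc'.eq
      rw [← e3, hE0]
      rfl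
    simp only [Module.End.mul_apply, LinearMap.sub_apply, Module.End.one_apply, hw', sub_zero] at h3
    have h4 : w = eZ w := sub_eq_zero.mp h3
    rw [h4]
    exact avg_fixed hz w
  ext v
  simp only [Module.End.mul_apply]
  have hv : v = e₂ v + (v - e₂ v) := by abel
  have hv₁ : v - e₂ v ∈ LinearMap.ker e₂ := by
    change e₂ (v - e₂ v) = 0
    rw [map_sub, ← Module.End.mul_apply, hid₂, sub_self]
  rw [hv, map_add, map_add, map_add, map_add]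
  congr 1
  · -- fixed part
    rw [avg_fixed hd v, avg_apply_comm (hZD hz) v, avg_fixed hd]
  · have h5 : ρ d (v - e₂ v) ∈ LinearMap.ker e₂ := isInv_ker_avg_self d hd _ hv₁
    rw [hz1 _ h5, hz1 _ hv₁]

end Main

end Cfsg.Agent.Lib.Gross.Mismatch
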