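/-
A group-theoretic lemma: the final step of the analysis of the prime `3`.
-/
import Cfsg.Agent.Lib.Gross.ClassTwo

set_option autoImplicit false

namespace Cfsg.Agent.Lib.Gross.QZero

open Cfsg.Agent.Lib.Gross.ClassTwo
open scoped commutatorElement

universe u

variable {G : Type u} [Group G]

theorem mem_commutator_map (φ : G ≃* G) {c : G} (hc : c ∈ commutator G) : φ c ∈ commutator G := by
  have h1 : (commutator G).comap φ.toMonoidHom = commutator G :=
    (inferInstance : (commutator G).Characteristic).fixed φ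
  have h2 : c ∈ (commutator G).comap φ.toMonoidHom := by
    rw [h1]
    exact hc
  exact h2

/-- Commuting generators generate a commutative subgroup. -/
theorem comm_of_closure {S : Set G} (hS : ∀ x ∈ S, ∀ y ∈ S, x * y = y * x) :
    ∀ g ∈ Subgroup.closure S, ∀ h ∈ Subgroup.closure S, g * h = h * g := by
  have h1 : Subgroup.closure S ≤ Subgroup.centralizer S := by
    rw [Subgroup.closure_le]
    intro x hx
    rw [SetLike.mem_coe, Subgroup.mem_centralizer_iff]
    intro y hy
    exact hS y hy x hx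
  have h2 : Subgroup.closure S ≤ Subgroup.centralizer (Subgroup.closure S : Set G) := by
    rw [Subgroup.closure_le]
    intro x hx
    rw [SetLike.mem_coe, Subgroup.mem_centralizer_iff]
    intro y hy
    exact (Subgroup.mem_centralizer_iff.mp (h1 hy) x hx).symm
  intro g hg h hh
  exact (Subgroup.mem_centralizer_iff.mp (h2 hh) g hg)

section calculus

variable (hcl : ∀ a b : G, a * b * a⁻¹ * b⁻¹ ∈ Subgroup.center G)
include hcl

theorem comm_pow_right (a b : G) (m : ℕ) :
    a * b ^ m * a⁻¹ * (b ^ m)⁻¹ = (a * b * a⁻¹ * b⁻¹) ^ m := by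
  induction m with
  | zero => simp
  | succ m ih =>
    rw [pow_succ, comm_mul (mem_z2.mpr (hcl a)), ih, pow_succ]

theorem comm_pow_left (a b : G) (m : ℕ) :
    a ^ m * b * (a ^ m)⁻¹ * b⁻¹ = (a * b * a⁻¹ * b⁻¹) ^ m := by
  induction m with
  | zero => simp
  | succ m ih =>
    rw [pow_succ, comm_mul_left _ _ (mem_z2.mpr (hcl a)), ih, pow_succ]

end calculus

variable [Finite G]

/-- The final step of the analysis for the prime `3`. -/
theorem q_zero (hG : IsPGroup 2 G) (ζ τ : G ≃* G) (hζ3 : ∀ a, ζ (ζ (ζ a)) = a) (hτ2 : ∀ a, τ (τ a) = a)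
    (hζτ : ∀ a, ζ (τ a) = τ (ζ a)) (hcl : ∀ a b : G, a * b * a⁻¹ * b⁻¹ ∈ Subgroup.center G)
    (hgen : Subgroup.closure {g | ∃ a, g = a⁻¹ * ζ a} = ⊤)
    (hQ1 : ∀ B : Subgroup G, (∀ g ∈ B, ζ g ∈ B) → (∀ g ∈ B, ∀ h ∈ B, g * h = h * g) → ∀ g ∈ B, ζ g = g)
    (hQ5 : ∀ c ∈ commutator G, τ c = c) (hnt : ∃ k, k⁻¹ * τ k ∉ commutator G) : False := by
  classical
  have hC : commutator G ≤ Subgroup.center G := by
    rw [commutator_def, Subgroup.commutator_le]
    intro a _ b _
    exact hcl a b
  have hcent : ∀ c ∈ commutator G, ∀ g, c * g = g * c := fun c hc g =>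
    (Subgroup.mem_center_iff.mp (hC hc) g).symm
  have hcm : ∀ a b : G, a * b * a⁻¹ * b⁻¹ ∈ commutator G := fun a b =>
    Subgroup.commutator_mem_commutator (Subgroup.mem_top a) (Subgroup.mem_top b)
  have hζc : ∀ c ∈ commutator G, ζ c = c :=
    hQ1 _ (fun g hg => mem_commutator_map ζ hg) (fun g hg h _ => hcent g hg h)
  let of : G →* Abelianization G := Abelianization.of
  have hof : ∀ g, of g = 1 ↔ g ∈ commutator G := by
    intro g
    rw [← Abelianization.ker_of]
    rfl
  let Nm : G →* Abelianization G := of * (of.comp ζ.toMonoidHom) * (of.comp (ζ.toMonoidHom.comp ζ.toMonoidHom))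
  have hNm : ∀ g, Nm g = of g * of (ζ g) * of (ζ (ζ g)) := fun g => rfl
  have hNmζ : ∀ g, Nm (ζ g) = Nm g := by
    intro g
    rw [hNm, hNm, hζ3, mul_comm, ← mul_assoc]
  have hNm1 : ∀ g, Nm g = 1 := by
    have h1 : Subgroup.closure {g | ∃ a, g = a⁻¹ * ζ a} ≤ Nm.ker := by
      rw [Subgroup.closure_le]
      rintro _ ⟨a, rfl⟩
      change Nm (a⁻¹ * ζ a) = 1
      rw [map_mul, map_inv, hNmζ, inv_mul_cancel]
    rw [hgen] at h1
    intro g
    exact h1 (Subgroup.mem_top g)
  -- no fixed points modulo the derived subgroup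
  have hthree : ∀ w, ζ w * w⁻¹ ∈ commutator G → w ∈ commutator G := by
    intro w hw
    have h1 : of (ζ w) = of w := by
      have h2 := (hof _).mpr hw
      rw [map_mul, map_inv, mul_inv_eq_one] at h2
      exact h2
    have h3 : of (ζ (ζ w)) = of w := by
      have h2 := (hof _).mpr (mem_commutator_map ζ hw)
      rw [map_mul, map_mul, map_inv, map_inv, mul_inv_eq_one, h1] at h2
      exact h2
    have h4 := hNm1 w
    rw [hNm, h1, h3] at h4
    obtain ⟨k, hk⟩ := hG w
    have h5 : of w ^ 2 ^ k = 1 := by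
      rw [← map_pow, hk, map_one]
    have h6 : of w ^ 3 = 1 := by
      rw [pow_succ, pow_two]
      exact h4
    have h7 := pow_gcd_eq_one.mpr ⟨h5, h6⟩
    have h8 : Nat.gcd (2 ^ k) 3 = 1 := Nat.Coprime.pow_left k (by norm_num)
    rw [h8, pow_one] at h7
    exact (hof w).mp h7
  -- the exponent of the derived subgroup
  let P : ℕ → Prop := fun e => ∀ a b : G, (a * b * a⁻¹ * b⁻¹) ^ 2 ^ e = 1
  have hPmono : ∀ e d, P e → P (e + d) := by
    intro e d h a b
    rw [pow_add, pow_mul, h a b, one_pow]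
  have hPstep : ∀ j, P (2 * j) → P j := by
    intro j hP
    let S : Set G := {g | ∃ u : G, g = u ^ 2 ^ j}
    have hcS : ∀ x ∈ S, ∀ y ∈ S, x * y = y * x := by
      rintro _ ⟨u, rfl⟩ _ ⟨v, rfl⟩
      have h1 := comm_pow_left hcl u (v ^ 2 ^ j) (2 ^ j)
      rw [comm_pow_right hcl u v (2 ^ j), ← pow_mul, ← pow_add, ← two_mul, hP u v] at h1
      have h2 := mul_inv_eq_one.mp h1
      exact mul_inv_eq_iff_eq_mul.mp h2
    have hinv : ∀ g ∈ Subgroup.closure S, ζ g ∈ Subgroup.closure S := by
      have h1 : Subgroup.closure S ≤ (Subgroup.closure S).comap ζ.toMonoidHom := by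
        rw [Subgroup.closure_le]
        rintro _ ⟨u, rfl⟩
        change ζ (u ^ 2 ^ j) ∈ Subgroup.closure S
        rw [map_pow]
        exact Subgroup.subset_closure ⟨ζ u, rfl⟩
      exact fun g hg => h1 hg
    have hfix : ∀ u : G, ζ (u ^ 2 ^ j) = u ^ 2 ^ j := fun u =>
      hQ1 _ hinv (comm_of_closure hcS) _ (Subgroup.subset_closure ⟨u, rfl⟩)
    let L : G →* Abelianization G := (powMonoidHom (2 ^ j)).comp of
    have hL : ∀ g, L g = of (g ^ 2 ^ j) := fun g => by
      change of g ^ 2 ^ j = _
      rw [map_pow]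
    have hL1 : ∀ g, L g = 1 := by
      have h1 : Subgroup.closure {g | ∃ a, g = a⁻¹ * ζ a} ≤ L.ker := by
        rw [Subgroup.closure_le]
        rintro _ ⟨a, rfl⟩
        change L (a⁻¹ * ζ a) = 1
        rw [map_mul, map_inv, hL, hL, ← map_pow ζ, hfix, inv_mul_cancel]
      rw [hgen] at h1
      intro g
      exact h1 (Subgroup.mem_top g)
    intro a b
    have h1 : a ^ 2 ^ j ∈ commutator G := (hof _).mp (by rw [← hL, hL1])
    rw [← comm_pow_left hcl, hcent _ h1 b, mul_inv_cancel_right, mul_inv_cancel]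
  have hPex : ∃ e, P e := by
    obtain ⟨e, he⟩ := IsPGroup.iff_card.mp hG
    refine ⟨e, fun a b => ?_⟩
    rw [← he]
    exact pow_card_eq_one'
  have hP1 : P 1 := by
    obtain ⟨e, he⟩ := hPex
    induction e using Nat.strong_induction_on with
    | _ e ih =>
      by_cases h1 : e ≤ 1
      · have := hPmono e (1 - e) he
        rwa [Nat.add_sub_cancel' h1] at this
      · have h2 : P (2 * ((e + 1) / 2)) := by
          have := hPmono e (2 * ((e + 1) / 2) - e) he
          rwa [Nat.add_sub_cancel' (by omega)] at this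
        exact ih _ (by omega) (hPstep _ h2)
  -- the derived subgroup is elementary
  let F₂ : Subgroup G :=
    { carrier := {c | c ∈ Subgroup.center G ∧ c ^ 2 = 1}
      mul_mem' := by
        rintro a b ⟨ha, ha2⟩ ⟨hb, hb2⟩
        refine ⟨mul_mem ha hb, ?_⟩
        have h1 : a * b = b * a := (Subgroup.mem_center_iff.mp ha b).symm
        rw [(show Commute a b from h1).mul_pow, ha2, hb2, one_mul]
      one_mem' := ⟨one_mem _, one_pow 2⟩
      inv_mem' := by
        rintro a ⟨ha, ha2⟩
        exact ⟨inv_mem ha, by rw [inv_pow, ha2, inv_one]⟩ }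
  have hsq : ∀ c ∈ commutator G, c ^ 2 = 1 := by
    have h1 : commutator G ≤ F₂ := by
      rw [commutator_def, Subgroup.commutator_le]
      intro a _ b _
      refine ⟨hcl a b, ?_⟩
      have h2 := hP1 a b
      rw [pow_one] at h2
      exact h2
    exact fun c hc => (h1 hc).2
  -- the final computation
  obtain ⟨k, hk⟩ := hnt
  set a := k⁻¹ * τ k with ha
  have hτa : τ a = a⁻¹ := by
    rw [ha, map_mul, map_inv, hτ2]
    group
  set b := ζ a with hb
  set c := ζ b with hc
  have hζc' : ζ c = a := hζ3 a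
  have hτb : τ b = b⁻¹ := by
    rw [hb, ← hζτ, hτa, map_inv]
  have hτc : τ c = c⁻¹ := by
    rw [hc, ← hζτ, hτb, map_inv]
  have hu : a * b * c ∈ commutator G := by
    have h1 := hNm1 a
    rw [hNm] at h1
    apply (hof _).mp
    rw [map_mul, map_mul]
    exact h1
  have h5 := hQ5 _ hu
  rw [map_mul, map_mul, hτa, hτb, hτc] at h5
  set f := a * b * a⁻¹ * b⁻¹ with hf
  have hfc : f ∈ commutator G := hcm a b
  have hf2 : b * c * b⁻¹ * c⁻¹ = f := by
    have h1 := hζc _ hfc
    rw [hf] at h1
    simp only [map_mul, map_inv] at h1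
    exact h1
  have hf3 : c * a * c⁻¹ * a⁻¹ = f := by
    have h1 := hζc _ (hcm b c)
    rw [map_mul, map_mul, map_mul, map_inv, map_inv, ← hc, hζc', hf2] at h1
    exact h1
  have hfcent : ∀ g, f * g = g * f := hcent f hfc
  have hfcent' : ∀ g, f⁻¹ * g = g * f⁻¹ := hcent _ (inv_mem hfc)
  have e1 : a * b = f * (b * a) := by
    rw [hf]
    group
  have e2 : b * c = f * (c * b) := by
    rw [← hf2]
    group
  have e3 : a * c = f⁻¹ * (c * a) := by
    rw [← hf3]
    group
  have e4 : a * b * c = f * (c * b * a) := by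
    calc a * b * c = f * (b * a) * c := by rw [e1]
      _ = f * (b * (a * c)) := by group
      _ = f * (b * (f⁻¹ * (c * a))) := by rw [e3]
      _ = f * ((b * f⁻¹) * (c * a)) := by group
      _ = f * ((f⁻¹ * b) * (c * a)) := by rw [hfcent' b]
      _ = b * (c * a) := by group
      _ = (b * c) * a := by group
      _ = f * (c * b) * a := by rw [e2]
      _ = f * (c * b * a) := by group
  have e5 : (a * b * c) * (a * b * c) = f := by
    have h6 : c * b * a = f⁻¹ * (a * b * c) := by
      rw [e4]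
      group
    have h7 : a⁻¹ * b⁻¹ * c⁻¹ = (c * b * a)⁻¹ := by group
    rw [h7, h6] at h5
    nth_rewrite 2 [← h5]
    group
  have hf1 : f = 1 := by
    rw [← e5, ← pow_two]
    exact hsq _ hu
  rw [hf1, one_mul] at e1 e2
  rw [hf1, inv_one, one_mul] at e3
  let S : Set G := {a, b, c}
  have hcS : ∀ x ∈ S, ∀ y ∈ S, x * y = y * x := by
    intro x hx y hy
    simp only [S, Set.mem_insert_iff, Set.mem_singleton_iff] at hx hy
    rcases hx with rfl | rfl | rfl <;> rcases hy with rfl | rfl | rfl
    · rfl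
    · exact e1
    · exact e3
    · exact e1.symm
    · rfl
    · exact e2
    · exact e3.symm
    · exact e2.symm
    · rfl
  have hinv : ∀ g ∈ Subgroup.closure S, ζ g ∈ Subgroup.closure S := by
    have h1 : Subgroup.closure S ≤ (Subgroup.closure S).comap ζ.toMonoidHom := by
      rw [Subgroup.closure_le]
      intro x hx
      simp only [S, Set.mem_insert_iff, Set.mem_singleton_iff] at hx
      change ζ x ∈ Subgroup.closure S
      rcases hx with rfl | rfl | rfl
      · exact Subgroup.subset_closure (by simp [S, hb])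
      · exact Subgroup.subset_closure (by simp [S, hc])
      · rw [hζc']
        exact Subgroup.subset_closure (by simp [S])
    exact fun g hg => h1 hg
  have hfix := hQ1 _ hinv (comm_of_closure hcS) a (Subgroup.subset_closure (by simp [S]))
  apply hk
  apply hthree
  rw [hfix, mul_inv_cancel]
  exact one_mem _

end Cfsg.Agent.Lib.Gross.QZero
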