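/-
The analysis of the prime `3`: a `2`-group `K₀ = [K₀, z]` with `z` of order `3` and `(z - 1) ^ 2 = 0` on a
faithful module in characteristic `3`, with `t` an involution commuting with `z` with `(z - 1) (t - 1) = 0`,
admits no `t` acting non-trivially on `K₀ / K₀'`.
-/
import Cfsg.Agent.Lib.Gross.CL
import Cfsg.Agent.Lib.Gross.QZero

set_option autoImplicit false

namespace Cfsg.Agent.Lib.Gross.QLemma

open Module Cfsg.Agent.Lib.HallHigman.Irr Cfsg.Agent.Lib.HallHigman.Core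
  Cfsg.Agent.Lib.Gross.CL Cfsg.Agent.Lib.Gross.QZero
open scoped commutatorElement

universe u v w

variable {F : Type u} [Field F] [IsAlgClosed F] [CharP F 3] {V : Type v} [AddCommGroup V] [Module F V]
  [FiniteDimensional F V] {H : Type w} [Group H] [Finite H]

theorem q_lemma (ρ : H →* End F V) (hρ : Function.Injective ρ) (K₀ : Subgroup H) (hK : IsPGroup 2 K₀) (z t : H)
    (hz : z ∈ Subgroup.normalizer (K₀ : Set H)) (ht : t ∈ Subgroup.normalizer (K₀ : Set H)) (hz3 : z ^ 3 = 1)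
    (hzt : z * t = t * z) (ht2 : t ^ 2 = 1) (hδ : (ρ z - 1) ^ 2 = 0) (htδ : (ρ z - 1) * (ρ t - 1) = 0)
    (hKz : ⁅K₀, Subgroup.zpowers z⁆ = K₀) (hnt : ∃ k ∈ K₀, k⁻¹ * (t * k * t⁻¹) ∉ ⁅K₀, K₀⁆) : False := by
  classical
  haveI : Fact (Nat.Prime 3) := ⟨Nat.prime_three⟩
  have hp3 : Nat.Prime 3 := Nat.prime_three
  have hq2 : ((2 : ℕ) : F) ≠ 0 := by
    intro h
    have h1 := (CharP.cast_eq_zero_iff F 3 2).mp h
    omega
  have hcl := class_le_two hq2 ρ K₀ hK z hz 0 (by simpa using hz3) (by simpa using hδ) (by simpa using hKz)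
  have hcl' : ∀ c ∈ ⁅K₀, K₀⁆, ∀ h ∈ K₀, c * h = h * c := fun c hc h hh => hρ (by
    rw [map_mul, map_mul]
    exact hcl c hc h hh)
  have hN1 : K₀ ≤ Subgroup.normalizer (K₀ : Set H) := Subgroup.le_normalizer
  have hCK : ⁅K₀, K₀⁆ ≤ K₀ := Cfsg.Agent.Lib.Coprime.Action.commutator_le_of_le_normalizer hN1
  have hNorm : ∀ s ∈ Subgroup.normalizer (K₀ : Set H), s ∈ Subgroup.normalizer ((⁅K₀, K₀⁆ : Subgroup H) : Set H) := by
    intro s hs
    have h1 : Subgroup.zpowers s ≤ Subgroup.normalizer (K₀ : Set H) := Subgroup.zpowers_le.mpr hs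
    exact Cfsg.Agent.Lib.Coprime.Action.le_normalizer_commutator_of_le h1 h1 (Subgroup.mem_zpowers s)
  -- abelian invariant subgroups are centralized by `z`
  have hfixz : ∀ B : Subgroup H, B ≤ K₀ → z ∈ Subgroup.normalizer (B : Set H) →
      (∀ g ∈ B, ∀ h ∈ B, g * h = h * g) → ∀ g ∈ B, z * g * z⁻¹ = g := by
    intro B hB hzB hab g hg
    have hcB : (Nat.card B : F) ≠ 0 := by
      obtain ⟨e, he⟩ := IsPGroup.iff_card.mp (hK.to_le hB)
      rw [he]
      push_cast
      exact pow_ne_zero _ (by simpa using hq2)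
    have h1 := conj_fixed ρ B hcB (fun a ha b hb => by
      rw [← map_mul, ← map_mul, hab a ha b hb]) z hzB hp3 0 (by simpa using hz3)
      (by
        rw [sum_pow_eq (K := F) (p := 3)]
        simpa using hδ) g hg
    have h2 := hρ h1
    simpa using h2
  have hzK' := hfixz _ hCK (hNorm z hz) (fun g hg h hh => hcl' g hg h (hCK hh))
  -- `t` centralizes the derived subgroup
  have htfix : ∀ c ∈ ⁅K₀, K₀⁆, t * c * t⁻¹ = c := by
    intro c hc
    set δ := ρ z - 1 with hδdef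
    have hzc : ∀ c ∈ ⁅K₀, K₀⁆, ρ c * δ = δ * ρ c := by
      intro c hc
      have h1 : z * c = c * z := by
        have := hzK' c hc
        exact mul_inv_eq_iff_eq_mul.mp this
      have h2 : ρ z * ρ c = ρ c * ρ z := by rw [← map_mul, ← map_mul, h1]
      rw [hδdef, mul_sub, sub_mul, mul_one, one_mul, h2]
    have hzt' : ρ z * ρ t = ρ t * ρ z := by rw [← map_mul, ← map_mul, hzt]
    have htδ1 : ρ t * δ = δ := by
      have h1 : δ * ρ t = δ := by
        have h2 : δ * (ρ t - 1) = 0 := htδ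
        rw [mul_sub, mul_one, sub_eq_zero] at h2
        exact h2
      have h3 : ρ t * δ = δ * ρ t := by
        rw [hδdef, mul_sub, sub_mul, mul_one, one_mul, hzt']
      rw [h3, h1]
    have htδ2 : ρ t⁻¹ * δ = δ := by
      have e1 : ρ t⁻¹ * ρ t = 1 := by rw [← map_mul, inv_mul_cancel, map_one]
      calc ρ t⁻¹ * δ = ρ t⁻¹ * (ρ t * δ) := by rw [htδ1]
        _ = (ρ t⁻¹ * ρ t) * δ := by noncomm_ring
        _ = δ := by rw [e1, one_mul]
    have hCmem : t * c * t⁻¹ ∈ ⁅K₀, K₀⁆ := conj_mem_of_mem_normalizer (hNorm t ht) hc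
    set d := c⁻¹ * (t * c * t⁻¹) with hd
    have hdK' : d ∈ ⁅K₀, K₀⁆ := Subgroup.mul_mem _ (Subgroup.inv_mem _ hc) hCmem
    have hdK : d ∈ K₀ := hCK hdK'
    have hdδ : ρ d * δ = δ := by
      have e1 : ρ (t * c * t⁻¹) * δ = ρ c * δ := by
        calc ρ (t * c * t⁻¹) * δ = ρ t * ρ c * (ρ t⁻¹ * δ) := by
              rw [map_mul, map_mul]
              noncomm_ring
          _ = ρ t * (ρ c * δ) := by rw [htδ2]; noncomm_ring
          _ = (ρ t * δ) * ρ c := by rw [hzc c hc]; noncomm_ring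
          _ = δ * ρ c := by rw [htδ1]
          _ = ρ c * δ := (hzc c hc).symm
      have e2 : ρ c⁻¹ * ρ c = 1 := by rw [← map_mul, inv_mul_cancel, map_one]
      calc ρ d * δ = ρ c⁻¹ * (ρ (t * c * t⁻¹) * δ) := by rw [hd, map_mul]; noncomm_ring
        _ = (ρ c⁻¹ * ρ c) * δ := by rw [e1]; noncomm_ring
        _ = δ := by rw [e2, one_mul]
    let Y₀ : Submodule F V := Submodule.span F {v | ∃ k ∈ K₀, ∃ w, v = ρ k (δ w)}
    have hYinv : ∀ k ∈ K₀, ∀ y ∈ Y₀, ρ k y ∈ Y₀ := by
      intro k hk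
      have h1 : Y₀ ≤ Y₀.comap (ρ k) := by
        rw [Submodule.span_le]
        rintro _ ⟨k', hk', w, rfl⟩
        change ρ k (ρ k' (δ w)) ∈ Y₀
        rw [← Module.End.mul_apply, ← map_mul]
        exact Submodule.subset_span ⟨_, K₀.mul_mem hk hk', w, rfl⟩
      exact fun y hy => h1 hy
    have hδY : ∀ w, δ w ∈ Y₀ := fun w => Submodule.subset_span ⟨1, K₀.one_mem, w, by simp⟩
    have hdY : ∀ y ∈ Y₀, ρ d y = y := by
      intro y hy
      induction hy using Submodule.span_induction with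
      | mem y hy =>
        obtain ⟨k, hk, w, rfl⟩ := hy
        have h1 : ρ d * ρ k = ρ k * ρ d := hcl d hdK' k hk
        rw [← Module.End.mul_apply, h1, Module.End.mul_apply, ← Module.End.mul_apply (ρ d), hdδ]
      | zero => simp
      | add x y _ _ hx hy => rw [map_add, hx, hy]
      | smul a x _ hx => rw [map_smul, hx]
    let L₀ : Subgroup H :=
      { carrier := {g | ∀ v, ρ g v - v ∈ Y₀}
        mul_mem' := by
          intro a b ha hb v
          have e : ρ (a * b) v - v = (ρ a (ρ b v) - ρ b v) + (ρ b v - v) := by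
            rw [map_mul, Module.End.mul_apply]
            abel
          rw [e]
          exact Y₀.add_mem (ha _) (hb _)
        one_mem' := by
          intro v
          simp
        inv_mem' := by
          intro a ha v
          have h1 := ha (ρ a⁻¹ v)
          rw [rho_apply_inv] at h1
          have e : ρ a⁻¹ v - v = -(v - ρ a⁻¹ v) := by abel
          rw [e]
          exact Y₀.neg_mem h1 }
    have hzL : z ∈ L₀ := fun v => hδY v
    have hKL : K₀ ≤ L₀ := by
      rw [← hKz, Subgroup.commutator_le]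
      intro k hk s hs v
      have hsL : s ∈ L₀ := (Subgroup.zpowers_le.mpr hzL) hs
      have h1 : ρ s (ρ k⁻¹ (ρ s⁻¹ v)) - ρ k⁻¹ (ρ s⁻¹ v) ∈ Y₀ := hsL _
      have h2 := hYinv k hk _ h1
      rw [map_sub, rho_apply_inv] at h2
      have h3 : ρ s⁻¹ v - v ∈ Y₀ := (L₀.inv_mem hsL) v
      have e : ρ ⁅k, s⁆ v - v = (ρ k (ρ s (ρ k⁻¹ (ρ s⁻¹ v))) - ρ s⁻¹ v) + (ρ s⁻¹ v - v) := by
        rw [commutatorElement_def, map_mul, map_mul, map_mul]
        simp only [Module.End.mul_apply]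
        abel
      rw [e]
      exact Y₀.add_mem h2 h3
    have hd2 : (ρ d - 1) ^ 2 = 0 := by
      ext v
      have h1 := hdY _ (hKL hdK v)
      rw [map_sub, sub_eq_iff_eq_add] at h1
      rw [pow_two, Module.End.mul_apply]
      simp only [LinearMap.sub_apply, Module.End.one_apply, map_sub, LinearMap.zero_apply]
      rw [h1]
      abel
    have hd3 : ρ (d ^ 3) = 1 := by
      have h1 := sub_one_pow (K := F) (p := 3) (ρ d) 1
      rw [pow_one, show (3 : ℕ) = 2 + 1 from rfl, pow_add, hd2, zero_mul, eq_comm, sub_eq_zero] at h1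
      rw [map_pow]
      exact h1
    have hd3' : d ^ 3 = 1 := hρ (by rw [hd3, map_one])
    obtain ⟨m, hm⟩ := hK ⟨d, hdK⟩
    have hm' : d ^ 2 ^ m = 1 := congrArg Subtype.val hm
    have h7 := pow_gcd_eq_one.mpr ⟨hm', hd3'⟩
    have h8 : Nat.gcd (2 ^ m) 3 = 1 := Nat.Coprime.pow_left m (by norm_num)
    rw [h8, pow_one, hd, inv_mul_eq_one] at h7
    exact h7.symm
  -- apply the group theoretic lemma
  refine q_zero hK (conjOn K₀ z hz) (conjOn K₀ t ht) ?_ ?_ ?_ ?_ ?_ ?_ ?_ ?_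
  · intro a
    apply Subtype.ext
    simp only [conjOn_val]
    calc z * (z * (z * a.1 * z⁻¹) * z⁻¹) * z⁻¹ = (z ^ 3) * a.1 * (z ^ 3)⁻¹ := by
          rw [pow_succ, pow_two]
          group
      _ = _ := by rw [hz3]; group
  · intro a
    apply Subtype.ext
    simp only [conjOn_val]
    calc t * (t * a.1 * t⁻¹) * t⁻¹ = (t ^ 2) * a.1 * (t ^ 2)⁻¹ := by
          rw [pow_two]
          group
      _ = _ := by rw [ht2]; group
  · intro a
    apply Subtype.ext
    simp only [conjOn_val]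
    calc z * (t * a.1 * t⁻¹) * z⁻¹ = (z * t) * a.1 * (z * t)⁻¹ := by group
      _ = (t * z) * a.1 * (t * z)⁻¹ := by rw [hzt]
      _ = _ := by group
  · intro a b
    rw [Subgroup.mem_center_iff]
    intro g
    apply Subtype.ext
    exact (hcl' _ (Subgroup.commutator_mem_commutator a.2 b.2) g.1 g.2).symm
  · exact closure_eq_top K₀ z hz (isOfFinOrder_of_finite z) hKz
  · intro B hB hab g hg
    let B' : Subgroup H := B.map K₀.subtype
    have hB'K : B' ≤ K₀ := Subgroup.map_subtype_le _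
    have hzB' : z ∈ Subgroup.normalizer (B' : Set H) := by
      rw [Subgroup.mem_normalizer_iff]
      intro h
      constructor
      · rintro ⟨b, hb, rfl⟩
        exact ⟨_, hB b hb, rfl⟩
      · rintro ⟨b, hb, hbh⟩
        refine ⟨_, hB _ (hB b hb), ?_⟩
        have h1 : b.1 = z * h * z⁻¹ := hbh
        change z * (z * b.1 * z⁻¹) * z⁻¹ = h
        rw [h1]
        have h2 : z * z * z = 1 := by
          rw [← hz3, pow_succ, pow_two]
        calc z * (z * (z * h * z⁻¹) * z⁻¹) * z⁻¹ = (z * z * z) * h * (z * z * z)⁻¹ := by group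
          _ = h := by rw [h2]; group
    have h1 := hfixz B' hB'K hzB' (by
      rintro _ ⟨a, ha, rfl⟩ _ ⟨b, hb, rfl⟩
      exact congrArg Subtype.val (hab a ha b hb)) g.1 ⟨g, hg, rfl⟩
    exact Subtype.ext h1
  · intro c hc
    apply Subtype.ext
    apply htfix
    have h1 : (commutator K₀).map K₀.subtype = ⁅K₀, K₀⁆ := Subgroup.map_subtype_commutator K₀
    rw [← h1]
    exact ⟨c, hc, rfl⟩
  · obtain ⟨k, hk, hk'⟩ := hnt
    refine ⟨⟨k, hk⟩, fun h => hk' ?_⟩
    have h1 : (commutator K₀).map K₀.subtype = ⁅K₀, K₀⁆ := Subgroup.map_subtype_commutator K₀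
    rw [← h1]
    exact ⟨_, h, rfl⟩

end Cfsg.Agent.Lib.Gross.QLemma
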