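/-
The analysis of the configuration in Gross's theorem: a `2`-group `U`, a `2`-element `x` and an `s`-group `S`,
with `[S, t]` acting non-trivially on `U`, cannot exist when `O_2(G) = 1` and the norms of the `2`-elements vanish
on a faithful module.
-/
import Cfsg.Agent.Lib.Gross.Mismatch
import Cfsg.Agent.Lib.Gross.QLemma
import Cfsg.Agent.Lib.Gross.ConfigAux
import Cfsg.Agent.Lib.Solvable.Fitting

set_option autoImplicit false

namespace Cfsg.Agent.Lib.Gross.Config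

open Cfsg
open Module Cfsg.Agent.Lib.HallHigman.Irr Cfsg.Agent.Lib.HallHigman.Core Cfsg.Agent.Lib.Gross.CL
  Cfsg.Agent.Lib.Gross.ConfigAux Cfsg.Agent.Lib.Coprime.Action Cfsg.Agent.Lib.Core.Basic
open scoped commutatorElement

universe u v w

theorem prime_cast_ne_zero (K : Type u) [Field K] [CharP K 2] {s : ℕ} (hp : s.Prime) (hs : s ≠ 2) :
    (s : K) ≠ 0 := by
  intro h
  have h5 := (CharP.cast_eq_zero_iff K 2 s).mp h
  exact hs ((Nat.prime_dvd_prime_iff_eq Nat.prime_two hp).mp h5).symm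

section Step3

variable {K : Type u} [Field K] [IsAlgClosed K] [CharP K 2] {V : Type v} [AddCommGroup V] [Module K V]
  [FiniteDimensional K V] {G : Type w} [Group G] [Finite G]

/-- `z` centralizes `O_r(G)` for `r ≠ s`. -/
theorem z_centralizes_core (ρ : G →* End K V) (hρ : Function.Injective ρ) (n : ℕ) {s r : ℕ} [hsp : Fact s.Prime]
    [hrp : Fact r.Prime] (hs : s ≠ 2) (hr : r ≠ 2) (hsr : s ≠ r) (S₁ : Subgroup G) (hS₁ : IsPGroup s S₁) (x : G)
    (hxS₁ : x ∈ Subgroup.normalizer (S₁ : Set G)) (hxL : x ^ 2 ^ (n + 1) = 1)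
    (hNx : (ρ x - 1) ^ (2 ^ (n + 1) - 1) = 0) (hS₁t : ⁅S₁, Subgroup.zpowers (x ^ 2 ^ n)⁆ = S₁)
    (hcent : ∀ c ∈ ⁅S₁, S₁⁆, ∀ h ∈ S₁, c * h = h * c)
    (htZ : ∀ c ∈ ⁅S₁, S₁⁆, (x ^ 2 ^ n) * c = c * (x ^ 2 ^ n)) {z : G} (hz : z ∈ ⁅S₁, S₁⁆) :
    ∀ c ∈ pCore r G, z * c = c * z := by
  classical
  haveI h2p : Fact (Nat.Prime 2) := ⟨Nat.prime_two⟩
  set t := x ^ 2 ^ n with ht
  set Z := Subgroup.zpowers t with hZdef
  set A := pCore r G with hAdef
  have hA : IsPGroup r A := pCore_isPGroup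
  haveI hAn : A.Normal := inferInstance
  have hNA : ∀ a : G, a ∈ Subgroup.normalizer (A : Set G) := fun a => by
    rw [Subgroup.normalizer_eq_top]
    trivial
  have hZA : Z ≤ Subgroup.normalizer (A : Set G) := fun a _ => hNA a
  have ht2 : t ^ 2 ^ 1 = 1 := by
    rw [ht, ← pow_mul, show 2 ^ n * 2 ^ 1 = 2 ^ (n + 1) by ring]
    exact hxL
  have hZ2 : IsPGroup 2 Z := isPGroup_zpowers ht2
  have hcop : (Nat.card Z).Coprime (Nat.card A) :=
    IsPGroup.coprime_card_of_ne 2 r (Ne.symm hr) Z A hZ2 hA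
  set D := ⁅A, Z⁆ with hDdef
  have hDA : D ≤ A := commutator_le_of_le_normalizer hZA
  have hDr : IsPGroup r D := hA.to_le hDA
  have hDt : ⁅D, Z⁆ = D := commutator_commutator_eq hZA hcop (Or.inl inferInstance)
  have hxZ : Subgroup.zpowers x ≤ Subgroup.normalizer (Z : Set G) :=
    Subgroup.zpowers_le.mpr (mem_normalizer_zpowers_pow x _)
  have hxD : x ∈ Subgroup.normalizer (D : Set G) :=
    le_normalizer_commutator_of_le (T := Subgroup.zpowers x) (fun a _ => hNA a) hxZ (Subgroup.mem_zpowers x)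
  set Z₁ := ⁅S₁, S₁⁆ with hZ₁def
  have hZ₁S₁ : Z₁ ≤ S₁ := commutator_le_of_le_normalizer Subgroup.le_normalizer
  have hxZ₁ : x ∈ Subgroup.normalizer (Z₁ : Set G) :=
    le_normalizer_commutator_of_le (T := Subgroup.zpowers x) (Subgroup.zpowers_le.mpr hxS₁)
      (Subgroup.zpowers_le.mpr hxS₁) (Subgroup.mem_zpowers x)
  have hZ₁D : Z₁ ≤ Subgroup.normalizer (D : Set G) :=
    le_normalizer_commutator_of_le (T := Z₁) (fun a _ => hNA a)
      (fun c hc => mem_normalizer_zpowers_of_comm (htZ c hc).symm)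
  have hmis := Cfsg.Agent.Lib.Gross.Mismatch.mismatch (ρ := ρ) (prime_cast_ne_zero K hsp.out hs)
    (prime_cast_ne_zero K hrp.out hr) hs hr hsr S₁ D Z₁ hS₁ hDr x hxS₁ hxD n hxL hNx hS₁t hDt hZ₁S₁ hxZ₁ hZ₁D
  have hzD : ∀ d ∈ D, z * d = d * z := fun d hd => hρ (by
    rw [map_mul, map_mul]
    exact hmis z hz d hd)
  let Y : Subgroup G := A ⊓ Subgroup.centralizer {z}
  have hYm : ∀ c, c ∈ Y ↔ c ∈ A ∧ z * c = c * z := by
    intro c
    rw [Subgroup.mem_inf, Subgroup.mem_centralizer_singleton_iff]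
    constructor
    · rintro ⟨h1, h2⟩
      exact ⟨h1, h2.symm⟩
    · rintro ⟨h1, h2⟩
      exact ⟨h1, h2.symm⟩
  have hNY : ∀ a : G, a * z = z * a → a ∈ Subgroup.normalizer (Y : Set G) := by
    have key : ∀ a : G, a * z = z * a → ∀ c ∈ Y, a * c * a⁻¹ ∈ Y := by
      intro a ha c hc
      obtain ⟨h1, h2⟩ := (hYm c).mp hc
      refine (hYm _).mpr ⟨conj_mem_of_mem_normalizer (hNA a) h1, ?_⟩
      have h3 : a⁻¹ * z = z * a⁻¹ := (Commute.inv_left (show Commute a z from ha)).eq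
      calc z * (a * c * a⁻¹) = (z * a) * c * a⁻¹ := by group
        _ = a * (z * c) * a⁻¹ := by rw [← ha]; group
        _ = a * (c * z) * a⁻¹ := by rw [h2]
        _ = a * c * (z * a⁻¹) := by group
        _ = a * c * (a⁻¹ * z) := by rw [h3]
        _ = _ := by group
    intro a ha
    refine mem_normalizer_of_forall (key a ha) (fun c hc => ?_)
    have h3 := key a⁻¹ (Commute.inv_left (show Commute a z from ha)).eq c hc
    simpa using h3
  have hS₁z : ∀ a ∈ S₁, a * z = z * a := fun a ha => (hcent z hz a ha).symm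
  have htz : t * z = z * t := htZ z hz
  have h1 : ∀ a ∈ S₁, a * t * a⁻¹ ∈ TrivMod A Y := by
    intro a ha
    have haz := hS₁z a ha
    have hz' : (a * t * a⁻¹) * z = z * (a * t * a⁻¹) := by
      have h3 : a⁻¹ * z = z * a⁻¹ := (Commute.inv_left (show Commute a z from haz)).eq
      calc (a * t * a⁻¹) * z = a * t * (a⁻¹ * z) := by group
        _ = a * t * (z * a⁻¹) := by rw [h3]
        _ = a * (t * z) * a⁻¹ := by group
        _ = a * (z * t) * a⁻¹ := by rw [htz]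
        _ = (a * z) * t * a⁻¹ := by group
        _ = (z * a) * t * a⁻¹ := by rw [haz]
        _ = _ := by group
    refine mem_trivMod.mpr ⟨hNA _, hNY _ hz', fun c hc => ?_⟩
    set c' := a⁻¹ * c * a with hc'
    have hc'A : c' ∈ A := inv_conj_mem_of_mem_normalizer (hNA a) hc
    set e := t * c' * t⁻¹ * c'⁻¹ with he
    have heD : e ∈ D := by
      have h3 : ⁅c', t⁆ ∈ D := Subgroup.commutator_mem_commutator hc'A (Subgroup.mem_zpowers t)
      have h4 := D.inv_mem h3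
      have e1 : ⁅c', t⁆⁻¹ = e := by
        rw [he, commutatorElement_def]
        group
      rwa [e1] at h4
    have e2 : (a * t * a⁻¹) * c * (a * t * a⁻¹)⁻¹ * c⁻¹ = a * e * a⁻¹ := by
      rw [he, hc']
      group
    rw [e2]
    refine (hYm _).mpr ⟨conj_mem_of_mem_normalizer (hNA a) (hDA heD), ?_⟩
    have h3 : a⁻¹ * z = z * a⁻¹ := (Commute.inv_left (show Commute a z from haz)).eq
    calc z * (a * e * a⁻¹) = (z * a) * e * a⁻¹ := by group
      _ = a * (z * e) * a⁻¹ := by rw [← haz]; group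
      _ = a * (e * z) * a⁻¹ := by rw [hzD e heD]
      _ = a * e * (z * a⁻¹) := by group
      _ = a * e * (a⁻¹ * z) := by rw [h3]
      _ = _ := by group
  have h2 := comm_le_trivMod (isOfFinOrder_of_finite t) h1
  rw [← hZdef, hS₁t] at h2
  have hzW := h2 (hZ₁S₁ hz)
  obtain ⟨-, -, h3⟩ := mem_trivMod.mp hzW
  obtain ⟨e, he⟩ := hS₁ ⟨z, hZ₁S₁ hz⟩
  have he' : z ^ s ^ e = 1 := congrArg Subtype.val he
  exact comm_of_comm_commutator (Ne.symm hsr) hA he' (hNA z) (fun c hc => ((hYm _).mp (h3 c hc)).2)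

end Step3

section Step4

variable {G : Type w} [Group G] [Finite G]

/-- The `2`-group `K₁` cannot centralize the Fitting subgroup. -/
theorem not_centralizes [Group.IsSolvable G] (hO2 : pCore 2 G = ⊥) {K₁ : Subgroup G} (hK₁ : IsPGroup 2 K₁)
    (hne : K₁ ≠ ⊥) (s : ℕ) (h : ∀ r : ℕ, ∀ _ : Fact r.Prime, r ≠ s → K₁ ≤ Subgroup.centralizer (pCore r G : Set G)) :
    ¬ K₁ ≤ Subgroup.centralizer (pCore s G : Set G) := by
  classical
  intro hs
  haveI h2p : Fact (Nat.Prime 2) := ⟨Nat.prime_two⟩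
  set F := fittingSubgroup G with hF
  have hC : K₁ ≤ Subgroup.centralizer (F : Set G) := by
    rw [Subgroup.le_centralizer_iff, hF, fittingSubgroup_eq_iSup_pCore]
    refine iSup_le (fun p => ?_)
    rw [← Subgroup.le_centralizer_iff]
    by_cases hp : (p : ℕ) = s
    · rw [hp]
      exact hs
    · exact h p ⟨p.2⟩ hp
  have hKF : K₁ ≤ F := hC.trans Cfsg.Agent.Lib.Solvable.Fitting.centralizer_fittingSubgroup_le
  apply hne
  rw [eq_bot_iff]
  intro g hg
  have hgc : ∀ f ∈ F, f * g = g * f := fun f hf => Subgroup.mem_centralizer_iff.mp (hC hg) f hf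
  obtain ⟨k, hk⟩ := hK₁ ⟨g, hg⟩
  have hk' : g ^ 2 ^ k = 1 := congrArg Subtype.val hk
  have h2 : IsPGroup 2 (Subgroup.zpowers g) := isPGroup_zpowers hk'
  have hle : Subgroup.zpowers g ≤ F := Subgroup.zpowers_le.mpr (hKF hg)
  have hFn : F.Normal := fittingSubgroup_normal'
  have hsub : (Subgroup.zpowers g).IsSubnormal := by
    refine Subgroup.IsSubnormal.step _ F hle hFn.isSubnormal ?_
    constructor
    intro n hn f
    rw [Subgroup.mem_subgroupOf] at hn ⊢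
    obtain ⟨i, hi⟩ := hn
    have h3 : Commute (f : G) g := hgc f f.2
    have h4 : Commute (f : G) (g ^ i) := h3.zpow_right i
    have h5 : (n : G) = g ^ i := hi.symm
    change (f : G) * (n : G) * (f : G)⁻¹ ∈ _
    rw [h5, h4.eq, mul_inv_cancel_right]
    exact ⟨i, rfl⟩
  have h3 := le_pCore_of_isSubnormal hsub h2
  rw [hO2] at h3
  exact h3 (Subgroup.mem_zpowers g)

end Step4

section Step5

variable {K : Type u} [Field K] [IsAlgClosed K] [CharP K 2] {V : Type v} [AddCommGroup V] [Module K V]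
  [FiniteDimensional K V] {G : Type w} [Group G] [Finite G]

/-- Relations on `O_s(G)`. -/
theorem comm_relations (ρ : G →* End K V) (hρ : Function.Injective ρ) (n : ℕ) {s : ℕ} [hsp : Fact s.Prime]
    (hs : s ≠ 2) (S₁ : Subgroup G) (hS₁ : IsPGroup s S₁) (x : G)
    (hxS₁ : x ∈ Subgroup.normalizer (S₁ : Set G)) (hxL : x ^ 2 ^ (n + 1) = 1)
    (hNx : (ρ x - 1) ^ (2 ^ (n + 1) - 1) = 0) (hS₁t : ⁅S₁, Subgroup.zpowers (x ^ 2 ^ n)⁆ = S₁)
    {z : G} (hz : z ∈ ⁅S₁, S₁⁆) :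
    (∀ c ∈ pCore s G, z * (z * c * z⁻¹ * c⁻¹) = (z * c * z⁻¹ * c⁻¹) * z) ∧
    (∀ c ∈ pCore s G, z * ((x ^ 2 ^ n) * c * (x ^ 2 ^ n)⁻¹ * c⁻¹) = ((x ^ 2 ^ n) * c * (x ^ 2 ^ n)⁻¹ * c⁻¹) * z) := by
  classical
  haveI h2p : Fact (Nat.Prime 2) := ⟨Nat.prime_two⟩
  set t := x ^ 2 ^ n with ht
  set Z := Subgroup.zpowers t with hZdef
  set R := pCore s G with hRdef
  have hR : IsPGroup s R := pCore_isPGroup
  haveI hRn : R.Normal := inferInstance
  have hNR : ∀ a : G, a ∈ Subgroup.normalizer (R : Set G) := fun a => by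
    rw [Subgroup.normalizer_eq_top]
    trivial
  have htS₁ : t ∈ Subgroup.normalizer (S₁ : Set G) := Subgroup.pow_mem _ hxS₁ _
  set T := S₁ ⊔ R with hTdef
  have hTs : IsPGroup s T := IsPGroup.to_sup_of_normal_right hS₁ hR
  have hxT : x ∈ Subgroup.normalizer (T : Set G) := mem_normalizer_sup hxS₁ (hNR x)
  have hZT : Z ≤ Subgroup.normalizer (T : Set G) := Subgroup.zpowers_le.mpr (Subgroup.pow_mem _ hxT _)
  have ht2 : t ^ 2 ^ 1 = 1 := by
    rw [ht, ← pow_mul, show 2 ^ n * 2 ^ 1 = 2 ^ (n + 1) by ring]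
    exact hxL
  have hZ2 : IsPGroup 2 Z := isPGroup_zpowers ht2
  have hcop : (Nat.card Z).Coprime (Nat.card T) :=
    IsPGroup.coprime_card_of_ne 2 s (Ne.symm hs) Z T hZ2 hTs
  set J := ⁅T, Z⁆ with hJdef
  have hJT : J ≤ T := commutator_le_of_le_normalizer hZT
  have hJs : IsPGroup s J := hTs.to_le hJT
  have hJt : ⁅J, Z⁆ = J := commutator_commutator_eq hZT hcop (Or.inl inferInstance)
  have hxZ : Subgroup.zpowers x ≤ Subgroup.normalizer (Z : Set G) :=
    Subgroup.zpowers_le.mpr (mem_normalizer_zpowers_pow x _)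
  have hxJ : x ∈ Subgroup.normalizer (J : Set G) :=
    le_normalizer_commutator_of_le (T := Subgroup.zpowers x) (Subgroup.zpowers_le.mpr hxT) hxZ (Subgroup.mem_zpowers x)
  have hcl := class_le_two (prime_cast_ne_zero K hsp.out hs) ρ J hJs x hxJ n hxL hNx hJt
  have hcl' : ∀ c ∈ ⁅J, J⁆, ∀ h ∈ J, c * h = h * c := fun c hc h hh => hρ (by
    rw [map_mul, map_mul]
    exact hcl c hc h hh)
  have hS₁J : S₁ ≤ J := by
    rw [← hS₁t]
    exact Subgroup.commutator_mono le_sup_left le_rfl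
  have hzJ' : z ∈ ⁅J, J⁆ := Subgroup.commutator_mono hS₁J hS₁J hz
  have hJ'J : ⁅J, J⁆ ≤ J := commutator_le_of_le_normalizer Subgroup.le_normalizer
  have hzJ : z ∈ J := hJ'J hzJ'
  have hTJ : T ≤ Subgroup.normalizer (J : Set G) := le_normalizer_comm_self T Z
  have hTJ' : T ≤ Subgroup.normalizer ((⁅J, J⁆ : Subgroup G) : Set G) :=
    le_normalizer_commutator_of_le hTJ hTJ
  constructor
  · intro c hc
    have hcT : c ∈ T := (le_sup_right : R ≤ T) hc
    have h1 : c * z⁻¹ * c⁻¹ ∈ ⁅J, J⁆ := conj_mem_of_mem_normalizer (hTJ' hcT) (Subgroup.inv_mem _ hzJ')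
    have h2 : z * c * z⁻¹ * c⁻¹ ∈ ⁅J, J⁆ := by
      have h3 := Subgroup.mul_mem _ hzJ' h1
      convert h3 using 1
      group
    exact (hcl' _ h2 z hzJ).symm
  · intro c hc
    have hcT : c ∈ T := (le_sup_right : R ≤ T) hc
    have h1 : ⁅c, t⁆ ∈ J := Subgroup.commutator_mem_commutator hcT (Subgroup.mem_zpowers t)
    have h2 := J.inv_mem h1
    have e1 : ⁅c, t⁆⁻¹ = t * c * t⁻¹ * c⁻¹ := by
      rw [commutatorElement_def]
      group
    rw [e1] at h2
    exact hcl' z hzJ' _ h2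

end Step5

section Final

/-- The module over `𝔽_s` of the faithful quotient: the final contradiction, in the group acting faithfully. -/
theorem final_core {s : ℕ} [hsp : Fact s.Prime] (hs : s ≠ 2) {F : Type u} [Field F] [IsAlgClosed F] [CharP F s]
    {V : Type v} [AddCommGroup V] [Module F V] [FiniteDimensional F V] {H : Type w} [Group H] [Finite H]
    (ρ : H →* End F V) (hρ : Function.Injective ρ) (K₀ S₀ : Subgroup H) (hK₀ : IsPGroup 2 K₀) (z t : H)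
    (hzS : z ∈ S₀) (hSK : S₀ ≤ Subgroup.normalizer (K₀ : Set H)) (htK : t ∈ Subgroup.normalizer (K₀ : Set H))
    (hzt : z * t = t * z) (ht2 : t ^ 2 = 1) (hδ : (ρ z - 1) ^ 2 = 0) (htδ : (ρ z - 1) * (ρ t - 1) = 0)
    (hKz : ⁅K₀, Subgroup.zpowers z⁆ = K₀) (hSt : ⁅S₀, Subgroup.zpowers t⁆ = S₀) (hne : K₀ ≠ ⊥) : False := by
  classical
  haveI h2p : Fact (Nat.Prime 2) := ⟨Nat.prime_two⟩
  have hsp' : s.Prime := hsp.out
  have hs3 : 3 ≤ s := by
    have := hsp'.two_le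
    omega
  have hzK := hSK hzS
  have hq2 : ((2 : ℕ) : F) ≠ 0 := by
    intro h
    have h1 := (CharP.cast_eq_zero_iff F s 2).mp h
    exact hs ((Nat.prime_dvd_prime_iff_eq hsp' Nat.prime_two).mp h1)
  -- `z ^ s = 1`
  have hpow0 : ∀ k, 2 ≤ k → (ρ z - 1) ^ k = 0 := by
    intro k hk
    obtain ⟨j, rfl⟩ := Nat.exists_eq_add_of_le hk
    rw [pow_add, hδ, zero_mul]
  have hzs : z ^ s = 1 := by
    apply hρ
    rw [map_pow, map_one]
    have h1 := sub_one_pow (K := F) (p := s) (ρ z) 1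
    rw [pow_one, hpow0 s (by omega)] at h1
    exact (sub_eq_zero.mp h1.symm)
  -- a nontrivial irreducible constituent
  obtain ⟨g₀, hg₀, hg₀1⟩ := (Subgroup.bot_or_exists_ne_one K₀).resolve_left hne
  have hρg₀ : ρ g₀ ≠ 1 := fun h => hg₀1 (hρ (by rw [h, map_one]))
  obtain ⟨U₁, hU₁, hnt⟩ := Cfsg.Agent.Lib.HallHigman.Reduction.exists_irr_nontrivial hq2 ρ K₀ hK₀ hg₀ hρg₀
  have hJ := Cfsg.Agent.Lib.Gross.J.thmJ (p := s) (q := 2) hq2 hs ρ K₀ hK₀ z hzK 0 (by simpa using hzs)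
    (by
      rw [zero_add, pow_one]
      exact hpow0 _ (by omega)) (by simpa using hKz) hU₁ hnt 2 hδ
  have hs3' : s = 3 := by
    rcases hJ with h | ⟨n₀, m, a, U, h1, h2, h3, h4, h5, -⟩
    · rw [zero_add, pow_one] at h
      omega
    · have hn₀ : n₀ = 1 := by omega
      subst hn₀
      simp only [zero_add, Nat.sub_self, pow_zero, one_mul, pow_one] at h5
      omega
  subst hs3'
  -- the action of `t` on `K₀ / K₀'` is nontrivial
  have hCK : ⁅K₀, K₀⁆ ≤ K₀ := commutator_le_of_le_normalizer Subgroup.le_normalizer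
  have hNK' : ∀ a ∈ Subgroup.normalizer (K₀ : Set H), a ∈ Subgroup.normalizer ((⁅K₀, K₀⁆ : Subgroup H) : Set H) := by
    intro a ha
    have h1 : Subgroup.zpowers a ≤ Subgroup.normalizer (K₀ : Set H) := Subgroup.zpowers_le.mpr ha
    exact le_normalizer_commutator_of_le h1 h1 (Subgroup.mem_zpowers a)
  refine Cfsg.Agent.Lib.Gross.QLemma.q_lemma ρ hρ K₀ hK₀ z t hzK htK (by simpa using hzs) hzt ht2 hδ htδ hKz ?_
  by_contra hcon
  push Not at hcon
  set Y := ⁅K₀, K₀⁆ with hY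
  have h1 : ∀ a ∈ S₀, a * t * a⁻¹ ∈ TrivMod K₀ Y := by
    intro a ha
    have haK := hSK ha
    have hconj : a * t * a⁻¹ ∈ Subgroup.normalizer (K₀ : Set H) :=
      Subgroup.mul_mem _ (Subgroup.mul_mem _ haK htK) (Subgroup.inv_mem _ haK)
    refine mem_trivMod.mpr ⟨hconj, hNK' _ hconj, fun c hc => ?_⟩
    set c' := a⁻¹ * c * a with hc'
    have hc'K : c' ∈ K₀ := inv_conj_mem_of_mem_normalizer haK hc
    have h2 := hcon c' hc'K
    have h3 : c' * (c'⁻¹ * (t * c' * t⁻¹)) * c'⁻¹ ∈ Y := by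
      have h4 : c' ∈ Subgroup.normalizer ((Y : Subgroup H) : Set H) := hNK' c' (Subgroup.le_normalizer hc'K)
      exact conj_mem_of_mem_normalizer h4 h2
    have e1 : (a * t * a⁻¹) * c * (a * t * a⁻¹)⁻¹ * c⁻¹ = a * (c' * (c'⁻¹ * (t * c' * t⁻¹)) * c'⁻¹) * a⁻¹ := by
      rw [hc']
      group
    rw [e1]
    exact conj_mem_of_mem_normalizer (hNK' a haK) h3
  have h2 := comm_le_trivMod (isOfFinOrder_of_finite t) h1
  rw [hSt] at h2
  have h3 : Subgroup.zpowers z ≤ TrivMod K₀ Y := Subgroup.zpowers_le.mpr (h2 hzS)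
  have h4 : K₀ ≤ Y := by
    have h5 : ⁅K₀, Subgroup.zpowers z⁆ ≤ Y := by
      rw [Subgroup.commutator_le]
      intro c hc y hy
      obtain ⟨-, -, h6⟩ := mem_trivMod.mp (h3 hy)
      have h7 := Y.inv_mem (h6 c hc)
      convert h7 using 1
      rw [commutatorElement_def]
      group
    rwa [hKz] at h5
  exact hne (eq_bot_of_perfect hK₀ h4)

/-- The final contradiction, for a representation of `G` in characteristic `s`. -/
theorem final_rep' {G : Type w} [Group G] [Finite G] {H : Type w} [Group H] [Finite H] {s : ℕ} [hsp : Fact s.Prime]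
    (hs : s ≠ 2) {F : Type u} [Field F] [IsAlgClosed F] [CharP F s]
    {V : Type v} [AddCommGroup V] [Module F V] [FiniteDimensional F V] (ρ₀ : G →* End F V)
    (f : G →* H) (ρ : H →* End F V) (hρ : Function.Injective ρ) (hρf : ∀ g, ρ (f g) = ρ₀ g)
    (K₁ S₁ : Subgroup G) (hK₁2 : IsPGroup 2 K₁) (t z : G) (ht2 : t ^ 2 = 1)
    (hS₁t : ⁅S₁, Subgroup.zpowers t⁆ = S₁) (hzS₁ : z ∈ S₁) (hzt : z * t = t * z)
    (hK₁t : ⁅K₁, Subgroup.zpowers z⁆ = K₁) (hS₁K₁ : S₁ ≤ Subgroup.normalizer (K₁ : Set G))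
    (htK₁ : t ∈ Subgroup.normalizer (K₁ : Set G))
    (hδ₀ : (ρ₀ z - 1) * (ρ₀ z - 1) = 0) (htδ₀ : (ρ₀ z - 1) * (ρ₀ t - 1) = 0)
    (hK₁L : ¬ K₁ ≤ ρ₀.ker) : False := by
  classical
  refine final_core hs ρ hρ (K₁.map f) (S₁.map f) (hK₁2.map f) (f z) (f t) (Subgroup.mem_map_of_mem f hzS₁) ?_
    (map_mem_normalizer f htK₁) (by rw [← map_mul, ← map_mul, hzt]) (by rw [← map_pow, ht2, map_one])
    (by rw [hρf, pow_two]; exact hδ₀) (by rw [hρf, hρf]; exact htδ₀) ?_ ?_ ?_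
  · rintro _ ⟨a, ha, rfl⟩
    exact map_mem_normalizer f (hS₁K₁ ha)
  · have e1 : ⁅K₁.map f, Subgroup.zpowers (f z)⁆ = (⁅K₁, Subgroup.zpowers z⁆ : Subgroup G).map f := by
      rw [Subgroup.map_commutator, MonoidHom.map_zpowers]
    rw [e1, hK₁t]
  · have e1 : ⁅S₁.map f, Subgroup.zpowers (f t)⁆ = (⁅S₁, Subgroup.zpowers t⁆ : Subgroup G).map f := by
      rw [Subgroup.map_commutator, MonoidHom.map_zpowers]
    rw [e1, hS₁t]
  · intro hbot
    apply hK₁L
    intro a ha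
    have h5 : f a ∈ K₁.map f := Subgroup.mem_map_of_mem f ha
    rw [hbot, Subgroup.mem_bot] at h5
    rw [MonoidHom.mem_ker, ← hρf, h5, map_one]

/-- The final contradiction. -/
theorem final_contra {G : Type w} [Group G] [Finite G] {s : ℕ} [hsp : Fact s.Prime] (hs : s ≠ 2) (U : Subgroup G)
    (hU : IsPGroup 2 U) (S₁ : Subgroup G) (hS₁ : IsPGroup s S₁) (t : G) (ht2 : t ^ 2 = 1)
    (hS₁t : ⁅S₁, Subgroup.zpowers t⁆ = S₁) {z : G} (hzS₁ : z ∈ S₁) (hzc : ∀ a ∈ S₁, z * a = a * z)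
    (hzt : z * t = t * z) (hS₁U : S₁ ≤ Subgroup.normalizer (U : Set G)) (htU : t ∈ Subgroup.normalizer (U : Set G))
    (R1 : ∀ c ∈ pCore s G, z * (z * c * z⁻¹ * c⁻¹) = (z * c * z⁻¹ * c⁻¹) * z)
    (R2 : ∀ c ∈ pCore s G, z * (t * c * t⁻¹ * c⁻¹) = (t * c * t⁻¹ * c⁻¹) * z)
    (hnc : ¬ ⁅U, Subgroup.zpowers z⁆ ≤ Subgroup.centralizer (pCore s G : Set G)) : False := by
  classical
  haveI h2p : Fact (Nat.Prime 2) := ⟨Nat.prime_two⟩
  have hzU : Subgroup.zpowers z ≤ Subgroup.normalizer (U : Set G) := Subgroup.zpowers_le.mpr (hS₁U hzS₁)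
  have hK₁U : ⁅U, Subgroup.zpowers z⁆ ≤ U := commutator_le_of_le_normalizer hzU
  have hK₁2 : IsPGroup 2 (⁅U, Subgroup.zpowers z⁆ : Subgroup G) := hU.to_le hK₁U
  obtain ⟨e, he⟩ := hS₁ ⟨z, hzS₁⟩
  have he' : z ^ s ^ e = 1 := congrArg Subtype.val he
  have hZzs : IsPGroup s (Subgroup.zpowers z) := isPGroup_zpowers he'
  have hcop : (Nat.card (Subgroup.zpowers z)).Coprime (Nat.card U) :=
    IsPGroup.coprime_card_of_ne s 2 hs (Subgroup.zpowers z) U hZzs hU
  have hK₁t : ⁅⁅U, Subgroup.zpowers z⁆, Subgroup.zpowers z⁆ = ⁅U, Subgroup.zpowers z⁆ :=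
    commutator_commutator_eq hzU hcop (Or.inl inferInstance)
  have hS₁K₁ : S₁ ≤ Subgroup.normalizer ((⁅U, Subgroup.zpowers z⁆ : Subgroup G) : Set G) :=
    le_normalizer_commutator_of_le hS₁U (fun a ha => mem_normalizer_zpowers_of_comm (hzc a ha).symm)
  have htK₁ : t ∈ Subgroup.normalizer ((⁅U, Subgroup.zpowers z⁆ : Subgroup G) : Set G) :=
    le_normalizer_commutator_of_le (T := Subgroup.zpowers t) (Subgroup.zpowers_le.mpr htU)
      (Subgroup.zpowers_le.mpr (mem_normalizer_zpowers_of_comm hzt.symm)) (Subgroup.mem_zpowers t)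
  obtain ⟨F, i1, i2, i3, V, i4, i5, i6, ρ₀, h1, h2, h3, h4⟩ :=
    Cfsg.Agent.Lib.Gross.Sect.exists_closed_rep (pCore s G) pCore_isPGroup
  let ρ₁ : G →* (End F V)ˣ := MonoidHom.toHomUnits ρ₀
  refine final_rep' hs ρ₀ (QuotientGroup.mk' ρ₁.ker) ((Units.coeHom (End F V)).comp (QuotientGroup.kerLift ρ₁))
    (fun a b hab => QuotientGroup.kerLift_injective ρ₁ (Units.ext hab))
    (fun g => MonoidHom.coe_toHomUnits ρ₀ g) _ S₁ hK₁2 t z ht2 hS₁t hzS₁ hzt hK₁t hS₁K₁ htK₁ (h4 z z R1) (h4 t z R2) ?_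
  intro hKL
  apply hnc
  have hcop2 : (Nat.card (⁅U, Subgroup.zpowers z⁆ : Subgroup G)).Coprime s := by
    obtain ⟨a, ha⟩ := IsPGroup.iff_card.mp hK₁2
    rw [ha]
    exact Nat.Coprime.pow_left a ((Nat.coprime_primes Nat.prime_two hsp.out).mpr (Ne.symm hs))
  have h5 := h2 _ hcop2 (fun a ha => hKL ha)
  intro a ha
  rw [Subgroup.mem_centralizer_iff]
  intro c hc
  exact (h5 a ha c hc).symm

/-- The configuration does not exist. -/
theorem config_false {K : Type u} [Field K] [IsAlgClosed K] [CharP K 2] {V : Type v} [AddCommGroup V] [Module K V]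
    [FiniteDimensional K V] {G : Type w} [Group G] [Finite G] [hsol : Group.IsSolvable G] (hO2 : pCore 2 G = ⊥)
    (ρ : G →* End K V) (hρ : Function.Injective ρ) (n : ℕ)
    (hexp : ∀ g : G, (∃ k, g ^ 2 ^ k = 1) → g ^ 2 ^ (n + 1) = 1)
    (hN : ∀ g : G, (∃ k, g ^ 2 ^ k = 1) → (ρ g - 1) ^ (2 ^ (n + 1) - 1) = 0)
    (U : Subgroup G) (hU : IsPGroup 2 U) (x : G) (hx2 : ∃ k, x ^ 2 ^ k = 1)
    (hxU : x ∈ Subgroup.normalizer (U : Set G))
    {s : ℕ} [hsp : Fact s.Prime] (hs : s ≠ 2) (S : Subgroup G) (hS : IsPGroup s S)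
    (hSU : S ≤ Subgroup.normalizer (U : Set G)) (hxS : x ∈ Subgroup.normalizer (S : Set G))
    (hne : ¬ ⁅S, Subgroup.zpowers (x ^ 2 ^ n)⁆ ≤ Subgroup.centralizer (U : Set G)) : False := by
  classical
  haveI h2p : Fact (Nat.Prime 2) := ⟨Nat.prime_two⟩
  have hxL := hexp x hx2
  have hNx := hN x hx2
  set t := x ^ 2 ^ n with ht
  set Z := Subgroup.zpowers t with hZdef
  have hZS : Z ≤ Subgroup.normalizer (S : Set G) := Subgroup.zpowers_le.mpr (Subgroup.pow_mem _ hxS _)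
  have ht2 : t ^ 2 ^ 1 = 1 := by
    rw [ht, ← pow_mul, show 2 ^ n * 2 ^ 1 = 2 ^ (n + 1) by ring]
    exact hxL
  have hZ2 : IsPGroup 2 Z := isPGroup_zpowers ht2
  have hcop : (Nat.card Z).Coprime (Nat.card S) := IsPGroup.coprime_card_of_ne 2 s (Ne.symm hs) Z S hZ2 hS
  set S₁ := ⁅S, Z⁆ with hS₁def
  have hS₁S : S₁ ≤ S := commutator_le_of_le_normalizer hZS
  have hS₁s : IsPGroup s S₁ := hS.to_le hS₁S
  have hS₁t : ⁅S₁, Z⁆ = S₁ := commutator_commutator_eq hZS hcop (Or.inl inferInstance)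
  have hxZ : Subgroup.zpowers x ≤ Subgroup.normalizer (Z : Set G) :=
    Subgroup.zpowers_le.mpr (mem_normalizer_zpowers_pow x _)
  have hxS₁ : x ∈ Subgroup.normalizer (S₁ : Set G) :=
    le_normalizer_commutator_of_le (T := Subgroup.zpowers x) (Subgroup.zpowers_le.mpr hxS) hxZ (Subgroup.mem_zpowers x)
  have hsK : (s : K) ≠ 0 := prime_cast_ne_zero K hsp.out hs
  have hcl := class_le_two hsK ρ S₁ hS₁s x hxS₁ n hxL hNx hS₁t
  have hcent : ∀ c ∈ ⁅S₁, S₁⁆, ∀ h ∈ S₁, c * h = h * c := fun c hc h hh => hρ (by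
    rw [map_mul, map_mul]
    exact hcl c hc h hh)
  have hZ₁S₁ : ⁅S₁, S₁⁆ ≤ S₁ := commutator_le_of_le_normalizer Subgroup.le_normalizer
  have hxZ₁ : x ∈ Subgroup.normalizer ((⁅S₁, S₁⁆ : Subgroup G) : Set G) :=
    le_normalizer_commutator_of_le (T := Subgroup.zpowers x) (Subgroup.zpowers_le.mpr hxS₁)
      (Subgroup.zpowers_le.mpr hxS₁) (Subgroup.mem_zpowers x)
  have htZ : ∀ c ∈ ⁅S₁, S₁⁆, t * c = c * t := by
    intro c hc
    have hcZ₁ : (Nat.card (⁅S₁, S₁⁆ : Subgroup G) : K) ≠ 0 := by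
      obtain ⟨e, he⟩ := IsPGroup.iff_card.mp (hS₁s.to_le hZ₁S₁)
      rw [he]
      push_cast
      exact pow_ne_zero _ hsK
    have h1 := conj_fixed ρ (⁅S₁, S₁⁆ : Subgroup G) hcZ₁ (fun a ha b hb => hcl a ha b (hZ₁S₁ hb)) x hxZ₁
      Nat.prime_two n hxL (by
        rw [Cfsg.Agent.Lib.HallHigman.Core.sum_pow_eq (K := K) (p := 2)]
        exact hNx) c hc
    have h2 : t * c * t⁻¹ = c := hρ h1
    exact mul_inv_eq_iff_eq_mul.mp h2
  have hm : ∀ u ∈ U, (u * x) ^ 2 ^ (n + 1) = 1 := by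
    intro u hu
    have hP : IsPGroup 2 ((Subgroup.zpowers x ⊔ U : Subgroup G)) := by
      obtain ⟨k, hk⟩ := hx2
      exact IsPGroup.to_sup_of_normal_right' (isPGroup_zpowers hk) hU (Subgroup.zpowers_le.mpr hxU)
    have hmem : u * x ∈ (Subgroup.zpowers x ⊔ U : Subgroup G) :=
      Subgroup.mul_mem _ ((le_sup_right : U ≤ _) hu) ((le_sup_left : Subgroup.zpowers x ≤ _) (Subgroup.mem_zpowers x))
    obtain ⟨k, hk⟩ := hP ⟨u * x, hmem⟩
    exact hexp _ ⟨k, congrArg Subtype.val hk⟩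
  have hS₁U : S₁ ≤ Subgroup.normalizer (U : Set G) := hS₁S.trans hSU
  have htU : t ∈ Subgroup.normalizer (U : Set G) := Subgroup.pow_mem _ hxU _
  -- Step 2: some `z` in `S₁'` does not centralize `U`
  have hZ₁U : ¬ (⁅S₁, S₁⁆ : Subgroup G) ≤ Subgroup.centralizer (U : Set G) := by
    intro hab
    have h1 := sect_U2 U hU x hxU n hxL hm S₁ hs hS₁s hS₁U hxS₁ hab
    rw [← ht, ← hZdef, hS₁t] at h1
    exact hne h1
  obtain ⟨z, hz, hzU⟩ := Set.not_subset.mp hZ₁U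
  have hzS₁ : z ∈ S₁ := hZ₁S₁ hz
  obtain ⟨e, he⟩ := hS₁s ⟨z, hzS₁⟩
  have he' : z ^ s ^ e = 1 := congrArg Subtype.val he
  have hZzU : Subgroup.zpowers z ≤ Subgroup.normalizer (U : Set G) := Subgroup.zpowers_le.mpr (hS₁U hzS₁)
  set K₁ := ⁅U, Subgroup.zpowers z⁆ with hK₁
  have hK₁2 : IsPGroup 2 K₁ := hU.to_le (commutator_le_of_le_normalizer hZzU)
  have hK₁ne : K₁ ≠ ⊥ := by
    intro hbot
    apply hzU
    rw [SetLike.mem_coe, Subgroup.mem_centralizer_iff]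
    intro u hu
    have h1 : ⁅u, z⁆ ∈ K₁ := Subgroup.commutator_mem_commutator hu (Subgroup.mem_zpowers z)
    rw [hbot, Subgroup.mem_bot] at h1
    exact commutatorElement_eq_one_iff_commute.mp h1
  -- Step 3
  have hcent2 : ∀ r : ℕ, ∀ _ : Fact r.Prime, r ≠ s → K₁ ≤ Subgroup.centralizer (pCore r G : Set G) := by
    intro r hr hrs
    by_cases hr2 : r = 2
    · subst hr2
      rw [hO2]
      intro a _
      rw [Subgroup.mem_centralizer_iff]
      intro c hc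
      have hc' : c = 1 := hc
      rw [hc', one_mul, mul_one]
    · have h1 := z_centralizes_core ρ hρ n hs hr2 (Ne.symm hrs) S₁ hS₁s x hxS₁ hxL hNx hS₁t hcent htZ hz
      have h2 : Subgroup.zpowers z ≤ Subgroup.centralizer (pCore r G : Set G) := by
        rw [Subgroup.zpowers_le, Subgroup.mem_centralizer_iff]
        intro c hc
        exact (h1 c hc).symm
      rw [hK₁, Subgroup.commutator_le]
      intro u _ w hw
      have hC : (Subgroup.centralizer (pCore r G : Set G)).Normal := inferInstance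
      have h3 := hC.conj_mem _ (h2 hw) u
      rw [commutatorElement_def]
      exact Subgroup.mul_mem _ h3 (Subgroup.inv_mem _ (h2 hw))
  have hnc := not_centralizes hO2 hK₁2 hK₁ne s hcent2
  obtain ⟨R1, R2⟩ := comm_relations ρ hρ n hs S₁ hS₁s x hxS₁ hxL hNx hS₁t hz
  have ht2' : t ^ 2 = 1 := by simpa using ht2
  exact final_contra hs U hU S₁ hS₁s t ht2' hS₁t hzS₁ (hcent z hz) (htZ z hz).symm hS₁U htU R1 R2 hnc

end Final

end Cfsg.Agent.Lib.Gross.Config
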