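/-
The key step in Gross's theorem: the last power of a `2`-element lies in `O_{2',2}(G)`.
-/
import Cfsg.Agent.Lib.Gross.Config
import Cfsg.Agent.Lib.HallHigman.Exponent
import Cfsg.Agent.Lib.Core.PSolvable2
import Cfsg.Agent.Lib.Core.Series

set_option autoImplicit false

namespace Cfsg.Agent.Lib.Gross.Key

open Cfsg
open Module Cfsg.Agent.Lib.HallHigman.Irr Cfsg.Agent.Lib.Gross.CL Cfsg.Agent.Lib.Gross.ConfigAux
  Cfsg.Agent.Lib.Core.Basic Cfsg.Agent.Lib.Core.PSolvable Cfsg.Agent.Lib.Core.PSolvable2 Cfsg.Agent.Lib.Core.Series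
open scoped commutatorElement Pointwise

universe u v w

/-- A Sylow `q`-subgroup maps onto a `q`-group. -/
theorem map_sylow_eq {B C : Type*} [Group B] [Group C] [Finite B] {q : ℕ} [Fact q.Prime] (f : B →* C)
    (A : Subgroup C) (hA : IsPGroup q A) (hf : f.range = A) (P : Sylow q B) : (P : Subgroup B).map f = A := by
  subst hf
  have hs : Function.Surjective f.rangeRestrict := f.rangeRestrict_surjective
  let P' := P.mapSurjective hs
  have h1 : (⊤ : Subgroup f.range) = P' := P'.is_maximal' (hA.of_equiv Subgroup.topEquiv.symm) le_top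
  apply le_antisymm
  · rintro _ ⟨a, _, rfl⟩
    exact ⟨a, rfl⟩
  · intro y hy
    have h2 : (⟨y, hy⟩ : f.range) ∈ (P' : Subgroup f.range) := by
      rw [← h1]
      trivial
    obtain ⟨a, ha, hae⟩ := h2
    exact ⟨a, ha, congrArg Subtype.val hae⟩

/-- The Frattini argument for a subgroup normalized by an element. -/
theorem exists_mem_normalizer_of_sylow {G : Type w} [Group G] [Finite G] {q : ℕ} [Fact q.Prime] (D : Subgroup G)
    (P : Sylow q D) (x : G) (hx : x ∈ Subgroup.normalizer (D : Set G)) :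
    ∃ d ∈ D, d⁻¹ * x ∈ Subgroup.normalizer (((P : Subgroup D).map D.subtype : Subgroup G) : Set G) := by
  classical
  let φ : MulAut D := conjOn D x hx
  let P' : Sylow q D := φ • P
  obtain ⟨d, hd⟩ := MulAction.exists_smul_eq D P P'
  refine ⟨d.1, d.2, ?_⟩
  have h1 : ∀ a ∈ (P : Subgroup D), ∃ b ∈ (P : Subgroup D), d.1 * b.1 * d.1⁻¹ = x * a.1 * x⁻¹ := by
    intro a ha
    have h2 : φ a ∈ (P' : Subgroup D) := ⟨a, ha, rfl⟩
    rw [← hd, Sylow.coe_subgroup_smul] at h2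
    obtain ⟨b, hb, hbe⟩ := h2
    exact ⟨b, hb, congrArg Subtype.val hbe⟩
  have h3 : ∀ b ∈ (P : Subgroup D), ∃ a ∈ (P : Subgroup D), d.1 * b.1 * d.1⁻¹ = x * a.1 * x⁻¹ := by
    intro b hb
    have h2 : d * b * d⁻¹ ∈ (P' : Subgroup D) := by
      rw [← hd, Sylow.coe_subgroup_smul]
      exact ⟨b, hb, rfl⟩
    obtain ⟨a, ha, hae⟩ := h2
    exact ⟨a, ha, (congrArg Subtype.val hae).symm⟩
  refine mem_normalizer_of_forall ?_ ?_
  · rintro _ ⟨a, ha, rfl⟩
    obtain ⟨b, hb, hbe⟩ := h1 a ha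
    refine ⟨b, hb, ?_⟩
    change b.1 = d⁻¹.1 * x * a.1 * (d⁻¹.1 * x)⁻¹
    have e : d⁻¹.1 * x * a.1 * (d⁻¹.1 * x)⁻¹ = d.1⁻¹ * (x * a.1 * x⁻¹) * d.1 := by
      simp only [InvMemClass.coe_inv]
      group
    rw [e, ← hbe]
    group
  · rintro _ ⟨b, hb, rfl⟩
    obtain ⟨a, ha, hae⟩ := h3 b hb
    refine ⟨a, ha, ?_⟩
    change a.1 = (d⁻¹.1 * x)⁻¹ * b.1 * (d⁻¹.1 * x)
    have e : (d⁻¹.1 * x)⁻¹ * b.1 * (d⁻¹.1 * x) = x⁻¹ * (d.1 * b.1 * d.1⁻¹) * x := by
      simp only [InvMemClass.coe_inv]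
      group
    rw [e, hae]
    group

/-- The group-theoretic part: if the last power of a `2`-element is outside `O_{2',2}(G)`, the configuration
of Gross's theorem exists. -/
theorem exists_config {G : Type w} [Group G] [Finite G] [Group.IsSolvable G] (x : G) (n : ℕ)
    (hxL : x ^ 2 ^ (n + 1) = 1) (hy : x ^ 2 ^ n ∉ pPrimePCore 2 G) :
    ∃ (U : Subgroup G) (x₃ : G) (s : ℕ) (_ : Fact s.Prime) (S : Subgroup G), IsPGroup 2 U ∧ (∃ k, x₃ ^ 2 ^ k = 1) ∧
      x₃ ∈ Subgroup.normalizer (U : Set G) ∧ s ≠ 2 ∧ IsPGroup s S ∧ S ≤ Subgroup.normalizer (U : Set G) ∧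
      x₃ ∈ Subgroup.normalizer (S : Set G) ∧
      ¬ ⁅S, Subgroup.zpowers (x₃ ^ 2 ^ n)⁆ ≤ Subgroup.centralizer (U : Set G) := by
  classical
  haveI h2p : Fact (Nat.Prime 2) := ⟨Nat.prime_two⟩
  let N := pPrimeCore 2 G
  let T : Subgroup (G ⧸ N) := pCore 2 (G ⧸ N)
  let f₁ : G →* G ⧸ N := QuotientGroup.mk' N
  let f₂ : (G ⧸ N) →* (G ⧸ N) ⧸ T := QuotientGroup.mk' T
  let π : G →* (G ⧸ N) ⧸ T := f₂.comp f₁
  have hπs : Function.Surjective π := (QuotientGroup.mk'_surjective T).comp (QuotientGroup.mk'_surjective N)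
  have hπker : ∀ g, π g = 1 ↔ g ∈ pPrimePCore 2 G := fun g => QuotientGroup.eq_one_iff _
  have hord : orderOf (π x) = 2 ^ (n + 1) := by
    have h1 : (π x) ^ 2 ^ (n + 1) = 1 := by rw [← map_pow, hxL, map_one]
    have h2 : ¬ (π x) ^ 2 ^ n = 1 := by
      rw [← map_pow]
      exact fun h => hy ((hπker _).mp h)
    exact orderOf_eq_prime_pow h2 h1
  have hsolp : IsPSolvable 2 ((G ⧸ N) ⧸ T) := isPSolvable_of_isSolvable
  obtain ⟨s, hsp, Qh, hs2, hQs, hxQ, hQt, hQne, -⟩ :=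
    Cfsg.Agent.Lib.HallHigman.Reduction.exists_critical hsolp pCore_quotient_eq_bot (π x) n hord
  let M := pPrimePCore 2 G
  haveI hMn : M.Normal := pPrimePCore_normal
  obtain ⟨P⟩ : Nonempty (Sylow 2 M) := inferInstance
  let U : Subgroup G := (P : Subgroup M).map M.subtype
  have hU : IsPGroup 2 U := P.isPGroup'.map _
  have hFr : Subgroup.normalizer (U : Set G) ⊔ M = ⊤ := Sylow.normalizer_sup_eq_top P
  have hlift : ∀ g : G, ∃ g₀ ∈ Subgroup.normalizer (U : Set G), π g₀ = π g := by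
    intro g
    have hg : g ∈ Subgroup.normalizer (U : Set G) ⊔ M := by
      rw [hFr]
      trivial
    obtain ⟨a, ha, b, hb, rfl⟩ := Subgroup.mem_sup_of_normal_right.mp hg
    exact ⟨a, ha, by rw [map_mul, (hπker b).mpr hb, mul_one]⟩
  obtain ⟨x₁, hx₁U, hx₁π⟩ := hlift x
  let D₀ : Subgroup G := Subgroup.normalizer (U : Set G) ⊓ Qh.comap π
  have hD₀range : (π.comp D₀.subtype).range = Qh := by
    apply le_antisymm
    · rintro _ ⟨a, rfl⟩
      exact a.2.2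
    · intro y hy
      obtain ⟨g, rfl⟩ := hπs y
      obtain ⟨g₀, hg₀, he⟩ := hlift g
      refine ⟨⟨g₀, hg₀, ?_⟩, he⟩
      change π g₀ ∈ Qh
      rw [he]
      exact hy
  obtain ⟨P₂⟩ : Nonempty (Sylow s D₀) := inferInstance
  let S : Subgroup G := (P₂ : Subgroup D₀).map D₀.subtype
  have hSmap : S.map π = Qh := by
    have h1 := map_sylow_eq (π.comp D₀.subtype) Qh hQs hD₀range P₂
    rw [← h1]
    exact Subgroup.map_map _ _ _
  have hSs : IsPGroup s S := P₂.isPGroup'.map _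
  have hSD₀ : S ≤ D₀ := Subgroup.map_subtype_le _
  have hx₁D₀ : x₁ ∈ Subgroup.normalizer (D₀ : Set G) := by
    refine mem_normalizer_of_forall (fun g hg => ⟨?_, ?_⟩) (fun g hg => ⟨?_, ?_⟩)
    · exact Subgroup.mul_mem _ (Subgroup.mul_mem _ hx₁U hg.1) (Subgroup.inv_mem _ hx₁U)
    · change π _ ∈ Qh
      rw [map_mul, map_mul, map_inv, hx₁π]
      exact conj_mem_of_mem_normalizer hxQ hg.2
    · exact Subgroup.mul_mem _ (Subgroup.mul_mem _ (Subgroup.inv_mem _ hx₁U) hg.1) hx₁U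
    · change π _ ∈ Qh
      rw [map_mul, map_mul, map_inv, hx₁π]
      exact inv_conj_mem_of_mem_normalizer hxQ hg.2
  obtain ⟨d, hd, hdn⟩ := exists_mem_normalizer_of_sylow D₀ P₂ x₁ hx₁D₀
  have hπd : π d ∈ S.map π := by
    rw [hSmap]
    exact hd.2
  obtain ⟨e, he, hed⟩ := hπd
  let x₂ := e * (d⁻¹ * x₁)
  have hx₂S : x₂ ∈ Subgroup.normalizer (S : Set G) := Subgroup.mul_mem _ (Subgroup.le_normalizer he) hdn
  have hx₂U : x₂ ∈ Subgroup.normalizer (U : Set G) :=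
    Subgroup.mul_mem _ (hSD₀ he).1 (Subgroup.mul_mem _ (Subgroup.inv_mem _ hd.1) hx₁U)
  have hx₂π : π x₂ = π x := by
    change π (e * (d⁻¹ * x₁)) = π x
    rw [map_mul, map_mul, map_inv, hed, hx₁π, mul_inv_cancel_left]
  obtain ⟨a, b, hab, -, ha2, hbo, haz, hbz⟩ :=
    Cfsg.Agent.Lib.Core.Residual.exists_pPart_pPrimePart 2 x₂ (isOfFinOrder_of_finite _)
  have haU : a ∈ Subgroup.normalizer (U : Set G) := Subgroup.zpowers_le.mpr hx₂U haz
  have haS : a ∈ Subgroup.normalizer (S : Set G) := Subgroup.zpowers_le.mpr hx₂S haz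
  have hπb : π b = 1 := by
    have h1 : (π b) ^ orderOf b = 1 := by rw [← map_pow, pow_orderOf_eq_one, map_one]
    obtain ⟨i, hi⟩ := Subgroup.mem_zpowers_iff.mp hbz
    have h2 : (π b) ^ 2 ^ (n + 1) = 1 := by
      rw [← hi, map_zpow, hx₂π, ← zpow_natCast, zpow_comm, zpow_natCast, ← hord, pow_orderOf_eq_one, one_zpow]
    have h3 := pow_gcd_eq_one.mpr ⟨h1, h2⟩
    have h4 : Nat.gcd (orderOf b) (2 ^ (n + 1)) = 1 := Nat.Coprime.pow_right _ hbo
    rwa [h4, pow_one] at h3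
  have haπ : π a = π x := by
    rw [← hx₂π, ← hab, map_mul, hπb, mul_one]
  refine ⟨U, a, s, hsp, S, hU, ha2, haU, hs2, hSs, hSD₀.trans inf_le_left, haS, ?_⟩
  intro hB
  have hTU : U.map f₁ = T := by
    have hr : (f₁.comp M.subtype).range = T := by
      rw [MonoidHom.range_comp, Subgroup.range_subtype]
      exact map_mk_pPrimePCore
    have h1 := map_sylow_eq (f₁.comp M.subtype) T pCore_isPGroup hr P
    rw [← h1]
    exact Subgroup.map_map _ _ _
  have hTc : ∀ g ∈ ⁅S, Subgroup.zpowers (a ^ 2 ^ n)⁆, π g = 1 := by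
    intro g hg
    have h1 : f₁ g ∈ Subgroup.centralizer (T : Set (G ⧸ N)) := by
      rw [Subgroup.mem_centralizer_iff]
      intro τ hτ
      rw [SetLike.mem_coe, ← hTU] at hτ
      obtain ⟨u, hu, rfl⟩ := hτ
      have h2 := Subgroup.mem_centralizer_iff.mp (hB hg) u hu
      rw [← map_mul, ← map_mul, h2]
    have h2 := centralizer_pCore_le_of_isPSolvable (p := 2) (G := G ⧸ N) isPSolvable_of_isSolvable
      pPrimeCore_quotient_eq_bot h1
    exact (QuotientGroup.eq_one_iff _).mpr h2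
  apply hQne
  rw [← hQt, eq_bot_iff]
  have e1 : (π x) ^ 2 ^ n = π (a ^ 2 ^ n) := by rw [map_pow, haπ]
  rw [e1, ← MonoidHom.map_zpowers, ← hSmap, ← Subgroup.map_commutator]
  rintro _ ⟨g, hg, rfl⟩
  exact hTc g hg

/-- **Key step.** -/
theorem key {K : Type u} [Field K] [IsAlgClosed K] [CharP K 2] {V : Type v} [AddCommGroup V] [Module K V]
    [FiniteDimensional K V] {G : Type w} [Group G] [Finite G] [Group.IsSolvable G] (hO2 : pCore 2 G = ⊥)
    (ρ : G →* End K V) (hρ : Function.Injective ρ) (n : ℕ)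
    (hexp : ∀ g : G, (∃ k, g ^ 2 ^ k = 1) → g ^ 2 ^ (n + 1) = 1)
    (hN : ∀ g : G, (∃ k, g ^ 2 ^ k = 1) → (ρ g - 1) ^ (2 ^ (n + 1) - 1) = 0)
    (x : G) (hx2 : ∃ k, x ^ 2 ^ k = 1) : x ^ 2 ^ n ∈ pPrimePCore 2 G := by
  by_contra hy
  obtain ⟨U, x₃, s, hsp, S, hU, h3, h3U, hs, hSs, hSU, h3S, hne⟩ := exists_config x n (hexp x hx2) hy
  exact Cfsg.Agent.Lib.Gross.Config.config_false hO2 ρ hρ n hexp hN U hU x₃ h3 h3U hs S hSs hSU h3S hne

end Cfsg.Agent.Lib.Gross.Key
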