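/-
Gross's bound on the `2`-length.
-/
import Cfsg.Agent.Lib.Gross.Key

set_option autoImplicit false

namespace Cfsg.Agent.Lib.Gross.Final

open Cfsg
open Module Cfsg.Agent.Lib.Core.Basic Cfsg.Agent.Lib.Core.PSolvable Cfsg.Agent.Lib.Core.PSolvable2
  Cfsg.Agent.Lib.Core.PLength Cfsg.Agent.Lib.HallHigman.Exponent Cfsg.Agent.Lib.HallHigman.Core

universe u

/-- Two-elements lie in Sylow subgroups. -/
theorem exp_two_element {G : Type u} [Group G] [Finite G] [Fact (Nat.Prime 2)] {e : ℕ}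
    (hexp : ∀ (P : Sylow 2 G), ∀ x ∈ (P : Subgroup G), x ^ 2 ^ e = 1) (g : G) (hg : ∃ k, g ^ 2 ^ k = 1) :
    g ^ 2 ^ e = 1 := by
  obtain ⟨k, hk⟩ := hg
  obtain ⟨S, hS⟩ := (Cfsg.Agent.Lib.Gross.ConfigAux.isPGroup_zpowers hk).exists_le_sylow
  exact hexp S g (hS (Subgroup.mem_zpowers g))

/-- The faithful module of `G / O_{2',2}(G)`. -/
theorem exists_rep_of_exp {G : Type u} [Group G] [Finite G] [Fact (Nat.Prime 2)] (hS : IsPSolvable 2 G) (e : ℕ)
    (hexp : ∀ (P : Sylow 2 G), ∀ x ∈ (P : Subgroup G), x ^ 2 ^ e = 1) :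
    ∃ (V : Type u) (_ : AddCommGroup V) (_ : Module (ZMod 2) V) (_ : FiniteDimensional (ZMod 2) V)
      (ρ : ((G ⧸ pPrimeCore 2 G) ⧸ pCore 2 (G ⧸ pPrimeCore 2 G)) →* End (ZMod 2) V), Function.Injective ρ ∧
      ∀ x, (∃ k, x ^ 2 ^ k = 1) → (ρ x - 1) ^ (2 ^ e - 1) = 0 := by
  classical
  let N := pPrimeCore 2 G
  let f := QuotientGroup.mk' N
  have hf : Function.Surjective f := QuotientGroup.mk'_surjective N
  have hS₁ : IsPSolvable 2 (G ⧸ N) := isPSolvable_of_surjective f hf hS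
  have hred : pPrimeCore 2 (G ⧸ N) = ⊥ := pPrimeCore_quotient_eq_bot
  have hexp₁ := exponent_of_surjective f hf hexp
  let T := pCore 2 (G ⧸ N)
  let f₂ := QuotientGroup.mk' T
  have hf₂ : Function.Surjective f₂ := QuotientGroup.mk'_surjective T
  obtain ⟨V, i1, i2, i3, ρ, π, hinj, -, -, -, hnorm⟩ := exists_faithful_module hS₁ hred
  refine ⟨V, i1, i2, i3, ρ, hinj, ?_⟩
  intro x hx
  obtain ⟨k, hk⟩ := hx
  obtain ⟨P, hP⟩ := (Cfsg.Agent.Lib.Gross.ConfigAux.isPGroup_zpowers hk).exists_le_sylow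
  obtain ⟨S, rfl⟩ := Sylow.mapSurjective_surjective hf₂ 2 P
  obtain ⟨x', hx', rfl⟩ := hP (Subgroup.mem_zpowers x)
  have hm : ∀ t ∈ T, (t * x') ^ 2 ^ e = x' ^ 2 ^ e := by
    intro t ht
    have ht' : t ∈ (S : Subgroup (G ⧸ N)) := pCore_le_sylow S ht
    rw [hexp₁ S _ ((S : Subgroup (G ⧸ N)).mul_mem ht' hx'), hexp₁ S x' hx']
  have h0 := hnorm x' _ hm
  rw [sum_pow_eq (K := ZMod 2) (p := 2)] at h0
  exact h0

/-- The key step in the quotient. -/
theorem key_quotient {G : Type u} [Group G] [Finite G] [Group.IsSolvable G] [Fact (Nat.Prime 2)] (n : ℕ)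
    (hexp : ∀ (P : Sylow 2 G), ∀ x ∈ (P : Subgroup G), x ^ 2 ^ (n + 1) = 1)
    (x : (G ⧸ pPrimeCore 2 G) ⧸ pCore 2 (G ⧸ pPrimeCore 2 G)) (hx : ∃ k, x ^ 2 ^ k = 1) :
    x ^ 2 ^ n ∈ pPrimePCore 2 ((G ⧸ pPrimeCore 2 G) ⧸ pCore 2 (G ⧸ pPrimeCore 2 G)) := by
  classical
  obtain ⟨V, i1, i2, i3, ρ, hinj, hnorm⟩ := exists_rep_of_exp (G := G) isPSolvable_of_isSolvable (n + 1) hexp
  let K := AlgebraicClosure (ZMod 2)
  let b := Module.End.baseChangeHom (ZMod 2) K V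
  let ρ' := (b.toMonoidHom).comp ρ
  have hρ' : Function.Injective ρ' := fun h₁ h₂ h => hinj (LinearMap.baseChangeHom_injective (ZMod 2) V K h)
  have hf : Function.Surjective ((QuotientGroup.mk' (pCore 2 (G ⧸ pPrimeCore 2 G))).comp
      (QuotientGroup.mk' (pPrimeCore 2 G))) :=
    (QuotientGroup.mk'_surjective _).comp (QuotientGroup.mk'_surjective _)
  refine Cfsg.Agent.Lib.Gross.Key.key pCore_quotient_eq_bot ρ' hρ' n ?_ ?_ x hx
  · exact exp_two_element (exponent_of_surjective _ hf hexp)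
  · intro g hg
    have h1 := congrArg b (hnorm g hg)
    rw [map_pow, map_sub, map_one, map_zero] at h1
    exact h1

/-- Passing to `G / O_{2',2}(G)`. -/
theorem of_quot {G : Type u} [Group G] [Finite G] [Fact (Nat.Prime 2)] (b : ℕ)
    (hb : PLengthLE 2 b ((G ⧸ pPrimeCore 2 G) ⧸ pCore 2 (G ⧸ pPrimeCore 2 G))) : PLengthLE 2 (1 + b) G := by
  let N := pPrimeCore 2 G
  let f := QuotientGroup.mk' N
  have hf : Function.Surjective f := QuotientGroup.mk'_surjective N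
  let T := pCore 2 (G ⧸ N)
  let f₂ := QuotientGroup.mk' T
  have hf₂ : Function.Surjective f₂ := QuotientGroup.mk'_surjective T
  have h1 : PLengthLE 2 (1 + b) (G ⧸ N) := by
    refine PLengthLE.of_ker f₂ hf₂ ?_ hb
    rw [QuotientGroup.ker_mk']
    exact pLengthLE_one_of_isPGroup pCore_isPGroup
  have h2 : PLengthLE 2 (0 + (1 + b)) G := by
    refine PLengthLE.of_ker f hf ?_ h1
    rw [QuotientGroup.ker_mk']
    exact pLengthLE_zero_iff.mpr pPrimeCore_coprime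
  rwa [zero_add] at h2

/-- **Gross's theorem.** -/
theorem gross [Fact (Nat.Prime 2)] (m : ℕ) : ∀ (G : Type u) [Group G] [Finite G] [Group.IsSolvable G],
    (∀ (P : Sylow 2 G), ∀ x ∈ (P : Subgroup G), x ^ 2 ^ (m + 1) = 1) → PLengthLE 2 (2 * m + 1) G := by
  induction m with
  | zero =>
    intro G _ _ _ hexp
    change PLengthLE 2 (1 + 0) G
    apply of_quot
    rw [pLengthLE_zero_iff, Nat.coprime_comm, Nat.Prime.coprime_iff_not_dvd Nat.prime_two]
    intro hd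
    obtain ⟨V, i1, i2, i3, ρ, hinj, hnorm⟩ := exists_rep_of_exp (G := G) isPSolvable_of_isSolvable 1 hexp
    obtain ⟨x, hx⟩ := exists_prime_orderOf_dvd_card' (G := (G ⧸ pPrimeCore 2 G) ⧸ pCore 2 (G ⧸ pPrimeCore 2 G)) 2 hd
    have hx1 : x ^ 2 ^ 1 = 1 := by
      have h0 := pow_orderOf_eq_one x
      rw [hx] at h0
      simpa using h0
    have h1 := hnorm x ⟨1, hx1⟩
    have h2 : ρ x = 1 := by
      simpa [sub_eq_zero] using h1
    have h3 : x = 1 := hinj (by rw [h2, map_one])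
    rw [h3, orderOf_one] at hx
    omega
  | succ m ih =>
    intro G _ _ _ hexp
    have h2 : PLengthLE 2 (1 + (1 + (2 * m + 1))) G := by
      apply of_quot
      apply of_quot
      apply ih
      intro P x hx
      let G₂ := (G ⧸ pPrimeCore 2 G) ⧸ pCore 2 (G ⧸ pPrimeCore 2 G)
      have hf : Function.Surjective ((QuotientGroup.mk' (pCore 2 (G₂ ⧸ pPrimeCore 2 G₂))).comp
          (QuotientGroup.mk' (pPrimeCore 2 G₂))) :=
        (QuotientGroup.mk'_surjective _).comp (QuotientGroup.mk'_surjective _)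
      obtain ⟨S, rfl⟩ := Sylow.mapSurjective_surjective hf 2 P
      obtain ⟨x', hx', rfl⟩ := hx
      have h2el : ∃ k, x' ^ 2 ^ k = 1 := by
        obtain ⟨k, hk⟩ := S.isPGroup' ⟨x', hx'⟩
        exact ⟨k, congrArg Subtype.val hk⟩
      have h3 := key_quotient (G := G) (m + 1) hexp x' h2el
      rw [← map_pow]
      exact (QuotientGroup.eq_one_iff _).mpr h3
    have e : 2 * (m + 1) + 1 = 1 + (1 + (2 * m + 1)) := by omega
    rw [e]
    exact h2

end Cfsg.Agent.Lib.Gross.Final
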